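import Mathlib
import Cfsg.Agent.S2119

set_option autoImplicit false

namespace Cfsg.Agent.Lib.Helper25.AutAlt

open Equiv Equiv.Perm Cfsg.Agent.S2119

/-- conjugation `Sym(n) → Aut(Alt(n))` is injective for `n ≥ 4` (also for `n = 6`) -/
theorem conjNormal_inj (n : ℕ) (hn : 4 ≤ n) :
    Function.Injective
      (MulAut.conjNormal : Equiv.Perm (Fin n) →* MulAut ↥(alternatingGroup (Fin n))) := by
  have hcard4 : 4 ≤ Fintype.card (Fin n) := by rw [Fintype.card_fin]; exact hn
  rw [injective_iff_map_eq_one]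
  intro σ hσ
  by_contra hne
  obtain ⟨x, hx⟩ : ∃ x, σ x ≠ x := by
    by_contra hcon
    push Not at hcon
    exact hne (Perm.ext hcon)
  obtain ⟨z, w, hzx, hzy, hwx, hwy, hzw⟩ := exists_two_other hcard4 x (σ x)
  have hc : cyc (σ x) z w ∈ alternatingGroup (Fin n) :=
    (cyc_three (Ne.symm hzy) hzw (Ne.symm hwy)).mem_alternatingGroup
  have h := congrArg (fun f : MulAut (alternatingGroup (Fin n)) =>
    ((f ⟨_, hc⟩ : alternatingGroup (Fin n)) : Perm (Fin n))) hσ
  simp only [MulAut.conjNormal_apply, MulAut.one_apply] at h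
  have h2 := congrArg (fun f : Perm (Fin n) => f (σ x)) h
  simp only [mul_apply] at h2
  have e : σ⁻¹ (σ x) = x := by simp
  rw [e, cyc_other (Ne.symm hx) (Ne.symm hzx) (Ne.symm hwx),
    cyc_fst (Ne.symm hzy) hzw] at h2
  exact hzy h2.symm

/-- an automorphism of `Alt(n)` preserving the set of 3-cycles is a conjugation by a permutation -/
theorem surj_of_three (n : ℕ) (hn : 4 ≤ n) (φ : MulAut (alternatingGroup (Fin n)))
    (h3 : ∀ c : alternatingGroup (Fin n), (c : Perm (Fin n)).IsThreeCycle →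
      ((φ c : alternatingGroup (Fin n)) : Perm (Fin n)).IsThreeCycle) :
    ∃ σ : Perm (Fin n), MulAut.conjNormal σ = φ := by
  obtain ⟨o₀, o₁, i₂, i₃, h01, h20, h21, h30, h31, h23⟩ : ∃ o₀ o₁ i₂ i₃ : Fin n,
      o₀ ≠ o₁ ∧ i₂ ≠ o₀ ∧ i₂ ≠ o₁ ∧ i₃ ≠ o₀ ∧ i₃ ≠ o₁ ∧ i₂ ≠ i₃ :=
    ⟨⟨0, by omega⟩, ⟨1, by omega⟩, ⟨2, by omega⟩, ⟨3, by omega⟩, by simp [Fin.ext_iff]⟩
  have hcm : ∀ i, i ≠ o₀ → i ≠ o₁ → cyc o₀ o₁ i ∈ alternatingGroup (Fin n) :=
    fun i h0 h1 => (cyc_three h01 (Ne.symm h1) (Ne.symm h0)).mem_alternatingGroup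
  let T : Fin n → Perm (Fin n) := fun i =>
    if h : i ≠ o₀ ∧ i ≠ o₁ then
      ((φ ⟨cyc o₀ o₁ i, hcm i h.1 h.2⟩ : alternatingGroup (Fin n)) : Perm (Fin n))
    else 1
  have hT : ∀ i (h0 : i ≠ o₀) (h1 : i ≠ o₁), T i =
      ((φ ⟨cyc o₀ o₁ i, hcm i h0 h1⟩ : alternatingGroup (Fin n)) : Perm (Fin n)) := by
    intro i h0 h1
    simp only [T, dif_pos (And.intro h0 h1)]
  have hT3 : ∀ i, i ≠ o₀ → i ≠ o₁ → (T i).IsThreeCycle := by
    intro i h0 h1
    rw [hT i h0 h1]
    exact h3 _ (cyc_three h01 (Ne.symm h1) (Ne.symm h0))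
  have hT2 : ∀ i j, i ≠ o₀ → i ≠ o₁ → j ≠ o₀ → j ≠ o₁ → i ≠ j →
      (T i * T j) ^ 2 = 1 ∧ T i * T j ≠ 1 := by
    intro i j hi0 hi1 hj0 hj1 hij
    rw [hT i hi0 hi1, hT j hj0 hj1]
    have key := cyc_pair h01 hi0 hi1 hj0 hj1 hij
    have k1 : ((⟨cyc o₀ o₁ i, hcm i hi0 hi1⟩ : alternatingGroup (Fin n)) *
        ⟨cyc o₀ o₁ j, hcm j hj0 hj1⟩) ^ 2 = 1 := Subtype.ext key.1
    constructor
    · have k2 := congrArg φ k1
      rw [map_pow, map_mul, map_one] at k2
      have k3 := congrArg Subtype.val k2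
      simpa only [Subgroup.coe_pow, Subgroup.coe_mul, Subgroup.coe_one] using k3
    · intro h
      have k2 : φ ((⟨cyc o₀ o₁ i, hcm i hi0 hi1⟩ : alternatingGroup (Fin n)) *
          ⟨cyc o₀ o₁ j, hcm j hj0 hj1⟩) = 1 := by
        rw [map_mul]
        exact Subtype.ext h
      have k3 : ((⟨cyc o₀ o₁ i, hcm i hi0 hi1⟩ : alternatingGroup (Fin n)) *
          ⟨cyc o₀ o₁ j, hcm j hj0 hj1⟩) = 1 := by
        apply φ.injective
        rw [k2, map_one]
      exact key.2 (congrArg Subtype.val k3)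
  obtain ⟨σ, hσ⟩ := family h01 h20 h21 h30 h31 h23 T hT3 hT2
  refine ⟨σ, ?_⟩
  apply MulEquiv.ext
  intro x
  set H : Subgroup (Perm (Fin n)) :=
    (MonoidHom.eqLocus (MulAut.conjNormal σ : MulAut (alternatingGroup (Fin n))).toMonoidHom
      φ.toMonoidHom).map (alternatingGroup (Fin n)).subtype with hH
  have hHc : ∀ i, i ≠ o₀ → i ≠ o₁ → cyc o₀ o₁ i ∈ H := by
    intro i h0 h1
    rw [hH, Subgroup.mem_map]
    refine ⟨⟨cyc o₀ o₁ i, hcm i h0 h1⟩, ?_, rfl⟩
    show (MulAut.conjNormal σ : MulAut (alternatingGroup (Fin n))) ⟨cyc o₀ o₁ i, hcm i h0 h1⟩ =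
      φ ⟨cyc o₀ o₁ i, hcm i h0 h1⟩
    apply Subtype.ext
    rw [MulAut.conjNormal_apply, ← hT i h0 h1]
    exact hσ i h0 h1
  have hle : alternatingGroup (Fin n) ≤ H := by
    rw [← closure_three_cycles_eq_alternating, Subgroup.closure_le]
    intro t ht
    exact gen H h01 hHc t ht
  obtain ⟨y, hy, hyx⟩ := Subgroup.mem_map.mp (hle x.2)
  have hyx' : y = x := Subtype.ext hyx
  rw [← hyx']
  exact hy


section six

theorem order3_cases (a : alternatingGroup (Fin 6)) (h : orderOf a = 3) :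
    (a : Perm (Fin 6)).cycleType = {3} ∨ (a : Perm (Fin 6)).cycleType = {3, 3} := by
  have h1 : orderOf (a : Perm (Fin 6)) = 3 := by rw [Subgroup.orderOf_coe]; exact h
  obtain ⟨k, hk⟩ := cycleType_prime_order (σ := (a : Perm (Fin 6))) (by rw [h1]; exact Nat.prime_three)
  rw [h1] at hk
  have h2 := sum_cycleType_le (a : Perm (Fin 6))
  rw [hk, Multiset.sum_replicate, Fintype.card_fin, smul_eq_mul] at h2
  have hk1 : k = 0 ∨ k = 1 := by omega
  rcases hk1 with rfl | rfl
  · left; rw [hk]; rfl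
  · right; rw [hk]; rfl

theorem card_C :
    (Finset.univ.filter (fun a : alternatingGroup (Fin 6) => (a : Perm (Fin 6)).cycleType = {3})).card
      = 40 := by
  rw [AlternatingGroup.card_of_cycleType]
  decide

theorem card_D :
    (Finset.univ.filter
      (fun a : alternatingGroup (Fin 6) => (a : Perm (Fin 6)).cycleType = {3, 3})).card = 40 := by
  rw [AlternatingGroup.card_of_cycleType]
  decide


theorem odd_preserves (φ : MulAut (alternatingGroup (Fin 6))) (hodd : Odd (orderOf φ)) :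
    ∀ c : alternatingGroup (Fin 6), (c : Perm (Fin 6)).IsThreeCycle →
      ((φ c : alternatingGroup (Fin 6)) : Perm (Fin 6)).IsThreeCycle := by
  classical
  by_contra hcon
  push Not at hcon
  obtain ⟨c₀, hc₀, hc₀'⟩ := hcon
  have ord3 : ∀ a : alternatingGroup (Fin 6),
      (a : Perm (Fin 6)).cycleType = {3} ∨ (a : Perm (Fin 6)).cycleType = {3, 3} →
      orderOf a = 3 := by
    intro a ha
    rw [← Subgroup.orderOf_coe, ← lcm_cycleType]
    rcases ha with h | h <;> rw [h] <;> rfl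
  have hφord : ∀ a : alternatingGroup (Fin 6), orderOf (φ a) = orderOf a :=
    fun a => MulEquiv.orderOf_eq φ a
  have hCD : ∀ c : alternatingGroup (Fin 6), (c : Perm (Fin 6)).cycleType = {3} →
      ((φ c : alternatingGroup (Fin 6)) : Perm (Fin 6)).cycleType = {3, 3} := by
    intro c hc
    obtain ⟨g, hg⟩ := isConj_iff.mp
      (alternatingGroup.isThreeCycle_isConj (by simp) hc₀ (show (c : Perm (Fin 6)).IsThreeCycle from hc))
    have h1 : ((φ c₀ : alternatingGroup (Fin 6)) : Perm (Fin 6)).cycleType = {3, 3} := by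
      rcases order3_cases (φ c₀) (by rw [hφord]; exact ord3 c₀ (Or.inl hc₀)) with h | h
      · exact absurd h hc₀'
      · exact h
    rw [← hg, map_mul, map_mul, map_inv]
    simp only [Subgroup.coe_mul, Subgroup.coe_inv]
    rw [cycleType_conj]; exact h1
  have himg : (Finset.univ.filter (fun a : alternatingGroup (Fin 6) =>
        (a : Perm (Fin 6)).cycleType = {3})).image φ =
      Finset.univ.filter (fun a : alternatingGroup (Fin 6) =>
        (a : Perm (Fin 6)).cycleType = {3, 3}) := by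
    apply Finset.eq_of_subset_of_card_le
    · intro x hx
      obtain ⟨c, hc, rfl⟩ := Finset.mem_image.mp hx
      exact Finset.mem_filter.mpr ⟨Finset.mem_univ _, hCD c (Finset.mem_filter.mp hc).2⟩
    · rw [Finset.card_image_of_injective _ φ.injective, card_C, card_D]
  have hDC : ∀ d : alternatingGroup (Fin 6), (d : Perm (Fin 6)).cycleType = {3, 3} →
      ((φ d : alternatingGroup (Fin 6)) : Perm (Fin 6)).cycleType = {3} := by
    intro d hd
    rcases order3_cases (φ d) (by rw [hφord]; exact ord3 d (Or.inr hd)) with h | h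
    · exact h
    · exfalso
      have h2 : φ d ∈ (Finset.univ.filter (fun a : alternatingGroup (Fin 6) =>
          (a : Perm (Fin 6)).cycleType = {3})).image φ := by
        rw [himg]; exact Finset.mem_filter.mpr ⟨Finset.mem_univ _, h⟩
      obtain ⟨c, hc, hcd⟩ := Finset.mem_image.mp h2
      have h3 := φ.injective hcd
      subst h3
      have h4 := (Finset.mem_filter.mp hc).2
      rw [h4] at hd
      revert hd; decide
  have hpow : ∀ j : ℕ,
      ((((φ ^ j) c₀ : alternatingGroup (Fin 6)) : Perm (Fin 6)).cycleType = {3} ∧ Even j) ∨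
      ((((φ ^ j) c₀ : alternatingGroup (Fin 6)) : Perm (Fin 6)).cycleType = {3, 3} ∧ Odd j) := by
    intro j
    induction j with
    | zero => left; exact ⟨hc₀, ⟨0, rfl⟩⟩
    | succ j ih =>
      have e : (φ ^ (j + 1)) c₀ = φ ((φ ^ j) c₀) := by rw [pow_succ']; rfl
      rcases ih with ⟨h1, h2⟩ | ⟨h1, h2⟩
      · right; rw [e]; exact ⟨hCD _ h1, h2.add_one⟩
      · left; rw [e]; exact ⟨hDC _ h1, h2.add_one⟩
  rcases hpow (orderOf φ) with ⟨-, h2⟩ | ⟨h1, -⟩
  · exact (Nat.not_even_iff_odd.mpr hodd) h2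
  · rw [pow_orderOf_eq_one] at h1
    have h5 : (c₀ : Perm (Fin 6)).cycleType = {3, 3} := h1
    rw [show (c₀ : Perm (Fin 6)).cycleType = {3} from hc₀] at h5
    revert h5; decide

end six

theorem conj_inj (n : ℕ) (hn : 4 ≤ n) :
    Function.Injective
      (MulAut.conj : alternatingGroup (Fin n) →* MulAut (alternatingGroup (Fin n))) := by
  intro a b hab
  have : (MulAut.conjNormal (a : Perm (Fin n)) : MulAut (alternatingGroup (Fin n))) =
      MulAut.conjNormal (b : Perm (Fin n)) := by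
    rw [MulAut.conjNormal_val, MulAut.conjNormal_val, hab]
  exact Subtype.ext (conjNormal_inj n hn this)

theorem no_elt (n : ℕ) (hn : 5 ≤ n) (G : Subgroup (MulAut (alternatingGroup (Fin n))))
    (hG : (MulAut.conj : alternatingGroup (Fin n) →* MulAut (alternatingGroup (Fin n))).range ≤ G)
    (m : ℕ) (h : ∀ g : G, orderOf g ≠ m) : ∀ σ : alternatingGroup (Fin n), orderOf σ ≠ m := by
  intro σ hσ
  have hmem : MulAut.conj σ ∈ G := hG ⟨σ, rfl⟩
  apply h ⟨MulAut.conj σ, hmem⟩
  rw [Subgroup.orderOf_mk,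
    orderOf_injective (MulAut.conj : alternatingGroup (Fin n) →* _) (conj_inj n (by omega)) σ, hσ]

theorem exists_order (n : ℕ) (m : Multiset ℕ) (hsum : m.sum ≤ n) (h2 : ∀ a ∈ m, 2 ≤ a)
    (hev : Even (m.sum + Multiset.card m)) :
    ∃ σ : alternatingGroup (Fin n), orderOf σ = m.lcm := by
  obtain ⟨g, hg⟩ := (Equiv.Perm.exists_with_cycleType_iff (Fin n)).mpr
    ⟨by rw [Fintype.card_fin]; exact hsum, h2⟩
  have hs : Perm.sign g = 1 := by rw [sign_of_cycleType, hg]; exact hev.neg_one_pow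
  refine ⟨⟨g, mem_alternatingGroup.mpr hs⟩, ?_⟩
  rw [Subgroup.orderOf_mk, ← lcm_cycleType, hg]


theorem sylow_comm (n : ℕ) (hn : 5 ≤ n) (G : Subgroup (MulAut (alternatingGroup (Fin n))))
    (hG : (MulAut.conj : alternatingGroup (Fin n) →* MulAut (alternatingGroup (Fin n))).range ≤ G)
    (p q : ℕ) [hp : Fact p.Prime] [hq : Fact q.Prime] (hpq : p < q)
    (h : ∀ g : G, orderOf g ≠ p * q) :
    ∀ Q : Sylow q G, IsMulCommutative (Q : Subgroup G) := by
  intro Q
  have hp2 : 2 ≤ p := hp.out.two_le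
  have hq3 : 3 ≤ q := by omega
  have hqodd : Odd q := hq.out.odd_of_ne_two (by omega)
  have hno := no_elt n hn G hG (p * q) h
  have hcop : Nat.Coprime p q := (Nat.coprime_primes hp.out hq.out).mpr (by omega)
  -- bound on n
  have hbound : n ≤ 3 * (q - 1) := by
    by_contra hcon
    push Not at hcon
    rcases hp.out.eq_two_or_odd' with h2 | hodd
    · have hev : Even (({2, 2, q} : Multiset ℕ).sum + Multiset.card ({2, 2, q} : Multiset ℕ)) := by
        obtain ⟨t, ht⟩ := hqodd
        refine ⟨t + 4, ?_⟩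
        simp only [Multiset.insert_eq_cons, Multiset.sum_cons, Multiset.sum_singleton,
          Multiset.card_cons, Multiset.card_singleton]
        omega
      obtain ⟨σ, hσ⟩ := exists_order n {2, 2, q}
        (by simp only [Multiset.insert_eq_cons, Multiset.sum_cons, Multiset.sum_singleton]; omega)
        (by
          intro a ha
          simp only [Multiset.insert_eq_cons, Multiset.mem_cons, Multiset.mem_singleton] at ha
          omega) hev
      apply hno σ
      rw [hσ, h2]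
      have h2q : Nat.Coprime 2 q := by rw [← h2]; exact hcop
      simp only [Multiset.insert_eq_cons, Multiset.lcm_cons, Multiset.lcm_singleton,
        normalize_eq]
      show Nat.lcm 2 (Nat.lcm 2 q) = 2 * q
      rw [h2q.lcm_eq_mul, Nat.lcm_comm, Nat.lcm_eq_left (Dvd.intro _ rfl)]
    · have hev : Even (({p, q} : Multiset ℕ).sum + Multiset.card ({p, q} : Multiset ℕ)) := by
        obtain ⟨t, ht⟩ := hqodd
        obtain ⟨u, hu⟩ := hodd
        refine ⟨t + u + 2, ?_⟩
        simp only [Multiset.insert_eq_cons, Multiset.sum_cons, Multiset.sum_singleton,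
          Multiset.card_cons, Multiset.card_singleton]
        omega
      obtain ⟨σ, hσ⟩ := exists_order n {p, q}
        (by simp only [Multiset.insert_eq_cons, Multiset.sum_cons, Multiset.sum_singleton]; omega)
        (by
          intro a ha
          simp only [Multiset.insert_eq_cons, Multiset.mem_cons, Multiset.mem_singleton] at ha
          omega) hev
      apply hno σ
      rw [hσ]
      simp only [Multiset.insert_eq_cons, Multiset.lcm_cons, Multiset.lcm_singleton,
        normalize_eq]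
      show Nat.lcm p q = p * q
      exact hcop.lcm_eq_mul
  have hq3n : ¬ q ^ 3 ∣ n.factorial := by
    intro hdvd
    have h1 := (padicValNat_dvd_iff_le (p := q) (Nat.factorial_ne_zero n)).mp hdvd
    have h2 := sub_one_mul_padicValNat_factorial_lt_of_ne_zero q (n := n) (by omega)
    have h3 : (q - 1) * 3 ≤ (q - 1) * padicValNat q n.factorial := Nat.mul_le_mul_left _ h1
    omega
  -- every element of Q is a conjugation by a permutation
  have hrange : ∀ a : G, a ∈ (Q : Subgroup G) →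
      ∃ σ : Perm (Fin n), MulAut.conjNormal σ = (a : MulAut (alternatingGroup (Fin n))) := by
    intro a ha
    by_cases h6 : n = 6
    · subst h6
      apply surj_of_three 6 (by norm_num)
      apply odd_preserves
      obtain ⟨k, hk⟩ := Q.isPGroup' ⟨a, ha⟩
      have hk' : (a : MulAut (alternatingGroup (Fin 6))) ^ q ^ k = 1 := by
        have := congrArg (fun x : (Q : Subgroup G) => ((x : G) : MulAut (alternatingGroup (Fin 6)))) hk
        simpa using this
      have hdvd : orderOf (a : MulAut (alternatingGroup (Fin 6))) ∣ q ^ k := orderOf_dvd_of_pow_eq_one hk'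
      exact (hqodd.pow).of_dvd_nat hdvd
    · exact (Cfsg.Agent.S2119.result n (by omega) h6).2 _
  have hf : Function.Injective
      (MulAut.conjNormal : Perm (Fin n) →* MulAut (alternatingGroup (Fin n))) :=
    conjNormal_inj n (by omega)
  obtain ⟨Q', hQ'⟩ : ∃ Q' : Subgroup (Perm (Fin n)), Q' = ((Q : Subgroup G).map G.subtype).comap
      (MulAut.conjNormal : Perm (Fin n) →* MulAut (alternatingGroup (Fin n))) := ⟨_, rfl⟩
  have hQ'p : IsPGroup q Q' := by
    rw [hQ']
    exact (Q.isPGroup'.map G.subtype).comap_of_injective _ hf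
  obtain ⟨k, hk⟩ := hQ'p.exists_card_eq
  have hdvd : q ^ k ∣ n.factorial := by
    rw [← hk]
    have := Subgroup.card_subgroup_dvd_card Q'
    rwa [Nat.card_perm, Nat.card_fin] at this
  have hk2 : k ≤ 2 := by
    by_contra hcon
    push Not at hcon
    exact hq3n ((pow_dvd_pow q hcon).trans hdvd)
  have hQ'comm : ∀ a b : Q', a * b = b * a := by
    interval_cases k
    · rw [pow_zero] at hk
      haveI := (Nat.card_eq_one_iff_unique.mp hk).1
      intro a b; exact Subsingleton.elim _ _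
    · rw [pow_one] at hk
      haveI := isCyclic_of_prime_card hk
      intro a b
      exact (IsCyclic.commGroup (α := Q')).mul_comm a b
    · exact (IsPGroup.isMulCommutative_of_card_eq_prime_sq hk).is_comm.comm
  refine ⟨⟨fun a b => ?_⟩⟩
  obtain ⟨σ, hσ⟩ := hrange a.1 a.2
  obtain ⟨τ, hτ⟩ := hrange b.1 b.2
  have hσQ : σ ∈ Q' := by
    rw [hQ', Subgroup.mem_comap, hσ]
    exact ⟨a.1, a.2, rfl⟩
  have hτQ : τ ∈ Q' := by
    rw [hQ', Subgroup.mem_comap, hτ]
    exact ⟨b.1, b.2, rfl⟩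
  have hc := hQ'comm ⟨σ, hσQ⟩ ⟨τ, hτQ⟩
  have hc' : σ * τ = τ * σ := congrArg Subtype.val hc
  apply Subtype.ext
  apply Subtype.ext
  show ((a.1 : G) : MulAut (alternatingGroup (Fin n))) * ((b.1 : G) : MulAut _) =
    ((b.1 : G) : MulAut _) * ((a.1 : G) : MulAut _)
  rw [← hσ, ← hτ, ← map_mul, ← map_mul, hc']

end Cfsg.Agent.Lib.Helper25.AutAlt
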