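import Mathlib
import Cfsg.Agent.Lib.Helper25.Brauer5

/-!
Brauer induction, part 6: permutation characters, the Burnside-ring form of Solomon's local
induction theorem.
-/

set_option autoImplicit false

namespace Cfsg.Agent.Lib.Helper25.Brauer

open Cfsg Cfsg.Agent.Lib.Helper1 Cfsg.Agent.Lib.Helper24
open scoped ComplexConjugate Classical

universe u v

section perm

variable {G : Type u} [Group G] [Fintype G]

theorem card_fiber_smul {Ω : Type v} [MulAction G Ω] (ω ω' : Ω)
    (h : ω' ∈ MulAction.orbit G ω) :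
    Nat.card {x : G // x • ω = ω'} = Nat.card (MulAction.stabilizer G ω) := by
  obtain ⟨x₀, rfl⟩ := h
  apply Nat.card_congr
  exact
    { toFun := fun x => ⟨x₀⁻¹ * x.1, by
        rw [MulAction.mem_stabilizer_iff, mul_smul, x.2, inv_smul_smul]⟩
      invFun := fun s => ⟨x₀ * s.1, by
        rw [mul_smul, MulAction.mem_stabilizer_iff.mp s.2]⟩
      left_inv := fun x => Subtype.ext (by simp)
      right_inv := fun s => Subtype.ext (by simp) }

/-- The permutation character of a transitive action, as a fixed point count on the orbit. -/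
theorem indFun_stab {Ω : Type v} [MulAction G Ω] [Fintype Ω] (ω : Ω) (g : G) :
    indFun (MulAction.stabilizer G ω) (fun _ => (1 : ℂ)) g
      = ∑ ω' : Ω, if (ω' ∈ MulAction.orbit G ω ∧ g • ω' = ω') then (1 : ℂ) else 0 := by
  classical
  rw [indFun_apply]
  have h1 : ∀ x : G, extendByZero (MulAction.stabilizer G ω) (fun _ => (1 : ℂ)) (x⁻¹ * g * x)
      = ∑ ω' : Ω, if (x • ω = ω' ∧ g • ω' = ω') then (1 : ℂ) else 0 := by
    intro x
    by_cases hx : g • x • ω = x • ω
    · have hmem : x⁻¹ * g * x ∈ MulAction.stabilizer G ω := by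
        rw [MulAction.mem_stabilizer_iff, mul_smul, mul_smul, hx, inv_smul_smul]
      rw [extendByZero_of_mem _ _ hmem]
      rw [Finset.sum_eq_single (x • ω)]
      · rw [if_pos ⟨rfl, hx⟩]
      · intro b _ hb
        rw [if_neg]
        rintro ⟨h2, -⟩
        exact hb h2.symm
      · intro h; exact absurd (Finset.mem_univ _) h
    · have hmem : x⁻¹ * g * x ∉ MulAction.stabilizer G ω := by
        rw [MulAction.mem_stabilizer_iff, mul_smul, mul_smul]
        intro h2
        apply hx
        have h3 := congrArg (fun t => x • t) h2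
        simpa using h3
      rw [extendByZero_of_not_mem _ _ hmem]
      symm
      apply Finset.sum_eq_zero
      intro b _
      rw [if_neg]
      rintro ⟨h2, h3⟩
      apply hx
      rw [h2]; exact h3
  rw [Finset.sum_congr rfl (fun x _ => h1 x), Finset.sum_comm, Finset.mul_sum]
  refine Finset.sum_congr rfl (fun ω' _ => ?_)
  by_cases hω : ω' ∈ MulAction.orbit G ω ∧ g • ω' = ω'
  · rw [if_pos hω]
    have h2 : ∀ x : G, (if (x • ω = ω' ∧ g • ω' = ω') then (1 : ℂ) else 0)
        = if x • ω = ω' then 1 else 0 := by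
      intro x
      by_cases hx : x • ω = ω'
      · rw [if_pos ⟨hx, hω.2⟩, if_pos hx]
      · rw [if_neg (fun h => hx h.1), if_neg hx]
    rw [Finset.sum_congr rfl (fun x _ => h2 x), Finset.sum_boole, ← Fintype.card_subtype,
      ← Nat.card_eq_fintype_card, card_fiber_smul ω ω' hω.1]
    have hne : (Nat.card (MulAction.stabilizer G ω) : ℂ) ≠ 0 := by
      have := Nat.card_pos (α := MulAction.stabilizer G ω)
      exact_mod_cast this.ne'
    rw [inv_mul_cancel₀ hne]
  · rw [if_neg hω]
    have h2 : ∑ x : G, (if (x • ω = ω' ∧ g • ω' = ω') then (1 : ℂ) else 0) = 0 := by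
      apply Finset.sum_eq_zero
      intro x _
      rw [if_neg]
      rintro ⟨h2, h3⟩
      exact hω ⟨⟨x, h2⟩, h3⟩
    rw [h2, mul_zero]

/-- The permutation character of a finite `G`-set is the sum over the orbits of the characters
induced from the trivial character of a point stabilizer. -/
theorem fix_eq_sum {Ω : Type v} [MulAction G Ω] [Fintype Ω]
    [Fintype (MulAction.orbitRel.Quotient G Ω)] (g : G) :
    (∑ ω' : Ω, if g • ω' = ω' then (1 : ℂ) else 0)
      = ∑ q : MulAction.orbitRel.Quotient G Ω,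
          indFun (MulAction.stabilizer G q.out) (fun _ => (1 : ℂ)) g := by
  classical
  rw [Finset.sum_congr rfl (fun (q : MulAction.orbitRel.Quotient G Ω) _ => indFun_stab q.out g),
    Finset.sum_comm]
  refine Finset.sum_congr rfl (fun ω' _ => ?_)
  rw [Finset.sum_eq_single (Quotient.mk'' ω' : MulAction.orbitRel.Quotient G Ω)]
  · have hmem : ω' ∈ MulAction.orbit G
        (Quotient.mk'' ω' : MulAction.orbitRel.Quotient G Ω).out :=
      (MulAction.orbitRel_apply).mp (Quotient.exact' (Quotient.out_eq' (Quotient.mk'' ω')).symm)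
    by_cases h : g • ω' = ω'
    · rw [if_pos h, if_pos ⟨hmem, h⟩]
    · rw [if_neg h, if_neg (fun h' => h h'.2)]
  · intro q _ hq
    rw [if_neg]
    rintro ⟨h1, -⟩
    apply hq
    have h2 := Quotient.sound' (s₁ := MulAction.orbitRel G Ω) (a := ω') (b := q.out)
      ((MulAction.orbitRel_apply).mpr h1)
    rw [Quotient.out_eq'] at h2
    exact h2.symm
  · intro h; exact absurd (Finset.mem_univ _) h

/-- generators: permutation characters on cosets of subgroups satisfying `𝓗` -/
def permGen (𝓗 : Subgroup G → Prop) : Set (G → ℂ) :=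
  {F | ∃ H : Subgroup G, 𝓗 H ∧ F = indFun H (fun _ => (1 : ℂ))}

/-- the additive group spanned by the permutation characters on cosets of subgroups in `𝓗` -/
def PSp (𝓗 : Subgroup G → Prop) : AddSubgroup (G → ℂ) := AddSubgroup.closure (permGen 𝓗)

variable {𝓗 : Subgroup G → Prop}

theorem fixFun_mem_PSp {Ω : Type v} [MulAction G Ω] [Fintype Ω]
    (h : ∀ ω : Ω, 𝓗 (MulAction.stabilizer G ω)) :
    (fun g : G => ∑ ω' : Ω, if g • ω' = ω' then (1 : ℂ) else 0) ∈ PSp 𝓗 := by
  classical
  letI : Fintype (MulAction.orbitRel.Quotient G Ω) := Fintype.ofFinite _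
  have e : (fun g : G => ∑ ω' : Ω, if g • ω' = ω' then (1 : ℂ) else 0)
      = ∑ q : MulAction.orbitRel.Quotient G Ω,
          indFun (MulAction.stabilizer G q.out) (fun _ => (1 : ℂ)) := by
    funext g
    rw [Finset.sum_apply]
    exact fix_eq_sum g
  rw [e]
  apply AddSubgroup.sum_mem
  intro q _
  exact AddSubgroup.subset_closure ⟨_, h q.out, rfl⟩

theorem indFun_one_eq_fix (H : Subgroup G) [Fintype (G ⧸ H)] (g : G) :
    indFun H (fun _ => (1 : ℂ)) g = ∑ ω' : G ⧸ H, if g • ω' = ω' then (1 : ℂ) else 0 := by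
  classical
  have h1 := indFun_stab (Ω := G ⧸ H) ((1 : G) : G ⧸ H) g
  have h2 : indFun (MulAction.stabilizer G ((1 : G) : G ⧸ H)) (fun _ => (1 : ℂ))
      = indFun H (fun _ => (1 : ℂ)) :=
    indFun_congr (MulAction.stabilizer_quotient H) _ _ (fun _ _ _ => rfl)
  rw [← h2, h1]
  refine Finset.sum_congr rfl (fun ω' _ => ?_)
  have h3 : ω' ∈ MulAction.orbit G (((1 : G) : G ⧸ H)) := by
    rw [MulAction.orbit_eq_univ]; exact Set.mem_univ _
  simp only [h3, true_and]

theorem perm_mul_mem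
    (h𝓗 : ∀ (H K : Subgroup G) (g : G), 𝓗 H → K ≤ H.map (MulAut.conj g).toMonoidHom → 𝓗 K)
    {H : Subgroup G} (K : Subgroup G) (hH : 𝓗 H) :
    indFun H (fun _ => (1 : ℂ)) * indFun K (fun _ => (1 : ℂ)) ∈ PSp 𝓗 := by
  classical
  letI : Fintype (G ⧸ H) := Fintype.ofFinite _
  letI : Fintype (G ⧸ K) := Fintype.ofFinite _
  have e : indFun H (fun _ => (1 : ℂ)) * indFun K (fun _ => (1 : ℂ))
      = fun g : G => ∑ ω' : (G ⧸ H) × (G ⧸ K),
          @ite ℂ (g • ω' = ω') (Classical.propDecidable _) 1 0 := by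
    funext g
    rw [Pi.mul_apply, indFun_one_eq_fix H g, indFun_one_eq_fix K g, Finset.sum_mul_sum,
      Fintype.sum_prod_type]
    refine Finset.sum_congr rfl (fun a _ => Finset.sum_congr rfl (fun b _ => ?_))
    by_cases ha : g • a = a
    · by_cases hb : g • b = b
      · rw [if_pos ha, if_pos hb, if_pos (by rw [Prod.smul_mk, ha, hb]), mul_one]
      · rw [if_pos ha, if_neg hb, mul_zero, if_neg (fun h => hb (congrArg Prod.snd h))]
    · rw [if_neg ha, zero_mul, if_neg (fun h => ha (congrArg Prod.fst h))]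
  rw [e]
  apply fixFun_mem_PSp
  rintro ⟨a, b⟩
  obtain ⟨x, rfl⟩ := QuotientGroup.mk_surjective a
  refine h𝓗 H _ x hH ?_
  intro y hy
  have hy1 : y • ((x : G) : G ⧸ H) = ((x : G) : G ⧸ H) :=
    congrArg Prod.fst (MulAction.mem_stabilizer_iff.mp hy)
  have hy2 : (((y * x : G)) : G ⧸ H) = ((x : G) : G ⧸ H) := hy1
  have hy3 : (y * x)⁻¹ * x ∈ H := QuotientGroup.eq.mp hy2
  rw [Subgroup.mem_map]
  refine ⟨x⁻¹ * y * x, ?_, ?_⟩
  · have h4 := H.inv_mem hy3
    have e2 : ((y * x)⁻¹ * x)⁻¹ = x⁻¹ * y * x := by group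
    rwa [e2] at h4
  · simp only [MulEquiv.coe_toMonoidHom, MulAut.conj_apply]
    group

theorem PSp_mul
    (h𝓗 : ∀ (H K : Subgroup G) (g : G), 𝓗 H → K ≤ H.map (MulAut.conj g).toMonoidHom → 𝓗 K)
    {F F' : G → ℂ} (hF : F ∈ PSp 𝓗) (hF' : F' ∈ PSp 𝓗) : F * F' ∈ PSp 𝓗 := by
  unfold PSp at hF
  induction hF using AddSubgroup.closure_induction with
  | mem F hF =>
    obtain ⟨H, hH, rfl⟩ := hF
    unfold PSp at hF'
    induction hF' using AddSubgroup.closure_induction with
    | mem F' hF' =>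
      obtain ⟨K, -, rfl⟩ := hF'
      exact perm_mul_mem h𝓗 K hH
    | zero => rw [mul_zero]; exact AddSubgroup.zero_mem _
    | add x y _ _ hx hy => rw [mul_add]; exact AddSubgroup.add_mem _ hx hy
    | neg x _ hx => rw [mul_neg]; exact AddSubgroup.neg_mem _ hx
  | zero => rw [zero_mul]; exact AddSubgroup.zero_mem _
  | add x y _ _ hx hy => rw [add_mul]; exact AddSubgroup.add_mem _ hx hy
  | neg x _ hx => rw [neg_mul]; exact AddSubgroup.neg_mem _ hx

theorem func_of_PSp {F : G → ℂ} (hF : F ∈ PSp 𝓗) :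
    ∃ a : Subgroup G → ℤ, (∀ H, a H ≠ 0 → 𝓗 H) ∧
      F = ∑ H : Subgroup G, (a H : ℂ) • indFun H (fun _ => (1 : ℂ)) := by
  classical
  unfold PSp at hF
  induction hF using AddSubgroup.closure_induction with
  | mem F hF =>
    obtain ⟨H₀, hH₀, rfl⟩ := hF
    refine ⟨Pi.single H₀ 1, ?_, ?_⟩
    · intro H hH
      by_cases h : H = H₀
      · rw [h]; exact hH₀
      · exfalso
        apply hH
        rw [Pi.single_apply, if_neg h]
    · rw [Finset.sum_eq_single H₀]
      · rw [Pi.single_eq_same]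
        simp
      · intro H _ hH
        rw [Pi.single_apply, if_neg hH]
        simp
      · intro h; exact absurd (Finset.mem_univ _) h
  | zero => exact ⟨0, fun H hH => absurd rfl hH, by simp⟩
  | add x y _ _ hx hy =>
    obtain ⟨a, ha, rfl⟩ := hx
    obtain ⟨b, hb, rfl⟩ := hy
    refine ⟨a + b, ?_, ?_⟩
    · intro H hH
      by_cases h : a H = 0
      · apply hb
        intro h'
        apply hH
        rw [Pi.add_apply, h, h', add_zero]
      · exact ha H h
    · rw [← Finset.sum_add_distrib]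
      refine Finset.sum_congr rfl (fun H _ => ?_)
      rw [Pi.add_apply]
      push_cast
      rw [add_smul]
  | neg x _ hx =>
    obtain ⟨a, ha, rfl⟩ := hx
    refine ⟨-a, ?_, ?_⟩
    · intro H hH
      apply ha
      intro h'
      apply hH
      rw [Pi.neg_apply, h', neg_zero]
    · rw [← Finset.sum_neg_distrib]
      refine Finset.sum_congr rfl (fun H _ => ?_)
      rw [Pi.neg_apply]
      push_cast
      rw [neg_smul]

theorem IsQE.of_le_conj {p : ℕ} {H K : Subgroup G} (g : G) (h : IsQE p H)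
    (hK : K ≤ H.map (MulAut.conj g).toMonoidHom) : IsQE p K := by
  have h1 : IsQE p ↥(H.map (MulAut.conj g).toMonoidHom) :=
    IsQE.of_equiv h (H.equivMapOfInjective _ (MulAut.conj g).injective)
  have h2 := IsQE.subgroup h1 (K.subgroupOf (H.map (MulAut.conj g).toMonoidHom))
  exact IsQE.of_equiv h2 (Subgroup.subgroupOfEquivOfLe hK)

/-- Solomon's local induction theorem in permutation character form. -/
theorem local_solomon_perm (p : ℕ) [Fact p.Prime] :
    ∃ m : ℤ, ¬ (p : ℤ) ∣ m ∧
      (fun _ : G => (m : ℂ)) ∈ PSp (fun H : Subgroup G => IsQE p H) := by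
  classical
  have hp : p.Prime := Fact.out
  choose H n hqe hn hval using exists_qe_fixed (G := G) p
  refine ⟨∏ x, (n x : ℤ), ?_, ?_⟩
  · intro hdvd
    rw [Prime.dvd_finsetProd_iff (Nat.prime_iff_prime_int.mp hp)] at hdvd
    obtain ⟨x, -, hx⟩ := hdvd
    exact hn x (Int.natCast_dvd_natCast.mp hx)
  · exact ban (PSp _)
      (fun f hf g hg => PSp_mul (fun H K g hH hK => IsQE.of_le_conj g hH hK) hf hg)
      (fun x => (n x : ℤ))
      (fun x => indFun (H x) (fun _ => (1 : ℂ)))
      (fun x => AddSubgroup.subset_closure ⟨H x, hqe x, rfl⟩)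
      (fun x => by rw [hval x]; simp)

theorem IsQE.exists_cyclic {p : ℕ} [Fact p.Prime] {H : Subgroup G} (h : IsQE p H) :
    ∃ C : Subgroup G, C ≤ H ∧ H ≤ Subgroup.normalizer (C : Set G) ∧ IsCyclic C ∧
      Nat.Coprime (Nat.card C) p ∧ ∃ k : ℕ, C.relIndex H = p ^ k := by
  obtain ⟨u, hn, hu, hq⟩ := IsQE.structure h
  have hconj : ∀ x ∈ H, ∀ n ∈ Subgroup.zpowers (u : G), x * n * x⁻¹ ∈ Subgroup.zpowers (u : G) := by
    intro x hx n hn'
    obtain ⟨j, rfl⟩ := Subgroup.mem_zpowers_iff.mp hn'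
    have h1 := hn.conj_mem (u ^ j) (Subgroup.zpow_mem _ (Subgroup.mem_zpowers u) j) ⟨x, hx⟩
    obtain ⟨i, hi⟩ := Subgroup.mem_zpowers_iff.mp h1
    refine Subgroup.mem_zpowers_iff.mpr ⟨i, ?_⟩
    have h2 := congrArg Subtype.val hi
    simpa using h2
  refine ⟨Subgroup.zpowers (u : G), Subgroup.zpowers_le.mpr u.2, ?_, inferInstance, ?_, ?_⟩
  · intro x hx
    rw [Subgroup.mem_normalizer_iff]
    intro n
    constructor
    · exact hconj x hx n
    · intro h1
      have h2 := hconj x⁻¹ (H.inv_mem hx) _ h1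
      have e : x⁻¹ * (x * n * x⁻¹) * x⁻¹⁻¹ = n := by group
      rwa [e] at h2
  · rw [Nat.card_zpowers, Subgroup.orderOf_coe]
    exact hu
  · have h1 : (Subgroup.zpowers (u : G)).subgroupOf H = Subgroup.zpowers u := by
      ext y
      rw [Subgroup.mem_subgroupOf, Subgroup.mem_zpowers_iff, Subgroup.mem_zpowers_iff]
      constructor
      · rintro ⟨j, hj⟩
        exact ⟨j, Subtype.ext (by rw [Subgroup.coe_zpow]; exact hj)⟩
      · rintro ⟨j, hj⟩
        exact ⟨j, by rw [← hj, Subgroup.coe_zpow]⟩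
    obtain ⟨k, hk⟩ := IsPGroup.iff_card.mp hq
    refine ⟨k, ?_⟩
    rw [Subgroup.relIndex, h1, Subgroup.index_eq_card]
    exact hk

end perm

end Cfsg.Agent.Lib.Helper25.Brauer
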