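import Mathlib
import Cfsg.Agent.Lib.Helper1.CharDet
import Cfsg.Agent.Lib.Helper1.CharEquiv
import Cfsg.Agent.Lib.Helper25.ItoSpecial

/-!
# The determinant of a multiple of the regular character of a cyclic group

If a character `χ` of `G` vanishes on the nontrivial powers of an element `y` of even order `m`
and `χ 1 = r * m` with `r` odd, then `det χ (y) = -1` (`detChar_eq_neg_one`).
-/

set_option autoImplicit false
set_option linter.unusedSectionVars false
set_option linter.unusedVariables false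

namespace Cfsg.Agent.Lib.Helper25.DetReg

open Cfsg Cfsg.Agent.Lib.Helper1 Representation
open scoped ComplexConjugate

universe u

/-- the diagonal representation `⊕_{i<r, j<m} μ^j` attached to a linear character `μ` -/
noncomputable def diagRep {Y : Type u} [Group Y] (μ : Y →* ℂˣ) (r m : ℕ) :
    Representation ℂ Y (Fin r × Fin m → ℂ) where
  toFun g := Matrix.toLin'
    (Matrix.diagonal (fun idx : Fin r × Fin m => ((μ g : ℂˣ) : ℂ) ^ (idx.2 : ℕ)))
  map_one' := by
    simp only [map_one, Units.val_one, one_pow]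
    rw [Matrix.diagonal_one, Matrix.toLin'_one]
    rfl
  map_mul' a b := by
    rw [Module.End.mul_eq_comp, ← Matrix.toLin'_mul, Matrix.diagonal_mul_diagonal]
    congr 2
    funext idx
    rw [map_mul, Units.val_mul, mul_pow]

theorem diagRep_apply {Y : Type u} [Group Y] (μ : Y →* ℂˣ) (r m : ℕ) (g : Y) :
    diagRep μ r m g = Matrix.toLin'
      (Matrix.diagonal (fun idx : Fin r × Fin m => ((μ g : ℂˣ) : ℂ) ^ (idx.2 : ℕ))) := rfl

theorem diagRep_character {Y : Type u} [Group Y] (μ : Y →* ℂˣ) (r m : ℕ) (g : Y) :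
    (diagRep μ r m).character g = (r : ℂ) * ∑ j ∈ Finset.range m, ((μ g : ℂˣ) : ℂ) ^ j := by
  rw [character_apply, diagRep_apply, Matrix.trace_toLin'_eq, Matrix.trace_diagonal,
    Fintype.sum_prod_type]
  simp only [Finset.sum_const, Finset.card_univ, Fintype.card_fin, nsmul_eq_mul]
  rw [Fin.sum_univ_eq_sum_range (fun j => ((μ g : ℂˣ) : ℂ) ^ j) m]

theorem diagRep_det {Y : Type u} [Group Y] (μ : Y →* ℂˣ) (r m : ℕ) (g : Y) :
    LinearMap.det (diagRep μ r m g) =
      (((μ g : ℂˣ) : ℂ) ^ (∑ j ∈ Finset.range m, j)) ^ r := by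
  rw [diagRep_apply, LinearMap.det_toLin', Matrix.det_diagonal, Fintype.prod_prod_type]
  simp only [Finset.prod_const, Finset.card_univ, Fintype.card_fin]
  rw [Fin.prod_univ_eq_prod_range (fun j => ((μ g : ℂˣ) : ℂ) ^ j) m, Finset.prod_pow_eq_pow_sum]

/-- If a character vanishes on the nontrivial powers of an element `y` of even order `m` and has
degree `r * m` with `r` odd, its determinant takes the value `-1` at `y`. -/
theorem detChar_eq_neg_one {G : Type u} [Group G] [Finite G] {χ : G → ℂ} (hχ : IsCharacter G χ)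
    (y : G) (m r : ℕ) (hm : orderOf y = m) (hmeven : Even m) (hr : Odd r)
    (hdeg : χ 1 = ((r * m : ℕ) : ℂ)) (hvan : ∀ i : ℕ, y ^ i ≠ 1 → χ (y ^ i) = 0) :
    detChar χ y = -1 := by
  classical
  obtain ⟨n, ρ, rfl⟩ := hχ
  rw [detChar_character]
  show LinearMap.det (ρ y) = -1
  have hm0 : m ≠ 0 := by rw [← hm]; exact (orderOf_pos y).ne'
  obtain ⟨Y, hY⟩ : ∃ Y : Subgroup G, Y = Subgroup.zpowers y := ⟨_, rfl⟩
  have hyY : y ∈ Y := by rw [hY]; exact Subgroup.mem_zpowers y
  obtain ⟨y₀, hy₀⟩ : ∃ y₀ : Y, y₀ = ⟨y, hyY⟩ := ⟨_, rfl⟩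
  have hy₀c : (y₀ : G) = y := by rw [hy₀]
  have hord : orderOf y₀ = m := by rw [hy₀, ← hm]; exact Subgroup.orderOf_mk y hyY
  have hgen : ∀ g : Y, ∃ i : ℕ, g = y₀ ^ i := by
    intro g
    have h1 : (g : G) ∈ Subgroup.zpowers y := by rw [← hY]; exact g.2
    rw [← mem_powers_iff_mem_zpowers] at h1
    obtain ⟨i, hi⟩ := h1
    refine ⟨i, Subtype.ext ?_⟩
    rw [Subgroup.coe_pow, hy₀c]
    exact hi.symm
  obtain ⟨ζ, hζ⟩ : ∃ ζ : ℂ, ζ = Complex.exp (2 * Real.pi * Complex.I / m) := ⟨_, rfl⟩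
  have hprim : IsPrimitiveRoot ζ m := by rw [hζ]; exact Complex.isPrimitiveRoot_exp m hm0
  obtain ⟨μ, -, hμ⟩ := Cfsg.Agent.Lib.Helper25.ItoSpecial.exists_lin (⊥ : Subgroup Y) y₀
    (by
      rw [bot_sup_eq, Subgroup.eq_top_iff']
      intro g
      obtain ⟨i, rfl⟩ := hgen g
      exact Subgroup.pow_mem _ (Subgroup.mem_zpowers y₀) i)
    (by
      intro k hk
      exact Subgroup.mem_bot.mp hk)
    ζ (by rw [hord]; exact hprim.pow_eq_one)
  have hμpow : ∀ i : ℕ, ((μ (y₀ ^ i) : ℂˣ) : ℂ) = ζ ^ i := by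
    intro i
    rw [map_pow, Units.val_pow_eq_pow_val, hμ]
  -- compare characters
  obtain ⟨σ, hσ⟩ : ∃ σ : Representation ℂ Y (Fin n → ℂ), σ = ρ.comp Y.subtype := ⟨_, rfl⟩
  have hσa : ∀ g : Y, σ g = ρ (g : G) := by
    intro g
    rw [hσ]
    rfl
  have hchar : σ.character = (diagRep μ r m).character := by
    funext g
    obtain ⟨i, rfl⟩ := hgen g
    rw [diagRep_character, hμpow]
    have hl : σ.character (y₀ ^ i) = ρ.character (y ^ i) := by
      rw [character_apply, character_apply, hσa, Subgroup.coe_pow, hy₀c]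
    rw [hl]
    by_cases h1 : y ^ i = 1
    · have hdvd : m ∣ i := by rw [← hm]; exact orderOf_dvd_of_pow_eq_one h1
      have hz : ζ ^ i = 1 := by
        obtain ⟨c, rfl⟩ := hdvd
        rw [pow_mul, hprim.pow_eq_one, one_pow]
      rw [h1, hdeg, hz]
      simp
    · rw [hvan i h1]
      have hz : ζ ^ i ≠ 1 := by
        intro hz
        apply h1
        have hdvd : m ∣ i := (hprim.pow_eq_one_iff_dvd i).mp hz
        rw [← hm] at hdvd
        exact orderOf_dvd_iff_pow_eq_one.mp hdvd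
      have hzm : (ζ ^ i) ^ m = 1 := by
        rw [← pow_mul, mul_comm, pow_mul, hprim.pow_eq_one, one_pow]
      have hgs := geom_sum_mul (ζ ^ i) m
      rw [hzm, sub_self] at hgs
      have hne : ζ ^ i - 1 ≠ 0 := sub_ne_zero.mpr hz
      rcases mul_eq_zero.mp hgs with h2 | h2
      · rw [h2, mul_zero]
      · exact absurd h2 hne
  obtain ⟨φ⟩ := equiv_of_char_eq σ (diagRep μ r m) hchar
  have hdet := det_eq_of_equiv φ y₀
  have hl : σ y₀ = ρ y := by
    rw [hσa, hy₀c]
  rw [hl, diagRep_det, hμ] at hdet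
  rw [hdet]
  -- evaluate
  obtain ⟨h, hh⟩ := hmeven
  have hhpos : 0 < h := by omega
  have hsum : ∑ j ∈ Finset.range m, j = h * (m - 1) := by
    have h1 := Finset.sum_range_id_mul_two m
    have h2 : (∑ j ∈ Finset.range m, j) * 2 = (h * (m - 1)) * 2 := by
      rw [h1, hh]; ring
    exact Nat.eq_of_mul_eq_mul_right (by norm_num) h2
  have hzh : ζ ^ h = -1 := by
    have h1 : ζ ^ h ≠ 1 := hprim.pow_ne_one_of_pos_of_lt hhpos.ne' (by omega)
    have h2 : (ζ ^ h) * (ζ ^ h) = 1 := by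
      rw [← pow_add, ← hh, hprim.pow_eq_one]
    have h3 : (ζ ^ h - 1) * (ζ ^ h + 1) = 0 := by linear_combination h2
    rcases mul_eq_zero.mp h3 with h4 | h4
    · exact absurd (sub_eq_zero.mp h4) h1
    · linear_combination h4
  have hodd : Odd (m - 1) := by
    rw [hh]
    exact ⟨h - 1, by omega⟩
  rw [hsum, pow_mul, hzh, hodd.neg_one_pow, hr.neg_one_pow]

end Cfsg.Agent.Lib.Helper25.DetReg
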