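import Mathlib

namespace Cfsg.Agent.Lib.Helper25.ExS5

variable {P : Type*} [Group P]

/-- abstract context of an extraspecial 2-group with central involution `z`. -/
structure ES (z : P) : Prop where
  ne : z ≠ 1
  sq : z * z = 1
  cen : ∀ g : P, z * g = g * z
  ctr : ∀ c : P, (∀ g : P, c * g = g * c) → c = 1 ∨ c = z
  sqr : ∀ g : P, g * g = 1 ∨ g * g = z
  com : ∀ g h : P, g * h = h * g ∨ g * h = z * (h * g)

/-- a frame: four pairwise anticommuting involutions. -/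
structure Fr (z t1 t2 t3 t4 : P) : Prop where
  s1 : t1 * t1 = 1
  s2 : t2 * t2 = 1
  s3 : t3 * t3 = 1
  s4 : t4 * t4 = 1
  c12 : t1 * t2 = z * (t2 * t1)
  c13 : t1 * t3 = z * (t3 * t1)
  c14 : t1 * t4 = z * (t4 * t1)
  c23 : t2 * t3 = z * (t3 * t2)
  c24 : t2 * t4 = z * (t4 * t2)
  c34 : t3 * t4 = z * (t4 * t3)

variable {z : P}

theorem ES.zc (hz : ES z) (k : ℕ) (g : P) : g * z ^ k = z ^ k * g :=
  ((show Commute z g from hz.cen g).pow_left k).eq.symm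

theorem ES.swap (hz : ES z) {x y : P} (h : x * y = z * (y * x)) : y * x = z * (x * y) := by
  rw [h, ← mul_assoc, hz.sq, one_mul]

theorem ES.zmov (hz : ES z) (k : ℕ) (X Y : P) : X * (z ^ k * Y) = z ^ k * (X * Y) := by
  rw [← mul_assoc, hz.zc, mul_assoc]

theorem pow_par {x : P} (h : x * x = 1) (a : ℕ) : x ^ a = x ^ (a % 2) :=
  pow_eq_pow_mod a (by rw [pow_two]; exact h)

theorem ES.zpar (hz : ES z) {k l : ℕ} (h : k % 2 = l % 2) : z ^ k = z ^ l := by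
  rw [pow_par hz.sq k, pow_par hz.sq l, h]

theorem ES.z_pow_par (hz : ES z) {k l : ℕ} (h : z ^ k = z ^ l) : k % 2 = l % 2 := by
  rw [pow_par hz.sq k, pow_par hz.sq l] at h
  rcases Nat.mod_two_eq_zero_or_one k with hk | hk <;>
    rcases Nat.mod_two_eq_zero_or_one l with hl | hl
  · rw [hk, hl]
  · rw [hk, hl, pow_zero, pow_one] at h; exact absurd h.symm hz.ne
  · rw [hk, hl, pow_zero, pow_one] at h; exact absurd h hz.ne
  · rw [hk, hl]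

theorem pow_swap1 (hz : ES z) {x y : P} (h : x * y = z * (y * x)) (b : ℕ) :
    x * y ^ b = z ^ b * (y ^ b * x) := by
  induction b with
  | zero => simp
  | succ b ih =>
    calc x * y ^ (b + 1) = (x * y ^ b) * y := by rw [pow_succ, mul_assoc]
      _ = z ^ b * (y ^ b * x) * y := by rw [ih]
      _ = z ^ b * (y ^ b * (x * y)) := by simp only [mul_assoc]
      _ = z ^ b * (y ^ b * (z * (y * x))) := by rw [h]
      _ = z ^ b * ((y ^ b * z) * (y * x)) := by simp only [mul_assoc]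
      _ = z ^ b * ((z * y ^ b) * (y * x)) := by rw [← hz.cen (y ^ b)]
      _ = z ^ (b + 1) * (y ^ (b + 1) * x) := by
        rw [pow_succ, pow_succ]; simp only [mul_assoc]

theorem pow_swap (hz : ES z) {x y : P} (h : x * y = z * (y * x)) (a b : ℕ) :
    x ^ a * y ^ b = z ^ (a * b) * (y ^ b * x ^ a) := by
  induction a with
  | zero => simp
  | succ a ih =>
    have e : z ^ ((a + 1) * b) = z ^ b * z ^ (a * b) := by
      rw [← pow_add]; congr 1; ring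
    calc x ^ (a + 1) * y ^ b = x ^ a * (x * y ^ b) := by rw [pow_succ, mul_assoc]
      _ = x ^ a * (z ^ b * (y ^ b * x)) := by rw [pow_swap1 hz h]
      _ = z ^ b * (x ^ a * y ^ b * x) := by
        rw [hz.zmov b (x ^ a)]; simp only [mul_assoc]
      _ = z ^ b * (z ^ (a * b) * (y ^ b * x ^ a) * x) := by rw [ih]
      _ = z ^ ((a + 1) * b) * (y ^ b * x ^ (a + 1)) := by
        rw [e, pow_succ]; simp only [mul_assoc]

theorem mv (hz : ES z) {x y : P} (h : x * y = z * (y * x)) (X : P) (a b : ℕ) :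
    X * x ^ a * y ^ b = z ^ (a * b) * (X * y ^ b * x ^ a) := by
  rw [mul_assoc, pow_swap hz h, hz.zmov (a * b) X (y ^ b * x ^ a)]
  simp only [mul_assoc]

/-- the normal form word. -/
def nf (z t1 t2 t3 t4 : P) (e a1 a2 a3 a4 : ℕ) : P :=
  z ^ e * t1 ^ a1 * t2 ^ a2 * t3 ^ a3 * t4 ^ a4

variable {t1 t2 t3 t4 : P}

theorem Rz (hz : ES z) (e a1 a2 a3 a4 f : ℕ) :
    nf z t1 t2 t3 t4 e a1 a2 a3 a4 * z ^ f = nf z t1 t2 t3 t4 (e + f) a1 a2 a3 a4 := by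
  unfold nf
  rw [hz.zc f, pow_add, hz.zc f (z ^ e)]
  simp only [mul_assoc]

theorem R4 (e a1 a2 a3 a4 b : ℕ) :
    nf z t1 t2 t3 t4 e a1 a2 a3 a4 * t4 ^ b = nf z t1 t2 t3 t4 e a1 a2 a3 (a4 + b) := by
  unfold nf
  rw [mul_assoc, ← pow_add]

theorem R3 (hz : ES z) (ht : Fr z t1 t2 t3 t4) (e a1 a2 a3 a4 b : ℕ) :
    nf z t1 t2 t3 t4 e a1 a2 a3 a4 * t3 ^ b
      = nf z t1 t2 t3 t4 (e + a4 * b) a1 a2 (a3 + b) a4 := by
  unfold nf
  rw [mv hz (hz.swap ht.c34)]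
  have ez : z ^ (e + a4 * b) = z ^ (a4 * b) * z ^ e := by
    rw [← pow_add]; congr 1; ring
  rw [ez, pow_add t3 a3 b]
  simp only [mul_assoc]

theorem R2 (hz : ES z) (ht : Fr z t1 t2 t3 t4) (e a1 a2 a3 a4 b : ℕ) :
    nf z t1 t2 t3 t4 e a1 a2 a3 a4 * t2 ^ b
      = nf z t1 t2 t3 t4 (e + (a3 + a4) * b) a1 (a2 + b) a3 a4 := by
  unfold nf
  rw [mv hz (hz.swap ht.c24), mv hz (hz.swap ht.c23)]
  have ez : z ^ (e + (a3 + a4) * b) = z ^ (a4 * b) * (z ^ (a3 * b) * z ^ e) := by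
    rw [← pow_add, ← pow_add]; congr 1; ring
  rw [ez, pow_add t2 a2 b]
  simp only [mul_assoc]

theorem R1 (hz : ES z) (ht : Fr z t1 t2 t3 t4) (e a1 a2 a3 a4 b : ℕ) :
    nf z t1 t2 t3 t4 e a1 a2 a3 a4 * t1 ^ b
      = nf z t1 t2 t3 t4 (e + (a2 + a3 + a4) * b) (a1 + b) a2 a3 a4 := by
  unfold nf
  rw [mv hz (hz.swap ht.c14), mv hz (hz.swap ht.c13), mv hz (hz.swap ht.c12)]
  have ez : z ^ (e + (a2 + a3 + a4) * b)
      = z ^ (a4 * b) * (z ^ (a3 * b) * (z ^ (a2 * b) * z ^ e)) := by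
    rw [← pow_add, ← pow_add, ← pow_add]; congr 1; ring
  rw [ez, pow_add t1 a1 b]
  simp only [mul_assoc]

/-- the universal product formula. -/
theorem nf_mul (hz : ES z) (ht : Fr z t1 t2 t3 t4) (e a1 a2 a3 a4 f b1 b2 b3 b4 : ℕ) :
    nf z t1 t2 t3 t4 e a1 a2 a3 a4 * nf z t1 t2 t3 t4 f b1 b2 b3 b4
      = nf z t1 t2 t3 t4 (e + f + (a2 + a3 + a4) * b1 + (a3 + a4) * b2 + a4 * b3)
          (a1 + b1) (a2 + b2) (a3 + b3) (a4 + b4) := by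
  have h : nf z t1 t2 t3 t4 f b1 b2 b3 b4 = z ^ f * t1 ^ b1 * t2 ^ b2 * t3 ^ b3 * t4 ^ b4 := rfl
  rw [h, ← mul_assoc, ← mul_assoc, ← mul_assoc, ← mul_assoc, Rz hz, R1 hz ht, R2 hz ht,
    R3 hz ht, R4]

theorem nf_mod (hz : ES z) (ht : Fr z t1 t2 t3 t4) (e a1 a2 a3 a4 : ℕ) :
    nf z t1 t2 t3 t4 e a1 a2 a3 a4
      = nf z t1 t2 t3 t4 (e % 2) (a1 % 2) (a2 % 2) (a3 % 2) (a4 % 2) := by
  unfold nf
  rw [← pow_par hz.sq e, ← pow_par ht.s1 a1, ← pow_par ht.s2 a2, ← pow_par ht.s3 a3,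
    ← pow_par ht.s4 a4]

theorem K1 (hz : ES z) (ht : Fr z t1 t2 t3 t4) (e a1 a2 a3 a4 : ℕ) :
    nf z t1 t2 t3 t4 e a1 a2 a3 a4 * t1
      = z ^ (a2 + a3 + a4) * (t1 * nf z t1 t2 t3 t4 e a1 a2 a3 a4) := by
  have h1 : t1 = nf z t1 t2 t3 t4 0 1 0 0 0 := by simp [nf]
  have L := nf_mul hz ht e a1 a2 a3 a4 0 1 0 0 0
  have R := nf_mul hz ht 0 1 0 0 0 e a1 a2 a3 a4
  rw [← h1] at L R
  rw [L, R]
  unfold nf
  rw [hz.zpar (show (e + 0 + (a2 + a3 + a4) * 1 + (a3 + a4) * 0 + a4 * 0) % 2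
      = ((a2 + a3 + a4) + (0 + e + (0 + 0 + 0) * a1 + (0 + 0) * a2 + 0 * a3)) % 2 by
        simp only [Nat.mul_zero, Nat.mul_one, Nat.add_zero, Nat.zero_add]
        omega), pow_add, Nat.add_comm 1 a1]
  simp only [mul_assoc, Nat.add_zero, Nat.zero_add]

theorem K2 (hz : ES z) (ht : Fr z t1 t2 t3 t4) (e a1 a2 a3 a4 : ℕ) :
    nf z t1 t2 t3 t4 e a1 a2 a3 a4 * t2
      = z ^ (a1 + a3 + a4) * (t2 * nf z t1 t2 t3 t4 e a1 a2 a3 a4) := by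
  have h1 : t2 = nf z t1 t2 t3 t4 0 0 1 0 0 := by simp [nf]
  have L := nf_mul hz ht e a1 a2 a3 a4 0 0 1 0 0
  have R := nf_mul hz ht 0 0 1 0 0 e a1 a2 a3 a4
  rw [← h1] at L R
  rw [L, R]
  unfold nf
  rw [hz.zpar (show (e + 0 + (a2 + a3 + a4) * 0 + (a3 + a4) * 1 + a4 * 0) % 2
      = ((a1 + a3 + a4) + (0 + e + (1 + 0 + 0) * a1 + (0 + 0) * a2 + 0 * a3)) % 2 by
        simp only [Nat.mul_zero, Nat.zero_mul, Nat.mul_one, Nat.one_mul, Nat.add_zero,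
          Nat.zero_add]
        omega), pow_add, Nat.add_comm 1 a2]
  simp only [mul_assoc, Nat.add_zero, Nat.zero_add]

theorem K3 (hz : ES z) (ht : Fr z t1 t2 t3 t4) (e a1 a2 a3 a4 : ℕ) :
    nf z t1 t2 t3 t4 e a1 a2 a3 a4 * t3
      = z ^ (a1 + a2 + a4) * (t3 * nf z t1 t2 t3 t4 e a1 a2 a3 a4) := by
  have h1 : t3 = nf z t1 t2 t3 t4 0 0 0 1 0 := by simp [nf]
  have L := nf_mul hz ht e a1 a2 a3 a4 0 0 0 1 0
  have R := nf_mul hz ht 0 0 0 1 0 e a1 a2 a3 a4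
  rw [← h1] at L R
  rw [L, R]
  unfold nf
  rw [hz.zpar (show (e + 0 + (a2 + a3 + a4) * 0 + (a3 + a4) * 0 + a4 * 1) % 2
      = ((a1 + a2 + a4) + (0 + e + (0 + 1 + 0) * a1 + (1 + 0) * a2 + 0 * a3)) % 2 by
        simp only [Nat.mul_zero, Nat.zero_mul, Nat.mul_one, Nat.one_mul, Nat.add_zero,
          Nat.zero_add]
        omega), pow_add, Nat.add_comm 1 a3]
  simp only [mul_assoc, Nat.add_zero, Nat.zero_add]

theorem K4 (hz : ES z) (ht : Fr z t1 t2 t3 t4) (e a1 a2 a3 a4 : ℕ) :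
    nf z t1 t2 t3 t4 e a1 a2 a3 a4 * t4
      = z ^ (a1 + a2 + a3) * (t4 * nf z t1 t2 t3 t4 e a1 a2 a3 a4) := by
  have h1 : t4 = nf z t1 t2 t3 t4 0 0 0 0 1 := by simp [nf]
  have L := nf_mul hz ht e a1 a2 a3 a4 0 0 0 0 1
  have R := nf_mul hz ht 0 0 0 0 1 e a1 a2 a3 a4
  rw [← h1] at L R
  rw [L, R]
  unfold nf
  rw [hz.zpar (show (e + 0 + (a2 + a3 + a4) * 0 + (a3 + a4) * 0 + a4 * 0) % 2
      = ((a1 + a2 + a3) + (0 + e + (0 + 0 + 1) * a1 + (0 + 1) * a2 + 1 * a3)) % 2 by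
        simp only [Nat.mul_zero, Nat.zero_mul, Nat.mul_one, Nat.one_mul, Nat.add_zero,
          Nat.zero_add]
        omega), pow_add, Nat.add_comm 1 a4]
  simp only [mul_assoc, Nat.add_zero, Nat.zero_add]

/-- uniqueness of the normal form up to parity. -/
theorem nf_inj (hz : ES z) (ht : Fr z t1 t2 t3 t4) {e a1 a2 a3 a4 e' b1 b2 b3 b4 : ℕ}
    (h : nf z t1 t2 t3 t4 e a1 a2 a3 a4 = nf z t1 t2 t3 t4 e' b1 b2 b3 b4) :
    e % 2 = e' % 2 ∧ a1 % 2 = b1 % 2 ∧ a2 % 2 = b2 % 2 ∧ a3 % 2 = b3 % 2 ∧ a4 % 2 = b4 % 2 := by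
  have k1 : (a2 + a3 + a4) % 2 = (b2 + b3 + b4) % 2 := by
    apply hz.z_pow_par
    have h1 := K1 hz ht e a1 a2 a3 a4
    have h2 := K1 hz ht e' b1 b2 b3 b4
    rw [h] at h1; rw [h1] at h2; exact mul_right_cancel h2
  have k2 : (a1 + a3 + a4) % 2 = (b1 + b3 + b4) % 2 := by
    apply hz.z_pow_par
    have h1 := K2 hz ht e a1 a2 a3 a4
    have h2 := K2 hz ht e' b1 b2 b3 b4
    rw [h] at h1; rw [h1] at h2; exact mul_right_cancel h2
  have k3 : (a1 + a2 + a4) % 2 = (b1 + b2 + b4) % 2 := by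
    apply hz.z_pow_par
    have h1 := K3 hz ht e a1 a2 a3 a4
    have h2 := K3 hz ht e' b1 b2 b3 b4
    rw [h] at h1; rw [h1] at h2; exact mul_right_cancel h2
  have k4 : (a1 + a2 + a3) % 2 = (b1 + b2 + b3) % 2 := by
    apply hz.z_pow_par
    have h1 := K4 hz ht e a1 a2 a3 a4
    have h2 := K4 hz ht e' b1 b2 b3 b4
    rw [h] at h1; rw [h1] at h2; exact mul_right_cancel h2
  have ha1 : a1 % 2 = b1 % 2 := by omega
  have ha2 : a2 % 2 = b2 % 2 := by omega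
  have ha3 : a3 % 2 = b3 % 2 := by omega
  have ha4 : a4 % 2 = b4 % 2 := by omega
  refine ⟨?_, ha1, ha2, ha3, ha4⟩
  rw [nf_mod hz ht e a1 a2 a3 a4, nf_mod hz ht e' b1 b2 b3 b4, ha1, ha2, ha3, ha4] at h
  unfold nf at h
  have h5 := mul_right_cancel (mul_right_cancel (mul_right_cancel (mul_right_cancel h)))
  have := hz.z_pow_par h5
  omega

theorem nf_congr (hz : ES z) (ht : Fr z t1 t2 t3 t4) {e a1 a2 a3 a4 e' b1 b2 b3 b4 : ℕ}
    (h0 : e % 2 = e' % 2) (h1 : a1 % 2 = b1 % 2) (h2 : a2 % 2 = b2 % 2) (h3 : a3 % 2 = b3 % 2)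
    (h4 : a4 % 2 = b4 % 2) :
    nf z t1 t2 t3 t4 e a1 a2 a3 a4 = nf z t1 t2 t3 t4 e' b1 b2 b3 b4 := by
  rw [nf_mod hz ht e a1 a2 a3 a4, nf_mod hz ht e' b1 b2 b3 b4, h0, h1, h2, h3, h4]

/-- every element has a normal form. -/
theorem nf_surj [Finite P] (hz : ES z) (ht : Fr z t1 t2 t3 t4) (hcard : Nat.card P = 32)
    (g : P) : ∃ e a1 a2 a3 a4 : ℕ, e < 2 ∧ a1 < 2 ∧ a2 < 2 ∧ a3 < 2 ∧ a4 < 2 ∧
      g = nf z t1 t2 t3 t4 e a1 a2 a3 a4 := by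
  let f : Fin 2 × Fin 2 × Fin 2 × Fin 2 × Fin 2 → P :=
    fun m => nf z t1 t2 t3 t4 m.1 m.2.1 m.2.2.1 m.2.2.2.1 m.2.2.2.2
  have hinj : Function.Injective f := by
    rintro ⟨e, a1, a2, a3, a4⟩ ⟨e', b1, b2, b3, b4⟩ h
    have h' : nf z t1 t2 t3 t4 (e : ℕ) (a1 : ℕ) (a2 : ℕ) (a3 : ℕ) (a4 : ℕ)
        = nf z t1 t2 t3 t4 (e' : ℕ) (b1 : ℕ) (b2 : ℕ) (b3 : ℕ) (b4 : ℕ) := h
    obtain ⟨h0, h1, h2, h3, h4⟩ := nf_inj hz ht h'
    have := e.2; have := e'.2; have := a1.2; have := b1.2; have := a2.2; have := b2.2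
    have := a3.2; have := b3.2; have := a4.2; have := b4.2
    simp only [Prod.mk.injEq]
    refine ⟨Fin.ext (by omega), Fin.ext (by omega), Fin.ext (by omega), Fin.ext (by omega),
      Fin.ext (by omega)⟩
  have hbij : Function.Bijective f := by
    rw [Nat.bijective_iff_injective_and_card]
    refine ⟨hinj, ?_⟩
    rw [hcard]
    simp [Nat.card_eq_fintype_card]
  obtain ⟨⟨e, a1, a2, a3, a4⟩, rfl⟩ := hbij.2 g
  exact ⟨e, a1, a2, a3, a4, e.2, a1.2, a2.2, a3.2, a4.2, rfl⟩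

theorem hom_param {M : Type*} {G₁ : Type*} {G₂ : Type*} [Group G₁] [Group G₂]
    (op : M → M → M) (ψ₁ : M → G₁) (ψ₂ : M → G₂)
    (hs : Function.Surjective ψ₁) (hwd : ∀ m m', ψ₁ m = ψ₁ m' → ψ₂ m = ψ₂ m')
    (h₁ : ∀ m m', ψ₁ (op m m') = ψ₁ m * ψ₁ m') (h₂ : ∀ m m', ψ₂ (op m m') = ψ₂ m * ψ₂ m') :
    ∃ F : G₁ →* G₂, ∀ m, F (ψ₁ m) = ψ₂ m := by
  refine ⟨MonoidHom.mk' (fun g => ψ₂ (Function.surjInv hs g)) ?_, ?_⟩
  · intro a b
    show ψ₂ (Function.surjInv hs (a * b)) =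
      ψ₂ (Function.surjInv hs a) * ψ₂ (Function.surjInv hs b)
    rw [← h₂]
    apply hwd
    rw [h₁, Function.surjInv_eq hs, Function.surjInv_eq hs, Function.surjInv_eq hs]
  · intro m
    show ψ₂ (Function.surjInv hs (ψ₁ m)) = ψ₂ m
    apply hwd
    rw [Function.surjInv_eq hs]

/-- any two frames are related by an automorphism. -/
theorem exists_aut [Finite P] (hz : ES z) (hcard : Nat.card P = 32) {s1 s2 s3 s4 : P}
    (ht : Fr z t1 t2 t3 t4) (hs : Fr z s1 s2 s3 s4) :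
    ∃ α : P ≃* P, ∀ e a1 a2 a3 a4 : ℕ,
      α (nf z t1 t2 t3 t4 e a1 a2 a3 a4) = nf z s1 s2 s3 s4 e a1 a2 a3 a4 := by
  obtain ⟨F, hF⟩ := hom_param
    (fun m m' : ℕ × ℕ × ℕ × ℕ × ℕ =>
      (m.1 + m'.1 + (m.2.2.1 + m.2.2.2.1 + m.2.2.2.2) * m'.2.1
          + (m.2.2.2.1 + m.2.2.2.2) * m'.2.2.1 + m.2.2.2.2 * m'.2.2.2.1,
        m.2.1 + m'.2.1, m.2.2.1 + m'.2.2.1, m.2.2.2.1 + m'.2.2.2.1, m.2.2.2.2 + m'.2.2.2.2))
    (fun m => nf z t1 t2 t3 t4 m.1 m.2.1 m.2.2.1 m.2.2.2.1 m.2.2.2.2)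
    (fun m => nf z s1 s2 s3 s4 m.1 m.2.1 m.2.2.1 m.2.2.2.1 m.2.2.2.2)
    (by
      intro g
      obtain ⟨e, a1, a2, a3, a4, -, -, -, -, -, rfl⟩ := nf_surj hz ht hcard g
      exact ⟨(e, a1, a2, a3, a4), rfl⟩)
    (by
      rintro ⟨e, a1, a2, a3, a4⟩ ⟨e', b1, b2, b3, b4⟩ h
      obtain ⟨h0, h1, h2, h3, h4⟩ := nf_inj hz ht h
      exact nf_congr hz hs h0 h1 h2 h3 h4)
    (by
      rintro ⟨e, a1, a2, a3, a4⟩ ⟨e', b1, b2, b3, b4⟩
      exact (nf_mul hz ht e a1 a2 a3 a4 e' b1 b2 b3 b4).symm)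
    (by
      rintro ⟨e, a1, a2, a3, a4⟩ ⟨e', b1, b2, b3, b4⟩
      exact (nf_mul hz hs e a1 a2 a3 a4 e' b1 b2 b3 b4).symm)
  have hFz : F z = z := by
    have := hF (1, 0, 0, 0, 0)
    simpa [nf] using this
  have hinj : Function.Injective F := by
    rw [injective_iff_map_eq_one]
    intro g hg
    by_contra hg1
    by_cases hc : ∀ h : P, g * h = h * g
    · rcases hz.ctr g hc with h | h
      · exact hg1 h
      · rw [h, hFz] at hg; exact hz.ne hg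
    · push Not at hc
      obtain ⟨h, hh⟩ := hc
      rcases hz.com g h with h' | h'
      · exact hh h'
      · have := congrArg F h'
        rw [map_mul, map_mul, map_mul, hg, hFz, one_mul, mul_one] at this
        exact hz.ne (by
          have h6 : z * F h = 1 * F h := by rw [one_mul]; exact this.symm
          exact mul_right_cancel h6)
  have hbij : Function.Bijective F := ⟨hinj, Finite.injective_iff_surjective.mp hinj⟩
  exact ⟨MulEquiv.ofBijective F hbij, fun e a1 a2 a3 a4 => hF (e, a1, a2, a3, a4)⟩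

end Cfsg.Agent.Lib.Helper25.ExS5
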