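import Mathlib
import Cfsg.Agent.Lib.Helper25.ExS5A

namespace Cfsg.Agent.Lib.Helper25.ExS5

variable {P : Type*} [Group P] {z : P}

/-- `g` and `h` commute. -/
def Cm (g h : P) : Prop := g * h = h * g

/-- `g` and `h` anticommute (commutator `z`). -/
def Am (z g h : P) : Prop := g * h = z * (h * g)

theorem Cm.sy {g h : P} (a : Cm g h) : Cm h g := Eq.symm a

theorem Am.sy (hz : ES z) {g h : P} (a : Am z g h) : Am z h g := hz.swap a

theorem nb (hz : ES z) {g h : P} (a : Cm g h) (b : Am z g h) : False := by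
  unfold Cm at a; unfold Am at b
  rw [a] at b
  exact hz.ne (mul_right_cancel (a := z) (b := h * g) (c := 1) (by rw [one_mul]; exact b.symm))

theorem lcc {g1 g2 h : P} (a : Cm g1 h) (b : Cm g2 h) : Cm (g1 * g2) h := by
  unfold Cm at *
  rw [mul_assoc, b, ← mul_assoc, a, mul_assoc]

theorem zmov1 (hz : ES z) (X Y : P) : X * (z * Y) = z * (X * Y) := by
  rw [← mul_assoc, ← hz.cen X, mul_assoc]

theorem lca (hz : ES z) {g1 g2 h : P} (a : Cm g1 h) (b : Am z g2 h) : Am z (g1 * g2) h := by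
  unfold Cm at a; unfold Am at *
  rw [mul_assoc, b, zmov1 hz g1 (h * g2), ← mul_assoc g1, a, mul_assoc]

theorem lac (hz : ES z) {g1 g2 h : P} (a : Am z g1 h) (b : Cm g2 h) : Am z (g1 * g2) h := by
  unfold Cm at b; unfold Am at *
  rw [mul_assoc, b, ← mul_assoc, a, mul_assoc, mul_assoc]

theorem laa (hz : ES z) {g1 g2 h : P} (a : Am z g1 h) (b : Am z g2 h) : Cm (g1 * g2) h := by
  unfold Am at a b; unfold Cm
  have e1 : g1 * (z * (h * g2)) = z * (g1 * (h * g2)) := by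
    simpa using hz.zmov 1 g1 (h * g2)
  rw [mul_assoc, b, e1, ← mul_assoc g1, a, mul_assoc z, ← mul_assoc z, hz.sq, one_mul, mul_assoc]

theorem rcc {g1 g2 h : P} (a : Cm h g1) (b : Cm h g2) : Cm h (g1 * g2) := (lcc a.sy b.sy).sy

theorem rca (hz : ES z) {g1 g2 h : P} (a : Cm h g1) (b : Am z h g2) : Am z h (g1 * g2) :=
  (lca hz a.sy (b.sy hz)).sy hz

theorem rac (hz : ES z) {g1 g2 h : P} (a : Am z h g1) (b : Cm h g2) : Am z h (g1 * g2) :=
  (lac hz (a.sy hz) b.sy).sy hz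

theorem raa (hz : ES z) {g1 g2 h : P} (a : Am z h g1) (b : Am z h g2) : Cm h (g1 * g2) :=
  (laa hz (a.sy hz) (b.sy hz)).sy

theorem sqc {g h : P} (a : Cm g h) : (g * h) * (g * h) = (g * g) * (h * h) := by
  unfold Cm at a
  rw [mul_assoc, ← mul_assoc h, ← a]
  simp only [mul_assoc]

theorem sqa (hz : ES z) {g h : P} (a : Am z g h) :
    (g * h) * (g * h) = z * ((g * g) * (h * h)) := by
  have b : h * g = z * (g * h) := hz.swap a
  rw [mul_assoc, ← mul_assoc h g h, b]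
  simp only [mul_assoc]
  rw [zmov1 hz]

theorem cm_self (g : P) : Cm g g := rfl

theorem cm_z (hz : ES z) (g : P) : Cm z g := hz.cen g

theorem cm_one (g : P) : Cm 1 g := by unfold Cm; rw [one_mul, mul_one]

theorem cm_or_am (hz : ES z) (g h : P) : Cm g h ∨ Am z g h := hz.com g h

/-- cancellation: if `c` commutes with `m` and with `m * g` then it commutes with `g`. -/
theorem cm_cancel {c m g : P} (a : Cm c m) (b : Cm c (m * g)) : Cm c g := by
  unfold Cm at *
  have : m * (c * g) = m * (g * c) := by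
    rw [← mul_assoc, ← a, mul_assoc, b, mul_assoc]
  exact mul_left_cancel this

/-- no elementary abelian subgroup of order 8, in elementwise form. -/
def NoE8 (P : Type*) [Group P] : Prop :=
  ∀ u v w : P, u * u = 1 → v * v = 1 → w * w = 1 → u * v = v * u → u * w = w * u →
    v * w = w * v → u ≠ 1 → v ≠ 1 → w ≠ 1 → u ≠ v → u ≠ w → v ≠ w → u * v ≠ w → False

theorem exists_am [Finite P] (hz : ES z) (hcard : Nat.card P = 32) : ∃ x y : P, Am z x y := by
  by_contra hno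
  push Not at hno
  have hall : ∀ g : P, g = 1 ∨ g = z := fun g =>
    hz.ctr g (fun h => (cm_or_am hz g h).resolve_right (hno g h))
  have hsub : (Set.univ : Set P) ⊆ {1, z} := fun g _ => by
    rcases hall g with h | h
    · rw [h]; exact Set.mem_insert _ _
    · rw [h]; exact Set.mem_insert_of_mem _ rfl
  have h1 : (Set.univ : Set P).ncard ≤ ({1, z} : Set P).ncard :=
    Set.ncard_le_ncard hsub (Set.toFinite _)
  rw [Set.ncard_univ, hcard] at h1
  have h2 : ({1, z} : Set P).ncard ≤ 2 :=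
    (Set.ncard_insert_le 1 {z}).trans (by rw [Set.ncard_singleton])
  omega

theorem decomp (hz : ES z) {x y : P} (hxy : Am z x y) (g : P) :
    ∃ m, (m = 1 ∨ m = y ∨ m = x ∨ m = x * y) ∧ Cm (m * g) x ∧ Cm (m * g) y := by
  rcases cm_or_am hz g x with hx | hx <;> rcases cm_or_am hz g y with hy | hy
  · exact ⟨1, Or.inl rfl, by rw [one_mul]; exact hx, by rw [one_mul]; exact hy⟩
  · exact ⟨x, Or.inr (Or.inr (Or.inl rfl)), lcc (cm_self x) hx, laa hz hxy hy⟩
  · exact ⟨y, Or.inr (Or.inl rfl), laa hz (hxy.sy hz) hx, lcc (cm_self y) hy⟩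
  · refine ⟨x * y, Or.inr (Or.inr (Or.inr rfl)), ?_, ?_⟩
    · exact laa hz (lca hz (cm_self x) (hxy.sy hz)) hx
    · exact laa hz (lac hz hxy (cm_self y)) hy

theorem exists_second [Finite P] (hz : ES z) (hcard : Nat.card P = 32) {x y : P}
    (hxy : Am z x y) :
    ∃ c d : P, Cm c x ∧ Cm c y ∧ Cm d x ∧ Cm d y ∧ Am z c d := by
  classical
  by_contra hno
  have hC : ∀ c d : P, Cm c x → Cm c y → Cm d x → Cm d y → Cm c d := by
    intro c d h1 h2 h3 h4
    rcases cm_or_am hz c d with h | h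
    · exact h
    · exact absurd ⟨c, d, h1, h2, h3, h4, h⟩ hno
  have hcen : ∀ c : P, Cm c x → Cm c y → c = 1 ∨ c = z := by
    intro c h1 h2
    apply hz.ctr
    intro g
    obtain ⟨m, hm, hm1, hm2⟩ := decomp hz hxy g
    have hcm : Cm c m := by
      rcases hm with rfl | rfl | rfl | rfl
      · exact (cm_one c).sy
      · exact h2
      · exact h1
      · exact rcc h1 h2
    exact cm_cancel hcm (hC c (m * g) h1 h2 hm1 hm2)
  have hall : ∀ g : P, g ∈ ([1, z, y⁻¹, y⁻¹ * z, x⁻¹, x⁻¹ * z, (x * y)⁻¹, (x * y)⁻¹ * z] :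
      List P) := by
    intro g
    obtain ⟨m, hm, hm1, hm2⟩ := decomp hz hxy g
    have hg : g = m⁻¹ * (m * g) := by group
    rcases hcen (m * g) hm1 hm2 with h | h <;> rw [h] at hg <;>
      rcases hm with rfl | rfl | rfl | rfl <;> rw [hg] <;> simp
  haveI : Fintype P := Fintype.ofFinite P
  have h1 : (Finset.univ : Finset P).card
      ≤ ([1, z, y⁻¹, y⁻¹ * z, x⁻¹, x⁻¹ * z, (x * y)⁻¹, (x * y)⁻¹ * z] : List P).toFinset.card :=
    Finset.card_le_card (fun g _ => List.mem_toFinset.mpr (hall g))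
  have h2 := List.toFinset_card_le
    ([1, z, y⁻¹, y⁻¹ * z, x⁻¹, x⁻¹ * z, (x * y)⁻¹, (x * y)⁻¹ * z] : List P)
  rw [Finset.card_univ, ← Nat.card_eq_fintype_card, hcard] at h1
  simp only [List.length_cons, List.length_nil] at h2
  omega

theorem pair_type (hz : ES z) {x y : P} (h : Am z x y) :
    (∃ x' y', x' * x' = 1 ∧ y' * y' = 1 ∧ Am z x' y' ∧
        ∀ g, Cm g x → Cm g y → (Cm g x' ∧ Cm g y')) ∨ (x * x = z ∧ y * y = z) := by
  rcases hz.sqr x with hx | hx <;> rcases hz.sqr y with hy | hy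
  · exact Or.inl ⟨x, y, hx, hy, h, fun g a b => ⟨a, b⟩⟩
  · refine Or.inl ⟨x, x * y, hx, ?_, rca hz (cm_self x) h, fun g a b => ⟨a, rcc a b⟩⟩
    rw [sqa hz h, hx, hy, one_mul, hz.sq]
  · refine Or.inl ⟨x * y, y, ?_, hy, lac hz h (cm_self y), fun g a b => ⟨rcc a b, b⟩⟩
    rw [sqa hz h, hx, hy, mul_one, hz.sq]
  · exact Or.inr ⟨hx, hy⟩

/-- frame from a dihedral pair and a quaternion pair. -/
theorem frame_of_DQ (hz : ES z) {a b c d : P} (ha : a * a = 1) (hb : b * b = 1)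
    (hc : c * c = z) (hd : d * d = z) (hab : Am z a b) (hcd : Am z c d)
    (hac : Cm a c) (had : Cm a d) (hbc : Cm b c) (hbd : Cm b d) :
    Fr z a b (a * b * c) (a * b * d) := by
  have hw2 : (a * b) * (a * b) = z := by rw [sqa hz hab, ha, hb, one_mul, mul_one]
  have hwc : Cm (a * b) c := lcc hac hbc
  have hwd : Cm (a * b) d := lcc had hbd
  have hwa : Am z (a * b) a := lca hz (cm_self a) (hab.sy hz)
  have hwb : Am z (a * b) b := lac hz hab (cm_self b)
  refine ⟨ha, hb, ?_, ?_, hab, ?_, ?_, ?_, ?_, ?_⟩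
  · rw [sqc hwc, hw2, hc, hz.sq]
  · rw [sqc hwd, hw2, hd, hz.sq]
  · exact rac hz (hwa.sy hz) hac
  · exact rac hz (hwa.sy hz) had
  · exact rac hz (hwb.sy hz) hbc
  · exact rac hz (hwb.sy hz) hbd
  · have h1 : Cm (a * b * c) (a * b) := lcc (cm_self _) hwc.sy
    have h2 : Am z (a * b * c) d := lca hz hwd hcd
    exact rca hz h1 h2

/-- existence of a frame. -/
theorem exists_frame [Finite P] (hz : ES z) (hcard : Nat.card P = 32) (hE : NoE8 P) :
    ∃ t1 t2 t3 t4 : P, Fr z t1 t2 t3 t4 := by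
  obtain ⟨x1, y1, h1⟩ := exists_am hz hcard
  obtain ⟨x2, y2, c1, c2, c3, c4, h2⟩ := exists_second hz hcard h1
  rcases pair_type hz h1 with ⟨a, b, ha, hb, hab, hp1⟩ | ⟨hx1, hy1⟩
  · -- first pair dihedral
    have hx2a := hp1 x2 c1 c2
    have hy2a := hp1 y2 c3 c4
    rcases pair_type hz h2 with ⟨c, d, hc, hd, hcd, hp2⟩ | ⟨hx2, hy2⟩
    · -- DD: contradiction
      exfalso
      have hac := hp2 a hx2a.1.sy hy2a.1.sy
      have hbc := hp2 b hx2a.2.sy hy2a.2.sy
      refine hE a c z ha hc hz.sq hac.1 (cm_z hz a).sy (cm_z hz c).sy ?_ ?_ hz.ne ?_ ?_ ?_ ?_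
      · intro h; rw [h] at hab; exact nb hz (cm_one b) hab
      · intro h; rw [h] at hcd; exact nb hz (cm_one d) hcd
      · intro h; rw [h] at hab; exact nb hz hbc.1.sy hab
      · intro h; rw [h] at hab; exact nb hz (cm_z hz b) hab
      · intro h; rw [h] at hcd; exact nb hz (cm_z hz d) hcd
      · intro h
        have h5 : Am z (a * c) b := lac hz hab hbc.1.sy
        rw [h] at h5; exact nb hz (cm_z hz b) h5
    · -- DQ
      exact ⟨a, b, a * b * x2, a * b * y2,
        frame_of_DQ hz ha hb hx2 hy2 hab h2 hx2a.1.sy hy2a.1.sy hx2a.2.sy hy2a.2.sy⟩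
  · rcases pair_type hz h2 with ⟨c, d, hc, hd, hcd, hp2⟩ | ⟨hx2, hy2⟩
    · -- QD
      have hx1c := hp2 x1 c1.sy c3.sy
      have hy1c := hp2 y1 c2.sy c4.sy
      exact ⟨c, d, c * d * x1, c * d * y1,
        frame_of_DQ hz hc hd hx1 hy1 hcd h1 hx1c.1.sy hy1c.1.sy hx1c.2.sy hy1c.2.sy⟩
    · -- QQ: contradiction
      exfalso
      have hu2 : (x1 * x2) * (x1 * x2) = 1 := by rw [sqc c1.sy, hx1, hx2, hz.sq]
      have hv2 : (y1 * y2) * (y1 * y2) = 1 := by rw [sqc c4.sy, hy1, hy2, hz.sq]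
      have hub : Am z (x1 * x2) y1 := lac hz h1 c2
      have hud : Am z (x1 * x2) y2 := lca hz c3.sy h2
      have huv : Cm (x1 * x2) (y1 * y2) := raa hz hub hud
      have hva : Am z (y1 * y2) x1 := lac hz (h1.sy hz) c3
      have hua : Cm (x1 * x2) x1 := lcc (cm_self x1) c1
      refine hE (x1 * x2) (y1 * y2) z hu2 hv2 hz.sq huv (cm_z hz _).sy (cm_z hz _).sy
        ?_ ?_ hz.ne ?_ ?_ ?_ ?_
      · intro h; rw [h] at hub; exact nb hz (cm_one y1) hub
      · intro h; rw [h] at hva; exact nb hz (cm_one x1) hva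
      · intro h; rw [← h] at hva; exact nb hz hua hva
      · intro h; rw [h] at hub; exact nb hz (cm_z hz y1) hub
      · intro h; rw [h] at hva; exact nb hz (cm_z hz x1) hva
      · intro h
        have h5 : Am z (x1 * x2 * (y1 * y2)) x1 := lca hz hua hva
        rw [h] at h5; exact nb hz (cm_z hz x1) h5

end Cfsg.Agent.Lib.Helper25.ExS5
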