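import Mathlib
import Cfsg.Agent.Lib.Helper25.ExS5B

namespace Cfsg.Agent.Lib.Helper25.ExS5

variable {P : Type*} [Group P] {z t1 t2 t3 t4 : P}

/-- the five points. -/
def Tf (t1 t2 t3 t4 : P) : Fin 5 → P
  | 0 => t1
  | 1 => t2
  | 2 => t3
  | 3 => t4
  | 4 => t1 * t2 * t3 * t4

theorem T5_sq (hz : ES z) (ht : Fr z t1 t2 t3 t4) :
    (t1 * t2 * t3 * t4) * (t1 * t2 * t3 * t4) = 1 := by
  have h12 : (t1 * t2) * (t1 * t2) = z := by
    rw [sqa hz (show Am z t1 t2 from ht.c12), ht.s1, ht.s2, one_mul, mul_one]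
  have c3 : Cm (t1 * t2) t3 :=
    laa hz (show Am z t1 t3 from ht.c13) (show Am z t2 t3 from ht.c23)
  have h123 : (t1 * t2 * t3) * (t1 * t2 * t3) = z := by
    rw [sqc c3, h12, ht.s3, mul_one]
  have c4 : Cm (t1 * t2) t4 :=
    laa hz (show Am z t1 t4 from ht.c14) (show Am z t2 t4 from ht.c24)
  have a4 : Am z (t1 * t2 * t3) t4 := lca hz c4 (show Am z t3 t4 from ht.c34)
  rw [sqa hz a4, h123, ht.s4, mul_one, hz.sq]

theorem T5_am1 (hz : ES z) (ht : Fr z t1 t2 t3 t4) : Am z (t1 * t2 * t3 * t4) t1 := by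
  have a12 : Am z t1 t2 := ht.c12
  have a13 : Am z t1 t3 := ht.c13
  have a14 : Am z t1 t4 := ht.c14
  have h1 : Am z (t1 * t2) t1 := lca hz (cm_self t1) (a12.sy hz)
  have h2 : Cm (t1 * t2 * t3) t1 := laa hz h1 (a13.sy hz)
  exact lca hz h2 (a14.sy hz)

theorem T5_am2 (hz : ES z) (ht : Fr z t1 t2 t3 t4) : Am z (t1 * t2 * t3 * t4) t2 := by
  have a12 : Am z t1 t2 := ht.c12
  have a23 : Am z t2 t3 := ht.c23
  have a24 : Am z t2 t4 := ht.c24
  have h1 : Am z (t1 * t2) t2 := lac hz a12 (cm_self t2)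
  have h2 : Cm (t1 * t2 * t3) t2 := laa hz h1 (a23.sy hz)
  exact lca hz h2 (a24.sy hz)

theorem T5_am3 (hz : ES z) (ht : Fr z t1 t2 t3 t4) : Am z (t1 * t2 * t3 * t4) t3 := by
  have a13 : Am z t1 t3 := ht.c13
  have a23 : Am z t2 t3 := ht.c23
  have a34 : Am z t3 t4 := ht.c34
  have h1 : Cm (t1 * t2) t3 := laa hz a13 a23
  have h2 : Cm (t1 * t2 * t3) t3 := lcc h1 (cm_self t3)
  exact lca hz h2 (a34.sy hz)

theorem T5_am4 (hz : ES z) (ht : Fr z t1 t2 t3 t4) : Am z (t1 * t2 * t3 * t4) t4 := by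
  have a14 : Am z t1 t4 := ht.c14
  have a24 : Am z t2 t4 := ht.c24
  have a34 : Am z t3 t4 := ht.c34
  have h1 : Cm (t1 * t2) t4 := laa hz a14 a24
  have h2 : Am z (t1 * t2 * t3) t4 := lca hz h1 a34
  exact lac hz h2 (cm_self t4)

theorem T_sq (hz : ES z) (ht : Fr z t1 t2 t3 t4) (i : Fin 5) :
    Tf t1 t2 t3 t4 i * Tf t1 t2 t3 t4 i = 1 := by
  fin_cases i
  · exact ht.s1
  · exact ht.s2
  · exact ht.s3
  · exact ht.s4
  · exact T5_sq hz ht

theorem T_am (hz : ES z) (ht : Fr z t1 t2 t3 t4) {i j : Fin 5} (hij : i ≠ j) :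
    Am z (Tf t1 t2 t3 t4 i) (Tf t1 t2 t3 t4 j) := by
  have a12 : Am z t1 t2 := ht.c12
  have a13 : Am z t1 t3 := ht.c13
  have a14 : Am z t1 t4 := ht.c14
  have a23 : Am z t2 t3 := ht.c23
  have a24 : Am z t2 t4 := ht.c24
  have a34 : Am z t3 t4 := ht.c34
  fin_cases i <;> fin_cases j
  · exact absurd rfl hij
  · exact a12
  · exact a13
  · exact a14
  · exact (T5_am1 hz ht).sy hz
  · exact a12.sy hz
  · exact absurd rfl hij
  · exact a23
  · exact a24
  · exact (T5_am2 hz ht).sy hz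
  · exact a13.sy hz
  · exact a23.sy hz
  · exact absurd rfl hij
  · exact a34
  · exact (T5_am3 hz ht).sy hz
  · exact a14.sy hz
  · exact a24.sy hz
  · exact a34.sy hz
  · exact absurd rfl hij
  · exact (T5_am4 hz ht).sy hz
  · exact T5_am1 hz ht
  · exact T5_am2 hz ht
  · exact T5_am3 hz ht
  · exact T5_am4 hz ht
  · exact absurd rfl hij

theorem exists_ne_fin5 (i : Fin 5) : ∃ j : Fin 5, i ≠ j := by
  by_cases h : i = 0
  · exact ⟨1, by rw [h]; decide⟩
  · exact ⟨0, h⟩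

theorem T_noncentral (hz : ES z) (ht : Fr z t1 t2 t3 t4) (i : Fin 5) :
    Tf t1 t2 t3 t4 i ≠ 1 ∧ Tf t1 t2 t3 t4 i ≠ z := by
  obtain ⟨j, hj⟩ := exists_ne_fin5 i
  have h := T_am hz ht hj
  constructor
  · intro h1; rw [h1] at h; exact nb hz (cm_one _) h
  · intro h1; rw [h1] at h; exact nb hz (cm_z hz _) h

theorem wt_cases {e a1 a2 a3 a4 : ℕ} (h1 : a1 < 2) (h2 : a2 < 2) (h3 : a3 < 2) (h4 : a4 < 2)
    (h : (e + e + (a2 + a3 + a4) * a1 + (a3 + a4) * a2 + a4 * a3) % 2 = 0) :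
    (a1 = 0 ∧ a2 = 0 ∧ a3 = 0 ∧ a4 = 0) ∨ (a1 = 1 ∧ a2 = 0 ∧ a3 = 0 ∧ a4 = 0) ∨
    (a1 = 0 ∧ a2 = 1 ∧ a3 = 0 ∧ a4 = 0) ∨ (a1 = 0 ∧ a2 = 0 ∧ a3 = 1 ∧ a4 = 0) ∨
    (a1 = 0 ∧ a2 = 0 ∧ a3 = 0 ∧ a4 = 1) ∨ (a1 = 1 ∧ a2 = 1 ∧ a3 = 1 ∧ a4 = 1) := by
  interval_cases a1 <;> interval_cases a2 <;> interval_cases a3 <;> interval_cases a4 <;>
    simp only [Nat.mul_zero, Nat.mul_one, Nat.add_zero, Nat.zero_add] at h <;> omega

theorem invol_class [Finite P] (hz : ES z) (ht : Fr z t1 t2 t3 t4) (hcard : Nat.card P = 32)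
    {g : P} (hg : g * g = 1) :
    g = 1 ∨ g = z ∨ ∃ i : Fin 5, g = Tf t1 t2 t3 t4 i ∨ g = z * Tf t1 t2 t3 t4 i := by
  obtain ⟨e, a1, a2, a3, a4, he, h1, h2, h3, h4, rfl⟩ := nf_surj hz ht hcard g
  rw [nf_mul hz ht] at hg
  have h0 : (1 : P) = nf z t1 t2 t3 t4 0 0 0 0 0 := by simp [nf]
  rw [h0] at hg
  obtain ⟨k0, -, -, -, -⟩ := nf_inj hz ht hg
  have hw := wt_cases h1 h2 h3 h4 k0
  have hze : z ^ e = 1 ∨ z ^ e = z := by
    rcases Nat.lt_succ_iff.mp he with he'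
    rcases Nat.eq_zero_or_pos e with h | h
    · left; rw [h, pow_zero]
    · right
      have : e = 1 := by omega
      rw [this, pow_one]
  rcases hw with ⟨rfl, rfl, rfl, rfl⟩ | ⟨rfl, rfl, rfl, rfl⟩ | ⟨rfl, rfl, rfl, rfl⟩ |
    ⟨rfl, rfl, rfl, rfl⟩ | ⟨rfl, rfl, rfl, rfl⟩ | ⟨rfl, rfl, rfl, rfl⟩
  · have e0 : nf z t1 t2 t3 t4 e 0 0 0 0 = z ^ e := by simp [nf]
    rw [e0]
    rcases hze with h | h
    · left; exact h
    · right; left; exact h
  · have e0 : nf z t1 t2 t3 t4 e 1 0 0 0 = z ^ e * t1 := by simp [nf]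
    right; right; refine ⟨0, ?_⟩
    rw [e0]
    rcases hze with h | h
    · left; rw [h, one_mul]; rfl
    · right; rw [h]; rfl
  · have e0 : nf z t1 t2 t3 t4 e 0 1 0 0 = z ^ e * t2 := by simp [nf]
    right; right; refine ⟨1, ?_⟩
    rw [e0]
    rcases hze with h | h
    · left; rw [h, one_mul]; rfl
    · right; rw [h]; rfl
  · have e0 : nf z t1 t2 t3 t4 e 0 0 1 0 = z ^ e * t3 := by simp [nf]
    right; right; refine ⟨2, ?_⟩
    rw [e0]
    rcases hze with h | h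
    · left; rw [h, one_mul]; rfl
    · right; rw [h]; rfl
  · have e0 : nf z t1 t2 t3 t4 e 0 0 0 1 = z ^ e * t4 := by simp [nf]
    right; right; refine ⟨3, ?_⟩
    rw [e0]
    rcases hze with h | h
    · left; rw [h, one_mul]; rfl
    · right; rw [h]; rfl
  · have e0 : nf z t1 t2 t3 t4 e 1 1 1 1 = z ^ e * (t1 * t2 * t3 * t4) := by
      simp [nf, mul_assoc]
    right; right; refine ⟨4, ?_⟩
    rw [e0]
    rcases hze with h | h
    · left; rw [h, one_mul]; rfl
    · right; rw [h]; rfl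

/-- `g` lies over the point `i`. -/
def Rel (z : P) (T : Fin 5 → P) (g : P) (i : Fin 5) : Prop := g = T i ∨ g = z * T i

theorem rel_unique (hz : ES z) (ht : Fr z t1 t2 t3 t4) {g : P} {i j : Fin 5}
    (hi : Rel z (Tf t1 t2 t3 t4) g i) (hj : Rel z (Tf t1 t2 t3 t4) g j) : i = j := by
  by_contra hij
  have ha : Am z (Tf t1 t2 t3 t4 j) (Tf t1 t2 t3 t4 i) := T_am hz ht (Ne.symm hij)
  have h1 : Cm g (Tf t1 t2 t3 t4 i) := by
    rcases hi with h | h
    · rw [h]; exact cm_self _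
    · rw [h]; exact lcc (cm_z hz _) (cm_self _)
  have h2 : Am z g (Tf t1 t2 t3 t4 i) := by
    rcases hj with h | h
    · rw [h]; exact ha
    · rw [h]; exact lca hz (cm_z hz _) ha
  exact nb hz h1 h2

theorem rel_zmul (hz : ES z) {T : Fin 5 → P} {g : P} {i : Fin 5} (h : Rel z T g i) :
    Rel z T (z * g) i := by
  rcases h with h | h
  · right; rw [h]
  · left; rw [h, ← mul_assoc, hz.sq, one_mul]

theorem aut_z (hz : ES z) (α : P ≃* P) : α z = z := by
  have hc : ∀ g : P, α z * g = g * α z := by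
    intro g
    have := congrArg α (hz.cen (α.symm g))
    rwa [map_mul, map_mul, MulEquiv.apply_symm_apply] at this
  rcases hz.ctr (α z) hc with h | h
  · exfalso; apply hz.ne
    have : α z = α 1 := by rw [h, map_one]
    exact α.injective this
  · exact h

theorem aut_rel [Finite P] (hz : ES z) (ht : Fr z t1 t2 t3 t4) (hcard : Nat.card P = 32)
    (α : P ≃* P) (i : Fin 5) :
    ∃ j, Rel z (Tf t1 t2 t3 t4) (α (Tf t1 t2 t3 t4 i)) j := by
  have hsq : α (Tf t1 t2 t3 t4 i) * α (Tf t1 t2 t3 t4 i) = 1 := by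
    rw [← map_mul, T_sq hz ht, map_one]
  obtain ⟨hn1, hnz⟩ := T_noncentral hz ht i
  rcases invol_class hz ht hcard hsq with h | h | ⟨j, hj⟩
  · exfalso; apply hn1
    apply α.injective; rw [h, map_one]
  · exfalso; apply hnz
    apply α.injective; rw [h, aut_z hz]
  · exact ⟨j, hj⟩

theorem exists_perm [Finite P] (hz : ES z) (ht : Fr z t1 t2 t3 t4) (hcard : Nat.card P = 32)
    (α : P ≃* P) :
    ∃ σ : Equiv.Perm (Fin 5), ∀ i, Rel z (Tf t1 t2 t3 t4) (α (Tf t1 t2 t3 t4 i)) (σ i) := by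
  choose f hf using aut_rel hz ht hcard α
  have hinj : Function.Injective f := by
    intro i j hij
    have hi := hf i
    have hj := hf j
    rw [hij] at hi
    have key : Rel z (Tf t1 t2 t3 t4) (Tf t1 t2 t3 t4 i) j := by
      rcases hi with h1 | h1 <;> rcases hj with h2 | h2
      · left; apply α.injective; rw [h1, h2]
      · right; apply α.injective
        rw [map_mul, aut_z hz, h1, h2, ← mul_assoc, hz.sq, one_mul]
      · right; apply α.injective; rw [map_mul, aut_z hz, h1, h2]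
      · left; apply α.injective; rw [h1, h2]
    exact rel_unique hz ht (Or.inl rfl) key
  exact ⟨Equiv.ofBijective f (Finite.injective_iff_bijective.mp hinj), hf⟩

theorem rel_map (hz : ES z) {T : Fin 5 → P} (α : P ≃* P) {σ : Fin 5 → Fin 5}
    (hσ : ∀ i, Rel z T (α (T i)) (σ i)) {g : P} {i : Fin 5} (h : Rel z T g i) :
    Rel z T (α g) (σ i) := by
  rcases h with h | h
  · rw [h]; exact hσ i
  · rw [h, map_mul, aut_z hz]; exact rel_zmul hz (hσ i)

theorem exists_hom [Finite P] (hz : ES z) (ht : Fr z t1 t2 t3 t4) (hcard : Nat.card P = 32) :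
    ∃ φ : MulAut P →* Equiv.Perm (Fin 5),
      ∀ (α : MulAut P) (i : Fin 5),
        Rel z (Tf t1 t2 t3 t4) (α (Tf t1 t2 t3 t4 i)) (φ α i) := by
  choose σ hσ using fun α : MulAut P => exists_perm hz ht hcard α
  refine ⟨MonoidHom.mk' σ ?_, hσ⟩
  intro α β
  refine Equiv.ext (fun i => ?_)
  have h1 : Rel z (Tf t1 t2 t3 t4) (α (β (Tf t1 t2 t3 t4 i))) (σ (α * β) i) := hσ (α * β) i
  have h2 : Rel z (Tf t1 t2 t3 t4) (α (β (Tf t1 t2 t3 t4 i))) (σ α (σ β i)) :=
    rel_map hz α (hσ α) (hσ β i)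
  exact rel_unique hz ht h1 h2

theorem perm_eq_of_four (σ ρ : Equiv.Perm (Fin 5)) (h0 : σ 0 = ρ 0) (h1 : σ 1 = ρ 1)
    (h2 : σ 2 = ρ 2) (h3 : σ 3 = ρ 3) : σ = ρ := by
  have key : ∀ x : Fin 5, x ≠ 0 → x ≠ 1 → x ≠ 2 → x ≠ 3 → x = 4 := by decide
  have h4 : ρ.symm (σ 4) = 4 := by
    apply key
    · intro h
      have : σ 4 = σ 0 := by rw [h0, ← h, Equiv.apply_symm_apply]
      exact absurd (σ.injective this) (by decide)
    · intro h
      have : σ 4 = σ 1 := by rw [h1, ← h, Equiv.apply_symm_apply]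
      exact absurd (σ.injective this) (by decide)
    · intro h
      have : σ 4 = σ 2 := by rw [h2, ← h, Equiv.apply_symm_apply]
      exact absurd (σ.injective this) (by decide)
    · intro h
      have : σ 4 = σ 3 := by rw [h3, ← h, Equiv.apply_symm_apply]
      exact absurd (σ.injective this) (by decide)
  have h4' : σ 4 = ρ 4 := by
    have := congrArg ρ h4
    rw [Equiv.apply_symm_apply] at this
    exact this
  refine Equiv.ext (fun i => ?_)
  fin_cases i
  · exact h0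
  · exact h1
  · exact h2
  · exact h3
  · exact h4'

theorem hom_surj [Finite P] (hz : ES z) (ht : Fr z t1 t2 t3 t4) (hcard : Nat.card P = 32)
    (φ : MulAut P →* Equiv.Perm (Fin 5))
    (hφ : ∀ (α : MulAut P) (i : Fin 5),
      Rel z (Tf t1 t2 t3 t4) (α (Tf t1 t2 t3 t4 i)) (φ α i)) :
    Function.Surjective φ := by
  intro ρ
  have hne : ∀ {i j : Fin 5}, i ≠ j → ρ i ≠ ρ j := fun h h' => h (ρ.injective h')
  have hs : Fr z (Tf t1 t2 t3 t4 (ρ 0)) (Tf t1 t2 t3 t4 (ρ 1)) (Tf t1 t2 t3 t4 (ρ 2))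
      (Tf t1 t2 t3 t4 (ρ 3)) :=
    ⟨T_sq hz ht _, T_sq hz ht _, T_sq hz ht _, T_sq hz ht _,
     T_am hz ht (hne (by decide)), T_am hz ht (hne (by decide)), T_am hz ht (hne (by decide)),
     T_am hz ht (hne (by decide)), T_am hz ht (hne (by decide)), T_am hz ht (hne (by decide))⟩
  obtain ⟨α, hα⟩ := exists_aut hz hcard ht hs
  refine ⟨α, ?_⟩
  apply perm_eq_of_four
  · have h := hα 0 1 0 0 0
    simp only [nf, pow_zero, pow_one, one_mul, mul_one] at h
    exact rel_unique hz ht (hφ α 0) (Or.inl h)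
  · have h := hα 0 0 1 0 0
    simp only [nf, pow_zero, pow_one, one_mul, mul_one] at h
    exact rel_unique hz ht (hφ α 1) (Or.inl h)
  · have h := hα 0 0 0 1 0
    simp only [nf, pow_zero, pow_one, one_mul, mul_one] at h
    exact rel_unique hz ht (hφ α 2) (Or.inl h)
  · have h := hα 0 0 0 0 1
    simp only [nf, pow_zero, pow_one, one_mul, mul_one] at h
    exact rel_unique hz ht (hφ α 3) (Or.inl h)

theorem conj_mem_ker (hz : ES z) (ht : Fr z t1 t2 t3 t4)
    (φ : MulAut P →* Equiv.Perm (Fin 5))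
    (hφ : ∀ (α : MulAut P) (i : Fin 5),
      Rel z (Tf t1 t2 t3 t4) (α (Tf t1 t2 t3 t4 i)) (φ α i))
    (g : P) : φ (MulAut.conj g) = 1 := by
  refine Equiv.ext (fun i => ?_)
  have h1 := hφ (MulAut.conj g) i
  have h2 : Rel z (Tf t1 t2 t3 t4) (MulAut.conj g (Tf t1 t2 t3 t4 i)) i := by
    rw [MulAut.conj_apply]
    rcases hz.com g (Tf t1 t2 t3 t4 i) with h | h
    · left; rw [h, mul_assoc, mul_inv_cancel, mul_one]
    · right; rw [h, mul_assoc, mul_assoc, mul_inv_cancel, mul_one]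
  exact rel_unique hz ht h1 h2

theorem ker_agree [Finite P] (hz : ES z) (ht : Fr z t1 t2 t3 t4) (hcard : Nat.card P = 32)
    {α β : P ≃* P} (h1 : α t1 = β t1) (h2 : α t2 = β t2) (h3 : α t3 = β t3)
    (h4 : α t4 = β t4) : α = β := by
  refine MulEquiv.ext (fun g => ?_)
  obtain ⟨e, a1, a2, a3, a4, -, -, -, -, -, rfl⟩ := nf_surj hz ht hcard g
  unfold nf
  simp only [map_mul, map_pow, aut_z hz, h1, h2, h3, h4]

omit [Group P] in
theorem val_eq {a b x y : P} (ha : a = x ∨ a = y) (hb : b = x ∨ b = y)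
    (h : a = x ↔ b = x) : a = b := by
  by_cases hax : a = x
  · rw [hax, h.mp hax]
  · have hbx : b ≠ x := fun hb' => hax (h.mpr hb')
    rw [ha.resolve_left hax, hb.resolve_left hbx]

theorem ker_card_le [Finite P] (hz : ES z) (ht : Fr z t1 t2 t3 t4) (hcard : Nat.card P = 32)
    (φ : MulAut P →* Equiv.Perm (Fin 5))
    (hφ : ∀ (α : MulAut P) (i : Fin 5),
      Rel z (Tf t1 t2 t3 t4) (α (Tf t1 t2 t3 t4 i)) (φ α i)) :
    Nat.card φ.ker ≤ 16 := by
  classical
  let F : φ.ker → Bool × Bool × Bool × Bool := fun α =>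
    (decide ((α : MulAut P) t1 = t1), decide ((α : MulAut P) t2 = t2),
      decide ((α : MulAut P) t3 = t3), decide ((α : MulAut P) t4 = t4))
  have hrel : ∀ (α : φ.ker) (i : Fin 5),
      Rel z (Tf t1 t2 t3 t4) ((α : MulAut P) (Tf t1 t2 t3 t4 i)) i := by
    intro α i
    have h := hφ (α : MulAut P) i
    have h1 : φ (α : MulAut P) = 1 := α.2
    rw [h1] at h
    exact h
  have hinj : Function.Injective F := by
    intro α β h
    simp only [F, Prod.mk.injEq] at h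
    obtain ⟨h1, h2, h3, h4⟩ := h
    apply Subtype.ext
    exact ker_agree hz ht hcard
      (val_eq (hrel α 0) (hrel β 0) (decide_eq_decide.mp h1))
      (val_eq (hrel α 1) (hrel β 1) (decide_eq_decide.mp h2))
      (val_eq (hrel α 2) (hrel β 2) (decide_eq_decide.mp h3))
      (val_eq (hrel α 3) (hrel β 3) (decide_eq_decide.mp h4))
  have h5 := Nat.card_le_card_of_injective F hinj
  have h16 : Nat.card (Bool × Bool × Bool × Bool) = 16 := by
    simp [Nat.card_eq_fintype_card]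
  omega

theorem conj_ker_card [Finite P] (hz : ES z) :
    Nat.card (MulAut.conj : P →* MulAut P).ker = 2 := by
  have hset : ((MulAut.conj : P →* MulAut P).ker : Set P) = {1, z} := by
    ext g
    simp only [SetLike.mem_coe, MonoidHom.mem_ker, Set.mem_insert_iff, Set.mem_singleton_iff]
    constructor
    · intro hg
      apply hz.ctr
      intro h
      have h1 : MulAut.conj g h = h := by rw [hg]; rfl
      rw [MulAut.conj_apply] at h1
      calc g * h = g * h * g⁻¹ * g := by group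
        _ = h * g := by rw [h1]
    · rintro (rfl | rfl)
      · exact map_one _
      · refine MulEquiv.ext (fun h => ?_)
        rw [MulAut.conj_apply, hz.cen h, mul_assoc, mul_inv_cancel, mul_one]
        rfl
  have h2 : Nat.card (MulAut.conj : P →* MulAut P).ker
      = ((MulAut.conj : P →* MulAut P).ker : Set P).ncard := Nat.card_coe_set_eq _
  rw [h2, hset, Set.ncard_pair hz.ne.symm]

theorem inn_card [Finite P] (hz : ES z) (hcard : Nat.card P = 32) :
    Nat.card (MulAut.conj : P →* MulAut P).range = 16 := by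
  have h1 := Subgroup.index_ker (MulAut.conj : P →* MulAut P)
  have h2 := Subgroup.index_mul_card (MulAut.conj : P →* MulAut P).ker
  rw [conj_ker_card hz, hcard, h1] at h2
  omega

/-- main theorem: `Out(P) ≅ S₅` in homomorphism form. -/
theorem main_hom [Finite P] (hz : ES z) (hcard : Nat.card P = 32) (hE : NoE8 P) :
    ∃ φ : MulAut P →* Equiv.Perm (Fin 5), Function.Surjective φ ∧
      φ.ker = (MulAut.conj : P →* MulAut P).range ∧
      Nat.card (MulAut.conj : P →* MulAut P).range = 16 := by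
  obtain ⟨t1, t2, t3, t4, ht⟩ := exists_frame hz hcard hE
  obtain ⟨φ, hφ⟩ := exists_hom hz ht hcard
  haveI : Finite (MulAut P) :=
    Finite.of_injective (fun α : MulAut P => (α : P → P)) DFunLike.coe_injective
  refine ⟨φ, hom_surj hz ht hcard φ hφ, ?_, inn_card hz hcard⟩
  symm
  apply Subgroup.eq_of_le_of_card_ge
  · rintro _ ⟨g, rfl⟩
    exact conj_mem_ker hz ht φ hφ g
  · rw [inn_card hz hcard]; exact ker_card_le hz ht hcard φ hφ

end Cfsg.Agent.Lib.Helper25.ExS5
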