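import Mathlib
import Cfsg.Agent.S0899
import Cfsg.Agent.Lib.Helper12.PSolvable
import Cfsg.Agent.Lib.Helper4.PSolv
import Cfsg.Agent.Lib.Helper1.CharFrobThm
import Cfsg.Agent.Lib.Helper1.CharPRes

/-!
Minimal non-`p`-closed groups with abelian `p`-subgroups (as they arise from a faithful
character of degree `< p`), and Ito's theorem for `p`-solvable groups.
-/

set_option autoImplicit false
set_option linter.unusedSectionVars false

namespace Cfsg.Agent.Lib.Helper25.MinPC

open Cfsg Cfsg.Agent.Lib.Helper1 Cfsg.Agent.S0899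

universe u

section basics

variable {G : Type u} [Group G] (p : ℕ)

theorem PC_of_top (L : Subgroup G) (h : PC p (⊤ : Subgroup L)) : PC p L := by
  intro x hx y hy hpx hpy
  have h1 := h ⟨x, hx⟩ (Subgroup.mem_top _) ⟨y, hy⟩ (Subgroup.mem_top _)
    ((PE_coe p L ⟨x, hx⟩).mp hpx) ((PE_coe p L ⟨y, hy⟩).mp hpy)
  exact (PE_coe p L (⟨x, hx⟩ * ⟨y, hy⟩)).mpr h1

theorem PC_top_of (L : Subgroup G) (h : PC p L) : PC p (⊤ : Subgroup L) := by
  intro x _ y _ hpx hpy
  rw [← PE_coe]
  exact h x x.2 y y.2 ((PE_coe p L x).mpr hpx) ((PE_coe p L y).mpr hpy)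

theorem PE_map {H : Type*} [Group H] (f : G →* H) {x : G} (hx : PE p x) :
    ∃ k : ℕ, (f x) ^ (p ^ k) = 1 := by
  obtain ⟨k, hk⟩ := hx
  exact ⟨k, by rw [← map_pow, hk, map_one]⟩

end basics

section minimal

variable {G : Type u} [Group G] [Finite G] (p : ℕ) [hp : Fact p.Prime]

/-- In a group all of whose proper subgroups are `p`-closed, a proper subgroup containing a
Sylow `p`-subgroup `Q` has all its `p`-elements in `Q`. -/
theorem sylow_contains (hsub : ∀ L : Subgroup G, L ≠ ⊤ → PC p L) (Q : Sylow p G)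
    (L : Subgroup G) (hL : L ≠ ⊤) (hQL : (Q : Subgroup G) ≤ L) :
    ∀ z ∈ L, PE p z → z ∈ (Q : Subgroup G) := by
  intro z hz hpz
  have hT := pSub_isPGroup p L (hsub L hL)
  have hle : (Q : Subgroup G) ≤ pSub p L (hsub L hL) :=
    fun x hx => ⟨hQL hx, PE_of_isPGroup p (Q : Subgroup G) Q.2 hx⟩
  have heq := Q.is_maximal' hT hle
  rw [← heq]
  exact ⟨hz, hpz⟩

theorem normal_eq_top (hsub : ∀ L : Subgroup G, L ≠ ⊤ → PC p L)
    (hnot : ¬ PC p (⊤ : Subgroup G)) (Q : Sylow p G) (M : Subgroup G) (hM : M.Normal)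
    (hQM : (Q : Subgroup G) ≤ M) : M = ⊤ := by
  by_contra hne
  apply hnot
  apply PC_of_normal p Q
  constructor
  intro x hx g
  exact sylow_contains p hsub Q M hne hQM _ (hM.conj_mem x (hQM hx) g)
    (PE_conj p (PE_of_isPGroup p (Q : Subgroup G) Q.2 hx) g)

set_option maxHeartbeats 1000000 in
/-- the structure of a minimal non-`p`-closed group with abelian `p`-subgroups which is not
perfect: `G' ` is a `p'`-group and `G = G'⟨y⟩`, `y ^ p` central, for every non-central
`p`-element `y` -/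
theorem struct (hA : ∀ Q : Subgroup G, IsPGroup p Q → ∀ a ∈ Q, ∀ b ∈ Q, a * b = b * a)
    (hsub : ∀ L : Subgroup G, L ≠ ⊤ → PC p L) (hnot : ¬ PC p (⊤ : Subgroup G))
    (hperf : commutator G ≠ ⊤) :
    (∀ k ∈ commutator G, PE p k → k = 1) ∧ (∃ x : G, PE p x ∧ x ∉ Subgroup.center G) ∧
    ∀ y : G, PE p y → y ∉ Subgroup.center G →
      (commutator G ⊔ Subgroup.zpowers y = ⊤ ∧ y ^ p ∈ Subgroup.center G) := by
  classical
  have hN : ∀ Q : Sylow p G, ¬ (Q : Subgroup G).Normal :=
    fun Q hQ => hnot (PC_of_normal p Q hQ)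
  have hF4 := normal_eq_top p hsub hnot
  have hF5 : ∀ Q : Sylow p G, ∀ z ∈ (Q : Subgroup G), z ∈ Subgroup.center G →
      z ∈ commutator G → z = 1 :=
    fun Q z hz hzc hzk => transfer_triv p Q (hA (Q : Subgroup G) Q.2) z hz hzc hzk
  obtain ⟨K, hKdef⟩ : ∃ K : Subgroup G, K = commutator G := ⟨_, rfl⟩
  rw [← hKdef]
  have hKtop : K ≠ ⊤ := by
    rw [hKdef]
    exact hperf
  have hKn : K.Normal := by
    rw [hKdef]
    infer_instance
  have hcommK : ∀ a b : G, a * b * a⁻¹ * b⁻¹ ∈ K := by
    intro a b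
    rw [hKdef, commutator_def]
    have h1 := Subgroup.commutator_mem_commutator (Subgroup.mem_top a) (Subgroup.mem_top b)
      (H₁ := ⊤) (H₂ := ⊤)
    rwa [commutatorElement_def] at h1
  have hKp : ∀ k ∈ K, PE p k → k = 1 := by
    intro k hk hpk
    obtain ⟨T, hT⟩ : ∃ T : Subgroup G, T = pSub p K (hsub K hKtop) := ⟨_, rfl⟩
    have hTp : IsPGroup p T := by
      rw [hT]
      exact pSub_isPGroup p K _
    obtain ⟨Q, hQ⟩ := hTp.exists_le_sylow
    have hTn : T.Normal := by
      constructor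
      intro t ht g'
      rw [hT] at ht ⊢
      exact ⟨hKn.conj_mem t ht.1 g', PE_conj p ht.2 g'⟩
    have hcent : Subgroup.centralizer (T : Set G) = ⊤ := by
      apply hF4 Q _ inferInstance
      intro q hq
      rw [Subgroup.mem_centralizer_iff]
      intro t ht
      exact hA (Q : Subgroup G) Q.2 t (hQ ht) q hq
    have hkT : k ∈ T := by
      rw [hT]
      exact ⟨hk, hpk⟩
    apply hF5 Q k (hQ hkT)
    · rw [Subgroup.centralizer_eq_top_iff_subset] at hcent
      exact hcent hkT
    · rw [← hKdef]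
      exact hk
  have hstar : ∀ y : G, PE p y → y ∉ Subgroup.center G → K ⊔ Subgroup.zpowers y = ⊤ := by
    intro y hpy hyc
    by_contra hL
    have hLn : ∀ l ∈ K ⊔ Subgroup.zpowers y, ∀ g' : G,
        g' * l * g'⁻¹ ∈ K ⊔ Subgroup.zpowers y := by
      intro l hl g'
      have h1 : g' * l * g'⁻¹ = (g' * l * g'⁻¹ * l⁻¹) * l := by group
      rw [h1]
      exact Subgroup.mul_mem _ (Subgroup.mem_sup_left (hcommK g' l)) hl
    have hyg : ∃ g' : G, g' * y ≠ y * g' := by
      by_contra hcon
      push Not at hcon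
      exact hyc (Subgroup.mem_center_iff.mpr hcon)
    obtain ⟨g', hg'⟩ := hyg
    have hyL : y ∈ K ⊔ Subgroup.zpowers y := Subgroup.mem_sup_right (Subgroup.mem_zpowers y)
    have h2 : PE p (y * (g' * y⁻¹ * g'⁻¹)) :=
      hsub _ hL y hyL _ (hLn _ (Subgroup.inv_mem _ hyL) g') hpy (PE_conj p (PE_inv p hpy) g')
    have h3 : y * (g' * y⁻¹ * g'⁻¹) = 1 := by
      apply hKp _ _ h2
      have h5 := hcommK y g'
      have h4 : y * g' * y⁻¹ * g'⁻¹ = y * (g' * y⁻¹ * g'⁻¹) := by group
      rwa [h4] at h5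
    apply hg'
    calc g' * y = (y * (g' * y⁻¹ * g'⁻¹))⁻¹ * (y * g') := by group
      _ = y * g' := by rw [h3, inv_one, one_mul]
  refine ⟨hKp, ?_, ?_⟩
  · obtain ⟨P⟩ : Nonempty (Sylow p G) := inferInstance
    have hPc : ¬ (P : Subgroup G) ≤ Subgroup.center G := by
      intro hle
      apply hN P
      constructor
      intro x hx g
      have h1 := Subgroup.mem_center_iff.mp (hle hx) g
      rw [h1, mul_inv_cancel_right]
      exact hx
    obtain ⟨x, hxP, hxc⟩ := SetLike.not_le_iff_exists.mp hPc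
    exact ⟨x, PE_of_isPGroup p (P : Subgroup G) P.2 hxP, hxc⟩
  · intro x hpx hxc
    refine ⟨hstar x hpx hxc, ?_⟩
    by_contra hnc
    have h1 := hstar (x ^ p) (PE_pow p hpx p) hnc
    have hx1 : x ∈ K ⊔ Subgroup.zpowers (x ^ p) := by
      rw [h1]
      exact Subgroup.mem_top x
    have h2 : x ∈ ((K ⊔ Subgroup.zpowers (x ^ p) : Subgroup G) : Set G) := hx1
    rw [Subgroup.normal_mul] at h2
    obtain ⟨k, hk, z, hz, hkz⟩ := Set.mem_mul.mp h2
    obtain ⟨i, hi⟩ := Subgroup.mem_zpowers_iff.mp hz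
    have hk' : k = x ^ (1 - (p : ℤ) * i) := by
      have h3 : k = x * z⁻¹ := by
        rw [← hkz]
        group
      rw [h3, ← hi, ← zpow_natCast x p, ← zpow_mul, zpow_sub, zpow_one]
    have hk1 : k = 1 := hKp k hk (by rw [hk']; exact PE_zpow p hpx _)
    rw [hk1] at hk'
    have h3 : (orderOf x : ℤ) ∣ 1 - (p : ℤ) * i := orderOf_dvd_iff_zpow_eq_one.mpr hk'.symm
    have hx1' : x ≠ 1 := by
      rintro rfl
      exact hxc (Subgroup.one_mem _)
    obtain ⟨j, hj⟩ := hpx
    obtain ⟨a, -, ha⟩ := (Nat.dvd_prime_pow hp.out).mp (orderOf_dvd_of_pow_eq_one hj)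
    have ha0 : a ≠ 0 := by
      rintro rfl
      rw [pow_zero, orderOf_eq_one_iff] at ha
      exact hx1' ha
    have h4 : (p : ℤ) ∣ (orderOf x : ℤ) := by
      rw [ha]
      push_cast
      exact dvd_pow_self _ ha0
    have h5 : (p : ℤ) ∣ 1 - (p : ℤ) * i := dvd_trans h4 h3
    have h6 : (p : ℤ) ∣ 1 := by
      have h7 : (p : ℤ) ∣ (1 - (p : ℤ) * i) + (p : ℤ) * i := dvd_add h5 (dvd_mul_right _ _)
      simpa using h7
    have h8 : p ∣ 1 := by exact_mod_cast h6
    have h9 := Nat.le_of_dvd (by norm_num) h8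
    have h10 := hp.out.two_le
    omega

/-- a `p`-solvable minimal non-`p`-closed group is not perfect -/
theorem not_perfect (hsub : ∀ L : Subgroup G, L ≠ ⊤ → PC p L)
    (hnot : ¬ PC p (⊤ : Subgroup G)) (hsolv : IsPSolvable p G) : commutator G ≠ ⊤ := by
  obtain ⟨n, H, h0, hlast, hmono, hnorm, hfac⟩ := hsolv
  have key : ∀ j : ℕ, ∀ hj : j < n + 1, H ⟨j, hj⟩ = ⊤ → commutator G ≠ ⊤ := by
    intro j
    induction j with
    | zero =>
      intro hj htop
      exfalso
      apply hnot
      have e : H ⟨0, hj⟩ = ⊥ := h0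
      rw [e] at htop
      intro x _ y _ _ _
      have hx : x * y ∈ (⊥ : Subgroup G) := by
        rw [htop]
        exact Subgroup.mem_top _
      rw [Subgroup.mem_bot] at hx
      rw [hx]
      exact PE_one p
    | succ j ih =>
      intro hj htop
      by_cases hb : H ⟨j, by omega⟩ = ⊤
      · exact ih _ hb
      · obtain ⟨N, hNdef⟩ : ∃ N : Subgroup G, N = H ⟨j, by omega⟩ := ⟨_, rfl⟩
        have hNn : N.Normal := by
          rw [hNdef]
          exact hnorm _
        have hNtop : N ≠ ⊤ := by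
          rw [hNdef]
          exact hb
        have hf := hfac ⟨j, by omega⟩
        have e1 : H (Fin.castSucc ⟨j, by omega⟩) = N := by
          rw [hNdef]
          rfl
        have e2 : H (Fin.succ ⟨j, by omega⟩) = ⊤ := by
          rw [← htop]
          rfl
        rw [e1, e2, Subgroup.relIndex_top_right] at hf
        rcases hf with ⟨m, hm⟩ | hc
        · -- `G ⧸ N` is a nontrivial `p`-group
          have hQp : IsPGroup p (G ⧸ N) := by
            apply IsPGroup.of_card (n := m)
            rw [← Subgroup.index_eq_card, hm]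
          have hnil : Group.IsNilpotent (G ⧸ N) := hQp.isNilpotent
          have hnt : Nontrivial (G ⧸ N) := by
            obtain ⟨g, -, hg⟩ := SetLike.exists_of_lt (lt_top_iff_ne_top.mpr hNtop)
            refine ⟨⟨(g : G ⧸ N), 1, ?_⟩⟩
            intro h
            exact hg ((QuotientGroup.eq_one_iff g).mp h)
          have hlt := Group.IsSolvable.commutator_lt_top_of_nontrivial (G ⧸ N)
          intro hcon
          apply ne_of_lt hlt
          have h1 : Subgroup.map (QuotientGroup.mk' N) (commutator G) = commutator (G ⧸ N) := by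
            rw [commutator_def, commutator_def, Subgroup.map_commutator,
              Subgroup.map_top_of_surjective _ (QuotientGroup.mk'_surjective N)]
          rw [← h1, hcon, Subgroup.map_top_of_surjective _ (QuotientGroup.mk'_surjective N)]
        · -- a Sylow subgroup lies in `N`
          exfalso
          obtain ⟨P⟩ : Nonempty (Sylow p G) := inferInstance
          apply hNtop
          apply normal_eq_top p hsub hnot P N hNn
          intro g hg
          obtain ⟨k, hk⟩ := PE_of_isPGroup p (P : Subgroup G) P.2 hg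
          have h1 : orderOf (g : G ⧸ N) ∣ p ^ k := by
            apply orderOf_dvd_of_pow_eq_one
            rw [← QuotientGroup.mk_pow, hk]
            rfl
          have h2 : orderOf (g : G ⧸ N) ∣ N.index := by
            rw [Subgroup.index_eq_card]
            exact orderOf_dvd_natCard _
          have h3 : orderOf (g : G ⧸ N) = 1 :=
            Nat.Coprime.eq_one_of_dvd (Nat.Coprime.coprime_dvd_left h2 (Nat.Coprime.pow_right k hc)) h1
          exact (QuotientGroup.eq_one_iff g).mp (orderOf_eq_one_iff.mp h3)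
  exact key n (by omega) hlast

end minimal

section closed

/-- **Ito's theorem, first half**: a `p`-solvable group with a faithful character of degree
`n` with `n + 1 < p` is `p`-closed. -/
theorem psolv_closed (p : ℕ) [hp : Fact p.Prime] (n : ℕ) (hn : n + 1 < p) (N : ℕ) :
    ∀ (G : Type u) [Group G] [Finite G], Nat.card G ≤ N → IsPSolvable p G →
      ∀ ψ : G → ℂ, IsCharacter G ψ → ψ 1 = n → (∀ g, ψ g = ψ 1 → g = 1) →
      PC p (⊤ : Subgroup G) := by
  induction N with
  | zero =>
    intro G _ _ hcard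
    have := Nat.card_pos (α := G)
    omega
  | succ N ih =>
    intro G _ _ hcard hsolv ψ hψ hψ1 hfaith
    by_contra hnot
    have hsub : ∀ L : Subgroup G, L ≠ ⊤ → PC p L := by
      intro L hL
      have hlt : Nat.card L ≤ N := by
        by_contra hcon
        apply hL
        apply Subgroup.eq_top_of_le_card
        omega
      have hres1 : (fun l : L => ψ l) 1 = n := by
        show ψ ((1 : L) : G) = n
        rw [Subgroup.coe_one, hψ1]
      have hfaithL : ∀ l : L, (fun l : L => ψ l) l = (fun l : L => ψ l) 1 → l = 1 := by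
        intro l hl
        apply Subtype.ext
        apply hfaith
        exact hl
      exact PC_of_top p L (ih L hlt (Cfsg.Agent.Lib.Helper12.PSolvable.isPSolvable_subgroup hsolv L)
        (fun l : L => ψ l) (IsCharacter.restrict hψ L) hres1 hfaithL)
    have hA : ∀ Q : Subgroup G, IsPGroup p Q → ∀ a ∈ Q, ∀ b ∈ Q, a * b = b * a :=
      fun Q hQ => pgroup_comm p hψ hψ1 (by omega) hfaith Q hQ
    have hperf := not_perfect p hsub hnot hsolv
    obtain ⟨hKp, ⟨x, hpx, hxc⟩, hall⟩ := struct p hA hsub hnot hperf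
    obtain ⟨hgen, hxpc⟩ := hall x hpx hxc
    have hxg : ∃ g : G, g * x ≠ x * g := by
      by_contra hcon
      push Not at hcon
      exact hxc (Subgroup.mem_center_iff.mpr hcon)
    obtain ⟨g, hg⟩ := hxg
    have hcne : x * g * x⁻¹ * g⁻¹ ≠ 1 := by
      intro h1
      apply hg
      calc g * x = (x * g * x⁻¹ * g⁻¹)⁻¹ * (x * g) := by group
        _ = x * g := by rw [h1, inv_one, one_mul]
    have hψc : ψ (x * g * x⁻¹ * g⁻¹) ≠ ψ 1 := fun h => hcne (hfaith _ h)
    obtain ⟨χ, hχ, hχc, d, hd, hdn⟩ := exists_constituent hψ hψ1 _ hψc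
    exact hχc (Cfsg.Agent.Lib.Helper25.ItoSpecial.ito_special p (commutator G) hKp x hpx hgen hxpc
      χ hχ d hd (by omega) g)

end closed

section primepower

variable {G : Type u} [Group G] [Finite G] (p : ℕ) [hp : Fact p.Prime]

open scoped Pointwise

/-- the conjugation action of a subgroup on a normal subgroup -/
@[reducible] def conjAction (K : Subgroup G) [hK : K.Normal] (S : Subgroup G) :
    MulDistribMulAction S K :=
  MulDistribMulAction.compHom K ((MulAut.conjNormal (H := K)).comp S.subtype)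

theorem conjAction_coe (K : Subgroup G) [hK : K.Normal] (S : Subgroup G) (s : S) (k : K) :
    letI := conjAction K S
    ((s • k : K) : G) = (s : G) * k * (s : G)⁻¹ := by
  letI := conjAction K S
  show ((MulAut.conjNormal (H := K) (s : G)) k : G) = _
  rw [MulAut.conjNormal_apply]

set_option maxHeartbeats 1000000 in
/-- a non-perfect minimal non-`p`-closed group with abelian `p`-subgroups has order
`q ^ e * p ^ a` -/
theorem prime_power (hA : ∀ Q : Subgroup G, IsPGroup p Q → ∀ a ∈ Q, ∀ b ∈ Q, a * b = b * a)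
    (hsub : ∀ L : Subgroup G, L ≠ ⊤ → PC p L) (hnot : ¬ PC p (⊤ : Subgroup G))
    (hperf : commutator G ≠ ⊤) :
    ∃ q : ℕ, q.Prime ∧ ∃ e a : ℕ, Nat.card G = q ^ e * p ^ a := by
  classical
  obtain ⟨hKp, ⟨x, hpx, hxc⟩, hall⟩ := struct p hA hsub hnot hperf
  obtain ⟨hgen, -⟩ := hall x hpx hxc
  obtain ⟨K, hKdef⟩ : ∃ K : Subgroup G, K = commutator G := ⟨_, rfl⟩
  rw [← hKdef] at hKp hgen
  have hKn : K.Normal := by
    rw [hKdef]
    infer_instance
  have htriv : ∀ m : ℕ, x ^ m ∈ K → x ^ m = 1 := fun m hm => hKp _ hm (PE_pow p hpx m)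
  have hgenQ := Cfsg.Agent.Lib.Helper25.ItoSpecial.quot_gen K x hgen
  have hordQ := Cfsg.Agent.Lib.Helper25.ItoSpecial.quot_order K x htriv
  obtain ⟨j, hj⟩ := hpx
  have hpx : PE p x := ⟨j, hj⟩
  obtain ⟨a, -, haq⟩ := (Nat.dvd_prime_pow hp.out).mp (orderOf_dvd_of_pow_eq_one hj)
  have hindex : K.index = p ^ a := by
    rw [Subgroup.index_eq_card, ← orderOf_eq_card_of_forall_mem_zpowers hgenQ, hordQ, haq]
  have hcardG : Nat.card G = Nat.card K * p ^ a := by
    rw [← hindex, Subgroup.card_mul_index]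
  have hpK : ¬ p ∣ Nat.card K := by
    intro hdvd
    obtain ⟨k, hk⟩ := exists_prime_orderOf_dvd_card' p hdvd
    have hk1 : (k : G) = 1 := by
      apply hKp k k.2
      refine ⟨1, ?_⟩
      rw [pow_one, ← Subgroup.coe_pow, ← hk, pow_orderOf_eq_one]
      rfl
    have hk2 : k = 1 := Subtype.ext hk1
    rw [hk2, orderOf_one] at hk
    exact hp.out.one_lt.ne hk
  by_contra hcon
  push Not at hcon
  have hconK : ∀ q : ℕ, q.Prime → ∀ e : ℕ, Nat.card K ≠ q ^ e := by
    intro q hq e he
    exact hcon q hq e a (by rw [hcardG, he])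
  have hS : IsPGroup p (Subgroup.zpowers x) := by
    intro y
    obtain ⟨i, hi⟩ := Subgroup.mem_zpowers_iff.mp y.2
    have h1 := PE_zpow p hpx i
    rw [hi] at h1
    exact (PE_coe p _ y).mp h1
  -- for every prime `q` some Sylow `q`-subgroup of `K` is centralized by `x`
  have hcentQ : ∀ q : ℕ, q.Prime → ∃ Q₀ : Sylow q K, ∀ k : K, k ∈ Q₀ → x * (k : G) = k * x := by
    intro q hq
    haveI : Fact q.Prime := ⟨hq⟩
    letI := conjAction K (Subgroup.zpowers x)
    have hnd : ¬ p ∣ Nat.card (Sylow q K) := by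
      intro hdvd
      apply hpK
      obtain ⟨Q⟩ : Nonempty (Sylow q K) := inferInstance
      exact dvd_trans hdvd (dvd_trans (Sylow.card_dvd_index Q) (Subgroup.index_dvd_card _))
    obtain ⟨Q₀, hQ₀⟩ := hS.nonempty_fixed_point_of_prime_not_dvd_card (Sylow q K) hnd
    have hinv : ∀ k : K, k ∈ Q₀ → (⟨x * k * x⁻¹, hKn.conj_mem k k.2 x⟩ : K) ∈ Q₀ := by
      intro k hk
      have h1 := hQ₀ ⟨x, Subgroup.mem_zpowers x⟩
      have h2 : (⟨x, Subgroup.mem_zpowers x⟩ : Subgroup.zpowers x) • k ∈
          (⟨x, Subgroup.mem_zpowers x⟩ : Subgroup.zpowers x) • (Q₀ : Subgroup K) :=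
        Subgroup.smul_mem_pointwise_smul _ _ _ hk
      rw [← Sylow.pointwise_smul_def, h1] at h2
      have h3 : (⟨x * k * x⁻¹, hKn.conj_mem k k.2 x⟩ : K) =
          (⟨x, Subgroup.mem_zpowers x⟩ : Subgroup.zpowers x) • k :=
        Subtype.ext (conjAction_coe K (Subgroup.zpowers x) ⟨x, Subgroup.mem_zpowers x⟩ k).symm
      rw [h3]
      exact h2
    refine ⟨Q₀, ?_⟩
    obtain ⟨Q₁, hQ₁⟩ : ∃ Q₁ : Subgroup G, Q₁ = (Q₀ : Subgroup K).map K.subtype := ⟨_, rfl⟩
    have hQ₁mem : ∀ k : K, k ∈ Q₀ → (k : G) ∈ Q₁ := by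
      intro k hk
      rw [hQ₁]
      exact Subgroup.mem_map_of_mem _ hk
    have hQ₁K : Q₁ ≤ K := by
      rw [hQ₁]
      rintro _ ⟨k, -, rfl⟩
      exact k.2
    have hQ₁conj : ∀ h ∈ Q₁, x * h * x⁻¹ ∈ Q₁ := by
      intro h hh
      rw [hQ₁] at hh
      obtain ⟨k, hk, rfl⟩ := hh
      exact hQ₁mem _ (hinv k hk)
    by_cases hH : Q₁ ⊔ Subgroup.zpowers x = ⊤
    · exfalso
      have hpow : ∀ i : ℕ, ∀ h ∈ Q₁, x ^ i * h * (x ^ i)⁻¹ ∈ Q₁ := by
        intro i
        induction i with
        | zero => intro h hh; simpa using hh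
        | succ i ih =>
          intro h hh
          have h1 := hQ₁conj _ (ih h hh)
          have h2 : x * (x ^ i * h * (x ^ i)⁻¹) * x⁻¹ = x ^ (i + 1) * h * (x ^ (i + 1))⁻¹ := by
            rw [pow_succ']
            group
          rwa [h2] at h1
      have hxn : x ∈ Subgroup.normalizer (Q₁ : Set G) := by
        rw [Subgroup.mem_normalizer_iff]
        intro h
        constructor
        · exact hQ₁conj h
        · intro hh
          have h1 := hpow (orderOf x - 1) _ hh
          have h2 : x ^ (orderOf x - 1) * (x * h * x⁻¹) * (x ^ (orderOf x - 1))⁻¹ = h := by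
            have h3 : x ^ (orderOf x - 1) * x = 1 := by
              rw [← pow_succ, Nat.sub_add_cancel (orderOf_pos x), pow_orderOf_eq_one]
            calc x ^ (orderOf x - 1) * (x * h * x⁻¹) * (x ^ (orderOf x - 1))⁻¹
                = (x ^ (orderOf x - 1) * x) * h * (x ^ (orderOf x - 1) * x)⁻¹ := by group
              _ = h := by rw [h3]; group
          rwa [h2] at h1
      have hnorm : Subgroup.normalizer (Q₁ : Set G) = ⊤ := by
        rw [eq_top_iff, ← hH]
        exact sup_le Subgroup.le_normalizer ((Subgroup.zpowers_le).mpr hxn)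
      have hQ₁n : Q₁.Normal := Subgroup.normalizer_eq_top_iff.mp hnorm
      have hKQ : K ≤ Q₁ := by
        intro k hk
        have h1 : k ∈ ((Q₁ ⊔ Subgroup.zpowers x : Subgroup G) : Set G) := by
          rw [hH]
          exact Subgroup.mem_top k
        rw [Subgroup.normal_mul] at h1
        obtain ⟨u, hu, z, hz, huz⟩ := Set.mem_mul.mp h1
        obtain ⟨i, hi⟩ := Subgroup.mem_zpowers_iff.mp hz
        have hzK : z ∈ K := by
          have h2 : z = u⁻¹ * k := by
            rw [← huz]
            group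
          rw [h2]
          exact K.mul_mem (K.inv_mem (hQ₁K hu)) hk
        have hz1 : z = 1 := hKp z hzK (by rw [← hi]; exact PE_zpow p hpx i)
        rw [hz1, mul_one] at huz
        rw [← huz]
        exact hu
      have hKeq : K = Q₁ := le_antisymm hKQ hQ₁K
      have hcard : Nat.card K = q ^ (Nat.card K).factorization q := by
        rw [← Sylow.card_eq_multiplicity Q₀]
        conv_lhs => rw [hKeq, hQ₁]
        exact Subgroup.card_map_of_injective (Subgroup.subtype_injective K)
      exact hconK q hq _ hcard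
    · intro k hk
      have hkQ : (k : G) ∈ Q₁ := hQ₁mem k hk
      have hxL : x ∈ Q₁ ⊔ Subgroup.zpowers x := Subgroup.mem_sup_right (Subgroup.mem_zpowers x)
      have hkL : (k : G) ∈ Q₁ ⊔ Subgroup.zpowers x := Subgroup.mem_sup_left hkQ
      have h2 : PE p (x * ((k : G) * x⁻¹ * (k : G)⁻¹)) :=
        hsub _ hH x hxL _ (Subgroup.mul_mem _ (Subgroup.mul_mem _ hkL (Subgroup.inv_mem _ hxL))
          (Subgroup.inv_mem _ hkL)) hpx (PE_conj p (PE_inv p hpx) _)
      have h3 : x * ((k : G) * x⁻¹ * (k : G)⁻¹) = 1 := by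
        apply hKp _ _ h2
        have h4 : x * ((k : G) * x⁻¹ * (k : G)⁻¹) = (x * k * x⁻¹) * (k : G)⁻¹ := by group
        rw [h4]
        exact K.mul_mem (hKn.conj_mem k k.2 x) (K.inv_mem k.2)
      calc x * (k : G) = (x * ((k : G) * x⁻¹ * (k : G)⁻¹)) * (k * x) := by group
        _ = k * x := by rw [h3, one_mul]
  -- hence `x` centralizes `K`
  obtain ⟨C, hC⟩ : ∃ C : Subgroup K,
      C = (Subgroup.centralizer ({x} : Set G)).subgroupOf K := ⟨_, rfl⟩
  have hCdvd : Nat.card K ∣ Nat.card C := by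
    have hC0 : Nat.card C ≠ 0 := Nat.card_pos.ne'
    have hK0 : Nat.card K ≠ 0 := Nat.card_pos.ne'
    rw [← Nat.factorization_le_iff_dvd hK0 hC0]
    intro q
    by_cases hq : q.Prime
    · obtain ⟨Q₀, hQ₀⟩ := hcentQ q hq
      haveI : Fact q.Prime := ⟨hq⟩
      have hle : (Q₀ : Subgroup K) ≤ C := by
        intro k hk
        rw [hC, Subgroup.mem_subgroupOf, Subgroup.mem_centralizer_iff]
        intro h hh
        rw [Set.mem_singleton_iff] at hh
        rw [hh]
        exact hQ₀ k hk
      have h1 := Subgroup.card_dvd_of_le hle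
      rw [Sylow.card_eq_multiplicity] at h1
      exact (Nat.Prime.pow_dvd_iff_le_factorization hq hC0).mp h1
    · rw [Nat.factorization_eq_zero_of_not_prime _ hq]
      exact Nat.zero_le _
  have hCtop : C = ⊤ := by
    apply Subgroup.eq_top_of_le_card
    exact Nat.le_of_dvd Nat.card_pos hCdvd
  apply hxc
  have hcent : Subgroup.centralizer ({x} : Set G) = ⊤ := by
    rw [eq_top_iff, ← hgen]
    apply sup_le
    · intro k hk
      have h1 : (⟨k, hk⟩ : K) ∈ C := by
        rw [hCtop]
        exact Subgroup.mem_top _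
      rw [hC, Subgroup.mem_subgroupOf] at h1
      exact h1
    · rw [Subgroup.zpowers_le, Subgroup.mem_centralizer_iff]
      intro h hh
      rw [Set.mem_singleton_iff] at hh
      rw [hh]
  rw [Subgroup.centralizer_eq_top_iff_subset] at hcent
  exact hcent (Set.mem_singleton x)

end primepower

end Cfsg.Agent.Lib.Helper25.MinPC
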