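import Mathlib
import Cfsg.Prelude.Def_Transfer
import Cfsg.Agent.S0100

/-!
# Normal elementary abelian subgroups of rank four (odd `p`)

`main` : for odd `p`, a finite `p`-group with an elementary abelian subgroup of order at least `p ^ 4`
has a normal elementary abelian subgroup of order exactly `p ^ 4`.

The proof avoids counting: take a normal elementary abelian `N` of largest order (`≤ p ^ 3` in a
counterexample), an elementary abelian `B` of order `≥ p ^ 4` with `B ⊓ N` as large as possible, and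
show that `B` is normal by the normalizer trick.
-/

set_option autoImplicit false

namespace Cfsg.Agent.Lib.Helper25.NormalRank4

open Cfsg
open scoped commutatorElement

/-- In a nilpotent group, a normal subgroup `N` not inside `W` has an element outside `W` all of whose
commutators lie in `W`. -/
theorem exists_comm_mem {G : Type*} [Group G] [hnil : Group.IsNilpotent G] (N W : Subgroup G)
    [hN : N.Normal] (hne : ¬ N ≤ W) : ∃ ν ∈ N, ν ∉ W ∧ ∀ g : G, ⁅g, ν⁆ ∈ W := by
  classical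
  obtain ⟨n, hn⟩ := Subgroup.nilpotent_iff_lowerCentralSeries.mp hnil
  obtain ⟨c, hc0, hcs⟩ : ∃ c : ℕ → Subgroup G, c 0 = N ∧
      ∀ i, c (i + 1) = ⁅c i, (⊤ : Subgroup G)⁆ :=
    ⟨fun i => Nat.rec N (fun _ K => ⁅K, (⊤ : Subgroup G)⁆) i, rfl, fun i => rfl⟩
  have hle : ∀ i, c i ≤ (⊤ : Subgroup G).lowerCentralSeries i := by
    intro i
    induction i with
    | zero => rw [Subgroup.lowerCentralSeries_zero]; exact le_top
    | succ i ih =>
      rw [hcs, Subgroup.lowerCentralSeries_succ]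
      exact Subgroup.commutator_mono ih le_rfl
  have hex : ∃ i, c i ≤ W := ⟨n, by
    have h1 := hle n
    rw [hn] at h1
    exact le_trans h1 bot_le⟩
  obtain ⟨i, hi, himin⟩ : ∃ i, c i ≤ W ∧ ∀ j < i, ¬ c j ≤ W :=
    ⟨Nat.find hex, Nat.find_spec hex, fun j hj => Nat.find_min hex hj⟩
  have hcN : ∀ i, c i ≤ N := by
    intro i
    induction i with
    | zero => rw [hc0]
    | succ i ih =>
      rw [hcs]
      exact le_trans (Subgroup.commutator_mono ih le_rfl) (Subgroup.commutator_le_left N ⊤)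
  cases i with
  | zero => rw [hc0] at hi; exact absurd hi hne
  | succ j =>
    have hj := himin j (Nat.lt_succ_self j)
    obtain ⟨ν, hν, hνW⟩ := SetLike.not_le_iff_exists.mp hj
    refine ⟨ν, hcN j hν, hνW, fun g => ?_⟩
    apply hi
    rw [hcs, Subgroup.commutator_comm]
    exact Subgroup.commutator_mem_commutator (Subgroup.mem_top g) hν

theorem ea_comm {G : Type*} [Group G] {p : ℕ} {B : Subgroup G} (hB : IsElementaryAbelian p B)
    {x y : G} (hx : x ∈ B) (hy : y ∈ B) : x * y = y * x := by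
  have h := Subgroup.le_centralizer_iff_isMulCommutative.mpr hB.1
  exact Subgroup.mem_centralizer_iff.mp (h hy) x hx

theorem ea_mono {G : Type*} [Group G] {p : ℕ} {A B : Subgroup G} (hB : IsElementaryAbelian p B)
    (h : A ≤ B) : IsElementaryAbelian p A := by
  refine ⟨?_, fun a ha => hB.2 a (h ha)⟩
  rw [← Subgroup.le_centralizer_iff_isMulCommutative]
  intro a ha
  rw [Subgroup.mem_centralizer_iff]
  intro b hb
  exact ea_comm hB (h hb) (h ha)

theorem ea_bot {G : Type*} [Group G] {p : ℕ} : IsElementaryAbelian p (⊥ : Subgroup G) := by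
  refine ⟨?_, fun a ha => by rw [Subgroup.mem_bot.mp ha, one_pow]⟩
  rw [← Subgroup.le_centralizer_iff_isMulCommutative]
  exact bot_le

theorem ea_closure {G : Type*} [Group G] {p : ℕ} (k : Set G)
    (hcomm : ∀ x ∈ k, ∀ y ∈ k, x * y = y * x) (hexp : ∀ x ∈ k, x ^ p = 1) :
    IsElementaryAbelian p (Subgroup.closure k) := by
  have hc : IsMulCommutative ↥(Subgroup.closure k) := Subgroup.isMulCommutative_closure hcomm
  refine ⟨hc, ?_⟩
  have hcl := Subgroup.le_centralizer_iff_isMulCommutative.mpr hc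
  intro a ha
  induction ha using Subgroup.closure_induction with
  | mem x hx => exact hexp x hx
  | one => exact one_pow p
  | mul x y hx hy ihx ihy =>
    have h1 : Commute x y := Subgroup.mem_centralizer_iff.mp (hcl hy) x hx
    rw [h1.mul_pow, ihx, ihy, one_mul]
  | inv x hx ih => rw [inv_pow, ih, inv_one]

set_option maxHeartbeats 1600000 in
/-- For odd `p`, a `p`-group with an elementary abelian subgroup of order at least `p ^ 4` has a normal
elementary abelian subgroup of order `p ^ 4`. -/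
theorem main {G : Type*} [Group G] [Finite G] {p : ℕ} [Fact p.Prime] (hp : p ≠ 2)
    (hG : IsPGroup p G) (E : Subgroup G) (hE : IsElementaryAbelian p E)
    (hE4 : p ^ 4 ≤ Nat.card E) :
    ∃ A : Subgroup G, A.Normal ∧ IsElementaryAbelian p A ∧ Nat.card A = p ^ 4 := by
  classical
  have hpp : p.Prime := Fact.out
  haveI hnil : Group.IsNilpotent G := hG.isNilpotent
  by_contra hno
  have hpow : ∀ K : Subgroup G, ∃ n, Nat.card K = p ^ n :=
    fun K => (hG.to_subgroup K).exists_card_eq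
  have hlt_pow : ∀ (K : Subgroup G) (m : ℕ), p ^ m < Nat.card K → p ^ (m + 1) ≤ Nat.card K := by
    intro K m h
    obtain ⟨n, hn⟩ := hpow K
    rw [hn] at h ⊢
    have h1 : m < n := (Nat.pow_lt_pow_iff_right hpp.one_lt).mp h
    exact Nat.pow_le_pow_right hpp.pos h1
  have hsmall : ∀ A : Subgroup G, A.Normal → IsElementaryAbelian p A → Nat.card A ≤ p ^ 3 := by
    intro A hAn hAe
    by_contra hcon
    push Not at hcon
    have h4 : p ^ 4 ≤ Nat.card A := hlt_pow A 3 hcon
    haveI := hAn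
    obtain ⟨A', hA'n, hA'le, hA'c⟩ := Cfsg.Agent.S0100.exists_normal_le_card hG A 4 h4
    exact hno ⟨A', hA'n, ea_mono hAe hA'le, hA'c⟩
  obtain ⟨N, ⟨hNn, hNe⟩, hNmax⟩ := Set.exists_max_image
    {A : Subgroup G | A.Normal ∧ IsElementaryAbelian p A} (fun A => Nat.card A) (Set.toFinite _)
    ⟨⊥, inferInstance, ea_bot⟩
  haveI := hNn
  have hN3 : Nat.card N ≤ p ^ 3 := hsmall N hNn hNe
  have hKL : ∀ x ∈ Subgroup.centralizer (N : Set G), x ^ p = 1 → x ∈ N := by
    intro x hx hxp
    refine Cfsg.Agent.S0100.omega_centralizer_le hp hG N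
      (Subgroup.le_centralizer_iff_isMulCommutative.mpr hNe.1) hNe.2 ?_ x hx hxp
    intro B hBn hBab hBe hNB
    have h1 := hNmax B ⟨hBn, Subgroup.le_centralizer_iff_isMulCommutative.mp hBab, hBe⟩
    exact (Subgroup.eq_of_le_of_card_ge hNB h1).symm
  obtain ⟨B, ⟨hBe, hB4⟩, hBmax⟩ := Set.exists_max_image
    {B : Subgroup G | IsElementaryAbelian p B ∧ p ^ 4 ≤ Nat.card B}
    (fun B => Nat.card (B ⊓ N : Subgroup G)) (Set.toFinite _) ⟨E, hE, hE4⟩
  obtain ⟨W, hWdef⟩ : ∃ W : Subgroup G, W = B ⊓ N := ⟨_, rfl⟩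
  have hWB : W ≤ B := hWdef ▸ inf_le_left
  have hWN : W ≤ N := hWdef ▸ inf_le_right
  have hCB : ∀ b ∈ B, b ∈ Subgroup.centralizer (N : Set G) → b ∈ N :=
    fun b hb hbc => hKL b hbc (hBe.2 b hb)
  have hNW : ¬ N ≤ W := by
    intro h
    have h1 : B ≤ N := by
      intro b hb
      apply hCB b hb
      rw [Subgroup.mem_centralizer_iff]
      intro n hn
      exact ea_comm hBe (hWB (h hn)) hb
    have h2 := Subgroup.card_le_of_le h1
    have h3 : p ^ 3 < p ^ 4 := Nat.pow_lt_pow_right hpp.one_lt (by norm_num)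
    omega
  obtain ⟨ν, hνN, hνW, hνc⟩ := exists_comm_mem N W hNW
  have hνB : ν ∉ B := fun h => hνW (hWdef ▸ ⟨h, hνN⟩)
  have hνp : ν ^ p = 1 := hNe.2 ν hνN
  obtain ⟨Cν, hCνdef⟩ : ∃ Cν : Subgroup G, Cν = B ⊓ Subgroup.centralizer {ν} := ⟨_, rfl⟩
  have hCνB : Cν ≤ B := hCνdef ▸ inf_le_left
  have hCνc : ∀ x ∈ Cν, x * ν = ν * x := by
    intro x hx
    rw [hCνdef] at hx
    exact (Subgroup.mem_centralizer_iff.mp hx.2 ν (Set.mem_singleton ν)).symm
  have hCνmem : ∀ x ∈ B, x * ν = ν * x → x ∈ Cν := by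
    intro x hx hxν
    rw [hCνdef]
    refine Subgroup.mem_inf.mpr ⟨hx, ?_⟩
    rw [Subgroup.mem_centralizer_iff]
    intro h hh
    rw [Set.mem_singleton_iff] at hh
    rw [hh]
    exact hxν.symm
  have hWCν : W ≤ Cν := fun w hw => hCνmem w (hWB hw) (ea_comm hNe (hWN hw) hνN)
  have hCν2 : Nat.card Cν ≤ p ^ 2 := by
    by_contra hcon
    push Not at hcon
    have h3 : p ^ 3 ≤ Nat.card Cν := hlt_pow Cν 2 hcon
    have hB₂e : IsElementaryAbelian p (Subgroup.closure ((Cν : Set G) ∪ {ν})) := by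
      apply ea_closure
      · intro x hx y hy
        rcases hx with hx | hx <;> rcases hy with hy | hy
        · exact ea_comm hBe (hCνB hx) (hCνB hy)
        · rw [Set.mem_singleton_iff] at hy; rw [hy]; exact hCνc x hx
        · rw [Set.mem_singleton_iff] at hx; rw [hx]; exact (hCνc y hy).symm
        · rw [Set.mem_singleton_iff] at hx hy; rw [hx, hy]
      · intro x hx
        rcases hx with hx | hx
        · exact hBe.2 x (hCνB hx)
        · rw [Set.mem_singleton_iff] at hx; rw [hx]; exact hνp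
    have hle : Cν ≤ Subgroup.closure ((Cν : Set G) ∪ {ν}) :=
      fun x hx => Subgroup.subset_closure (Or.inl hx)
    have hν₂ : ν ∈ Subgroup.closure ((Cν : Set G) ∪ {ν}) := Subgroup.subset_closure (Or.inr rfl)
    have hlt : Nat.card Cν < Nat.card (Subgroup.closure ((Cν : Set G) ∪ {ν})) := by
      by_contra hge
      push Not at hge
      have h5 := Subgroup.eq_of_le_of_card_ge hle hge
      exact hνB (hCνB (h5 ▸ hν₂))
    have h4 : p ^ 4 ≤ Nat.card (Subgroup.closure ((Cν : Set G) ∪ {ν})) :=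
      hlt_pow _ 3 (lt_of_le_of_lt h3 hlt)
    have h5 := hBmax _ ⟨hB₂e, h4⟩
    have hle2 : W ≤ Subgroup.closure ((Cν : Set G) ∪ {ν}) ⊓ N := le_inf (hWCν.trans hle) hWN
    have h6 : Nat.card (Subgroup.closure ((Cν : Set G) ∪ {ν}) ⊓ N : Subgroup G) ≤ Nat.card W := by
      rw [hWdef]; exact h5
    have h7 := Subgroup.eq_of_le_of_card_ge hle2 h6
    exact hνW (h7 ▸ ⟨hν₂, hνN⟩)
  -- the commutator homomorphism
  obtain ⟨τ, hτ⟩ : ∃ τ : ↥B →* ↥W, ∀ b : ↥B, ((τ b : ↥W) : G) = ⁅(b : G), ν⁆ := by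
    refine ⟨MonoidHom.mk' (fun b => ⟨⁅(b : G), ν⁆, hνc b⟩) ?_, fun b => rfl⟩
    intro a b
    apply Subtype.ext
    show ⁅(a : G) * (b : G), ν⁆ = ⁅(a : G), ν⁆ * ⁅(b : G), ν⁆
    have e1 : ⁅(a : G) * (b : G), ν⁆ = (a : G) * ⁅(b : G), ν⁆ * (a : G)⁻¹ * ⁅(a : G), ν⁆ := by
      simp only [commutatorElement_def]; group
    have e2 : (a : G) * ⁅(b : G), ν⁆ = ⁅(b : G), ν⁆ * (a : G) :=
      ea_comm hBe a.2 (hWB (hνc b))
    have e3 : ⁅(b : G), ν⁆ * ⁅(a : G), ν⁆ = ⁅(a : G), ν⁆ * ⁅(b : G), ν⁆ :=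
      ea_comm hBe (hWB (hνc b)) (hWB (hνc a))
    rw [e1, e2, ← e3]
    group
  have hker : ∀ b : ↥B, b ∈ τ.ker ↔ (b : G) ∈ Cν := by
    intro b
    rw [MonoidHom.mem_ker]
    constructor
    · intro h
      have h1 : ⁅(b : G), ν⁆ = 1 := by
        rw [← hτ b, h]; rfl
      exact hCνmem b b.2 (commutatorElement_eq_one_iff_mul_comm.mp h1)
    · intro h
      apply Subtype.ext
      rw [hτ b]
      exact commutatorElement_eq_one_iff_mul_comm.mpr (hCνc b h)
  have hkercard : Nat.card τ.ker = Nat.card Cν := by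
    have h1 : τ.ker = Cν.subgroupOf B := by
      ext b
      rw [hker b, Subgroup.mem_subgroupOf]
    rw [h1]
    exact Nat.card_congr (Subgroup.subgroupOfEquivOfLe hCνB).toEquiv
  have hBcard : Nat.card B = Nat.card τ.range * Nat.card Cν := by
    rw [Subgroup.card_eq_card_quotient_mul_card_subgroup τ.ker, hkercard,
      Nat.card_congr (QuotientGroup.quotientKerEquivRange τ).toEquiv]
  have hrange_le : Nat.card τ.range ≤ Nat.card W := Subgroup.card_le_card_group τ.range
  have hWCνcard : Nat.card W ≤ Nat.card Cν := Subgroup.card_le_of_le hWCν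
  have hp2 : 0 < p ^ 2 := pow_pos hpp.pos 2
  have hp4 : p ^ 4 = p ^ 2 * p ^ 2 := by ring
  have hCνeq : Nat.card Cν = p ^ 2 := by
    by_contra hne
    have hlt : Nat.card Cν < p ^ 2 := lt_of_le_of_ne hCν2 hne
    have h1 : Nat.card τ.range * Nat.card Cν < p ^ 2 * p ^ 2 := by
      calc Nat.card τ.range * Nat.card Cν ≤ Nat.card Cν * Nat.card Cν :=
            Nat.mul_le_mul_right _ (hrange_le.trans hWCνcard)
        _ < p ^ 2 * p ^ 2 := Nat.mul_lt_mul'' hlt hlt
    omega
  have hrangeeq : Nat.card τ.range = p ^ 2 := by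
    have h1 : p ^ 2 * p ^ 2 ≤ Nat.card τ.range * p ^ 2 := by
      rw [← hCνeq, ← hBcard, hCνeq, ← hp4]; exact hB4
    have h2 := Nat.le_of_mul_le_mul_right h1 hp2
    omega
  have hWeq : Nat.card W = p ^ 2 := by omega
  have hB4eq : Nat.card B = p ^ 4 := by rw [hBcard, hrangeeq, hCνeq, hp4]
  have hWCνeq : W = Cν := Subgroup.eq_of_le_of_card_ge hWCν (by omega)
  have hsurj : ∀ w ∈ W, ∃ b ∈ B, ⁅b, ν⁆ = w := by
    intro w hw
    have h1 : τ.range = ⊤ := Subgroup.eq_top_of_card_eq _ (by rw [hrangeeq, hWeq])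
    have h2 : (⟨w, hw⟩ : ↥W) ∈ τ.range := by rw [h1]; exact Subgroup.mem_top _
    obtain ⟨b, hb⟩ := MonoidHom.mem_range.mp h2
    refine ⟨b, b.2, ?_⟩
    rw [← hτ b, hb]
  have hNeq : Nat.card N = p ^ 3 := by
    have h1 : p ^ 2 < Nat.card N := by
      by_contra hcon
      push Not at hcon
      exact hNW (le_of_eq (Subgroup.eq_of_le_of_card_ge hWN (by omega)).symm)
    have h2 : p ^ 3 ≤ Nat.card N := hlt_pow N 2 h1
    omega
  -- `W = ⁅N, ⊤⁆` is normal
  have hWnormal : W.Normal := by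
    have h1 : W ≤ ⁅N, (⊤ : Subgroup G)⁆ := by
      intro w hw
      obtain ⟨b, hb, rfl⟩ := hsurj w hw
      rw [Subgroup.commutator_comm]
      exact Subgroup.commutator_mem_commutator (Subgroup.mem_top _) hνN
    have h2 : ⁅N, (⊤ : Subgroup G)⁆ ≤ N := Subgroup.commutator_le_left N ⊤
    have h3 : ¬ N ≤ ⁅N, (⊤ : Subgroup G)⁆ := by
      intro h
      obtain ⟨n, hn⟩ := Subgroup.nilpotent_iff_lowerCentralSeries.mp hnil
      have h4 : ∀ i, N ≤ (⊤ : Subgroup G).lowerCentralSeries i := by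
        intro i
        induction i with
        | zero => rw [Subgroup.lowerCentralSeries_zero]; exact le_top
        | succ i ih =>
          rw [Subgroup.lowerCentralSeries_succ]
          exact h.trans (Subgroup.commutator_mono ih le_rfl)
      have h5 := h4 n
      rw [hn] at h5
      exact hNW (h5.trans bot_le)
    have h4 : Nat.card (⁅N, (⊤ : Subgroup G)⁆ : Subgroup G) ≤ p ^ 2 := by
      by_contra hcon
      push Not at hcon
      have h5 : p ^ 3 ≤ Nat.card (⁅N, (⊤ : Subgroup G)⁆ : Subgroup G) := hlt_pow _ 2 hcon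
      exact h3 (le_of_eq (Subgroup.eq_of_le_of_card_ge h2 (by omega)).symm)
    have h5 : W = ⁅N, (⊤ : Subgroup G)⁆ := Subgroup.eq_of_le_of_card_ge h1 (by omega)
    rw [h5]
    exact Subgroup.commutator_normal N ⊤
  -- elements centralizing `W` lie in `B * C_G(N)`
  have hdecomp : ∀ a : G, (∀ w ∈ W, a * w = w * a) →
      ∃ β ∈ B, β⁻¹ * a ∈ Subgroup.centralizer (N : Set G) := by
    intro a ha
    obtain ⟨β, hβ, hβe⟩ := hsurj ⁅a, ν⁆ (hνc a)
    refine ⟨β, hβ, ?_⟩
    have hcν : (β⁻¹ * a) * ν = ν * (β⁻¹ * a) := by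
      have h1 : β * ν * β⁻¹ = a * ν * a⁻¹ := by
        have h2 := hβe
        simp only [commutatorElement_def] at h2
        exact mul_right_cancel h2
      calc (β⁻¹ * a) * ν = β⁻¹ * (a * ν * a⁻¹) * a := by group
        _ = β⁻¹ * (β * ν * β⁻¹) * a := by rw [h1]
        _ = ν * (β⁻¹ * a) := by group
    have hcW : ∀ w ∈ W, (β⁻¹ * a) * w = w * (β⁻¹ * a) := by
      intro w hw
      have h1 : β * w = w * β := ea_comm hBe hβ (hWB hw)
      have h2 := ha w hw
      calc β⁻¹ * a * w = β⁻¹ * (w * a) := by rw [mul_assoc, h2]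
        _ = β⁻¹ * (w * β) * β⁻¹ * a := by group
        _ = β⁻¹ * (β * w) * β⁻¹ * a := by rw [h1]
        _ = w * (β⁻¹ * a) := by group
    have hle : W ≤ N ⊓ Subgroup.centralizer {β⁻¹ * a} := by
      intro w hw
      refine Subgroup.mem_inf.mpr ⟨hWN hw, ?_⟩
      rw [Subgroup.mem_centralizer_iff]
      intro h hh
      rw [Set.mem_singleton_iff] at hh
      rw [hh]
      exact hcW w hw
    have hνmem : ν ∈ N ⊓ Subgroup.centralizer {β⁻¹ * a} := by
      refine Subgroup.mem_inf.mpr ⟨hνN, ?_⟩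
      rw [Subgroup.mem_centralizer_iff]
      intro h hh
      rw [Set.mem_singleton_iff] at hh
      rw [hh]
      exact hcν
    have hlt : p ^ 2 < Nat.card (N ⊓ Subgroup.centralizer {β⁻¹ * a} : Subgroup G) := by
      by_contra hcon
      push Not at hcon
      have h1 := Subgroup.eq_of_le_of_card_ge hle (by omega)
      exact hνW (h1 ▸ hνmem)
    have h3 : p ^ 3 ≤ Nat.card (N ⊓ Subgroup.centralizer {β⁻¹ * a} : Subgroup G) :=
      hlt_pow _ 2 hlt
    have hK : N ⊓ Subgroup.centralizer {β⁻¹ * a} = N :=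
      Subgroup.eq_of_le_of_card_ge inf_le_left (by omega)
    rw [Subgroup.mem_centralizer_iff]
    intro n hn
    have h4 : n ∈ N ⊓ Subgroup.centralizer {β⁻¹ * a} := by rw [hK]; exact hn
    exact (Subgroup.mem_centralizer_iff.mp (Subgroup.mem_inf.mp h4).2 _ rfl).symm
  -- `B` is normal
  have hBn : B.Normal := by
    by_contra hBn
    have hM : Subgroup.normalizer (B : Set G) < ⊤ :=
      lt_top_iff_ne_top.mpr (fun h => hBn (Subgroup.normalizer_eq_top_iff.mp h))
    have hM2 := Group.normalizerCondition_of_isNilpotent (G := G) _ hM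
    obtain ⟨g, hgM, hgB⟩ := SetLike.exists_of_lt hM2
    obtain ⟨A, hAdef⟩ : ∃ A : Subgroup G, A = B.map (MulAut.conj g).toMonoidHom := ⟨_, rfl⟩
    have hAmem : ∀ a, a ∈ A ↔ ∃ b ∈ B, g * b * g⁻¹ = a := by
      intro a
      rw [hAdef, Subgroup.mem_map]
      rfl
    have hAM : ∀ a ∈ A, a ∈ Subgroup.normalizer (B : Set G) := by
      intro a ha
      obtain ⟨b, hb, rfl⟩ := (hAmem a).mp ha
      exact (Subgroup.mem_normalizer_iff.mp hgM b).mp (Subgroup.le_normalizer hb)
    have hBA : ∀ β ∈ B, ∀ a ∈ A, β * a * β⁻¹ ∈ A := by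
      intro β hβ a ha
      obtain ⟨b, hb, rfl⟩ := (hAmem a).mp ha
      rw [hAmem]
      have h1 : g⁻¹ * β * g ∈ Subgroup.normalizer (B : Set G) := by
        rw [Subgroup.mem_normalizer_iff.mp hgM (g⁻¹ * β * g)]
        have e : g * (g⁻¹ * β * g) * g⁻¹ = β := by group
        rw [e]
        exact Subgroup.le_normalizer hβ
      refine ⟨(g⁻¹ * β * g) * b * (g⁻¹ * β * g)⁻¹,
        (Subgroup.mem_normalizer_iff.mp h1 b).mp hb, by group⟩
    have hAcomm : ∀ x ∈ A, ∀ y ∈ A, x * y = y * x := by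
      intro x hx y hy
      obtain ⟨b₁, hb₁, rfl⟩ := (hAmem x).mp hx
      obtain ⟨b₂, hb₂, rfl⟩ := (hAmem y).mp hy
      have h1 := ea_comm hBe hb₁ hb₂
      calc g * b₁ * g⁻¹ * (g * b₂ * g⁻¹) = g * (b₁ * b₂) * g⁻¹ := by group
        _ = g * (b₂ * b₁) * g⁻¹ := by rw [h1]
        _ = g * b₂ * g⁻¹ * (g * b₁ * g⁻¹) := by group
    have hAp : ∀ a ∈ A, a ^ p = 1 := by
      intro a ha
      obtain ⟨b, hb, rfl⟩ := (hAmem a).mp ha
      rw [conj_pow, hBe.2 b hb]
      group
    have hAW : ∀ a ∈ A, ∀ w ∈ W, a * w = w * a := by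
      intro a ha w hw
      obtain ⟨b, hb, rfl⟩ := (hAmem a).mp ha
      have h1 : g⁻¹ * w * g ∈ W := by
        have h2 := hWnormal.conj_mem w hw g⁻¹
        rwa [inv_inv] at h2
      have h2 := ea_comm hBe hb (hWB h1)
      calc g * b * g⁻¹ * w = g * (b * (g⁻¹ * w * g)) * g⁻¹ := by group
        _ = g * ((g⁻¹ * w * g) * b) * g⁻¹ := by rw [h2]
        _ = w * (g * b * g⁻¹) := by group
    have hAle : A ≤ B ⊔ N := by
      intro a ha
      obtain ⟨β, hβ, hc⟩ := hdecomp a (hAW a ha)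
      have haM := hAM a ha
      have haM' : a⁻¹ ∈ Subgroup.normalizer (B : Set G) := Subgroup.inv_mem _ haM
      have hz : ⁅a⁻¹, (β⁻¹)⁻¹⁆ = a⁻¹ * β * a * β⁻¹ := by
        simp only [commutatorElement_def, inv_inv]
      have hzB : a⁻¹ * β * a * β⁻¹ ∈ B := by
        have h1 := (Subgroup.mem_normalizer_iff.mp haM' β).mp hβ
        rw [inv_inv] at h1
        exact B.mul_mem h1 (B.inv_mem hβ)
      have hzA : a⁻¹ * β * a * β⁻¹ ∈ A := by
        have h1 := hBA β hβ a ha
        have e : a⁻¹ * β * a * β⁻¹ = a⁻¹ * (β * a * β⁻¹) := by group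
        rw [e]
        exact A.mul_mem (A.inv_mem ha) h1
      have hcp : (β⁻¹ * a) ^ p = 1 := by
        apply Cfsg.Agent.S0100.mul_pow_eq_one' hp
        · rw [hz]
          exact ea_comm hBe hzB (B.inv_mem hβ)
        · rw [hz]
          exact hAcomm _ hzA a ha
        · rw [inv_pow, hBe.2 β hβ, inv_one]
        · exact hAp a ha
      have hcN := hKL _ hc hcp
      have e : a = β * (β⁻¹ * a) := by group
      rw [e]
      exact Subgroup.mul_mem_sup hβ hcN
    have hAB : A ≠ B := by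
      intro h
      apply hgB
      rw [Subgroup.mem_normalizer_iff]
      intro x
      constructor
      · intro hx
        rw [← h, hAmem]
        exact ⟨x, hx, rfl⟩
      · intro hx
        rw [← h, hAmem] at hx
        obtain ⟨b, hb, hbe⟩ := hx
        have e : b = x := by
          have h1 : g⁻¹ * (g * b * g⁻¹) * g = g⁻¹ * (g * x * g⁻¹) * g := by rw [hbe]
          have e1 : g⁻¹ * (g * b * g⁻¹) * g = b := by group
          have e2 : g⁻¹ * (g * x * g⁻¹) * g = x := by group
          rw [e1, e2] at h1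
          exact h1
        rw [← e]
        exact hb
    have hAcard : Nat.card A = p ^ 4 := by
      rw [hAdef, Subgroup.card_map_of_injective (MulAut.conj g).injective]
      exact hB4eq
    have hH : Nat.card (B ⊔ N : Subgroup G) = p ^ 5 := by
      have h1 := Subgroup.relIndex_mul_relIndex (⊥ : Subgroup G) N (B ⊔ N) bot_le le_sup_right
      rw [Subgroup.relIndex_bot_left, Subgroup.relIndex_bot_left, Subgroup.relIndex_sup_right] at h1
      have h3 := Subgroup.relIndex_mul_relIndex (⊥ : Subgroup G) (N ⊓ B) B bot_le inf_le_right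
      rw [Subgroup.relIndex_bot_left, Subgroup.relIndex_bot_left, Subgroup.inf_relIndex_right,
        inf_comm, ← hWdef, hWeq, hB4eq] at h3
      have h4 : N.relIndex B = p ^ 2 := by
        have h5 : p ^ 2 * N.relIndex B = p ^ 2 * p ^ 2 := by rw [h3]; ring
        exact Nat.eq_of_mul_eq_mul_left hp2 h5
      rw [← h1, hNeq, h4]
      ring
    have hABle : A ⊔ B ≤ B ⊔ N := sup_le hAle le_sup_left
    have hABlt : p ^ 4 < Nat.card (A ⊔ B : Subgroup G) := by
      by_contra hcon
      push Not at hcon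
      have h1 : B = A ⊔ B := Subgroup.eq_of_le_of_card_ge le_sup_right (by omega)
      have h2 : A ≤ B := by rw [h1]; exact le_sup_left
      exact hAB (Subgroup.eq_of_le_of_card_ge h2 (by omega))
    have hAB5 : p ^ 5 ≤ Nat.card (A ⊔ B : Subgroup G) := hlt_pow _ 4 hABlt
    have hABeq : A ⊔ B = B ⊔ N := Subgroup.eq_of_le_of_card_ge hABle (by omega)
    have hDν : ∀ d ∈ A ⊓ B, d * ν = ν * d := by
      intro d hd
      have hdA := (Subgroup.mem_inf.mp hd).1
      have hdB := (Subgroup.mem_inf.mp hd).2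
      have h1 : A ⊔ B ≤ Subgroup.centralizer {d} := by
        apply sup_le
        · intro a ha
          rw [Subgroup.mem_centralizer_iff]
          intro h hh
          rw [Set.mem_singleton_iff] at hh
          rw [hh]
          exact hAcomm d hdA a ha
        · intro b hb
          rw [Subgroup.mem_centralizer_iff]
          intro h hh
          rw [Set.mem_singleton_iff] at hh
          rw [hh]
          exact ea_comm hBe hdB hb
      have h2 : ν ∈ A ⊔ B := by
        rw [hABeq]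
        exact (le_sup_right : N ≤ B ⊔ N) hνN
      exact Subgroup.mem_centralizer_iff.mp (h1 h2) d rfl
    have hDle : A ⊓ B ≤ W := by
      intro d hd
      rw [hWCνeq]
      exact hCνmem d (Subgroup.mem_inf.mp hd).2 (hDν d hd)
    have hD2 : Nat.card (A ⊓ B : Subgroup G) ≤ p ^ 2 := by
      have h1 := Subgroup.card_le_of_le hDle
      omega
    have h6 := Subgroup.relIndex_mul_relIndex (⊥ : Subgroup G) B (A ⊔ B) bot_le le_sup_right
    rw [Subgroup.relIndex_bot_left, Subgroup.relIndex_bot_left, hB4eq, hABeq, hH] at h6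
    have h7 := Subgroup.relIndex_mul_relIndex (⊥ : Subgroup G) (B ⊓ A) A bot_le inf_le_right
    rw [Subgroup.relIndex_bot_left, Subgroup.relIndex_bot_left, Subgroup.inf_relIndex_right,
      inf_comm, hAcard] at h7
    have h8 : B.relIndex (A ⊔ B) = p := by
      rw [hABeq]
      have h9 : p ^ 4 * B.relIndex (B ⊔ N) = p ^ 4 * p := by rw [h6]; ring
      exact Nat.eq_of_mul_eq_mul_left (pow_pos hpp.pos 4) h9
    have hrel : B.relIndex A ≤ B.relIndex (A ⊔ B) :=
      Subgroup.relIndex_le_of_le_right le_sup_left (by rw [h8]; exact hpp.ne_zero)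
    rw [h8] at hrel
    have h10 : p ^ 4 ≤ p ^ 2 * p := by
      calc p ^ 4 = Nat.card (A ⊓ B : Subgroup G) * B.relIndex A := h7.symm
        _ ≤ p ^ 2 * p := Nat.mul_le_mul hD2 hrel
    have h11 : p ^ 2 * p < p ^ 4 := by
      have : p ^ 2 * p = p ^ 3 := by ring
      rw [this]
      exact Nat.pow_lt_pow_right hpp.one_lt (by norm_num)
    omega
  exact hno ⟨B, hBn, hBe, hB4eq⟩

end Cfsg.Agent.Lib.Helper25.NormalRank4
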