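import Mathlib
import Cfsg.Agent.Lib.Helper1.CharFrob
import Cfsg.Agent.Lib.Helper25.Gagola3

set_option autoImplicit false
set_option linter.unusedSectionVars false
set_option linter.unusedVariables false

/-!
# Real characters and real classes of a normal subgroup of odd index

Twisted version of Brauer's permutation lemma (conjugation by `g` composed with complex
conjugation / inversion), and the "odd index" trick.
-/

namespace Cfsg.Agent.Lib.Helper25.RealOrbits

open Cfsg.Agent.Lib.Helper1 Cfsg.Agent.Lib.Helper25.Gagola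
open scoped ComplexConjugate

universe u

variable {G : Type u} [Group G] [Fintype G] (K : Subgroup G) [hK : K.Normal] [Fintype K]

theorem conjNormal_coe (g : G) (k : K) : ((conjNormal K g k : K) : G) = g * k * g⁻¹ := rfl

/-- Twisted Brauer permutation count: the number of irreducible characters `θ` of `K` with
`conj (θ (g k g⁻¹)) = θ k`. -/
theorem card_twisted (g : G) :
    (Nat.card {θ : Cfsg.IrrCharacter K // ∀ k : K, conj ((θ : K → ℂ) (conjNormal K g k)) =
        (θ : K → ℂ) k} : ℂ) =
      (Nat.card K : ℂ)⁻¹ * ∑ k : K, (Nat.card {u : K // u * k * u⁻¹ = (conjNormal K g k)⁻¹} : ℂ) := by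
  classical
  have hirr : Fintype (Cfsg.IrrCharacter K) := irrFintype
  have h1 : ∀ θ : Cfsg.IrrCharacter K,
      Cfsg.classInner (θ : K → ℂ) (fun k => conj ((θ : K → ℂ) (conjNormal K g k))) =
        if (∀ k : K, conj ((θ : K → ℂ) (conjNormal K g k)) = (θ : K → ℂ) k) then 1 else 0 := by
    intro θ
    have hirr2 : Cfsg.IsIrrCharacter K (fun k => conj ((θ : K → ℂ) (conjNormal K g k))) :=
      IsIrrCharacter.conj (IsIrrCharacter.comp_mulEquiv θ.2 (conjNormal K g))
    by_cases hr : ∀ k : K, conj ((θ : K → ℂ) (conjNormal K g k)) = (θ : K → ℂ) k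
    · rw [if_pos hr]
      have : (fun k => conj ((θ : K → ℂ) (conjNormal K g k))) = (θ : K → ℂ) := funext hr
      rw [this]
      exact classInner_irr_self θ.2
    · rw [if_neg hr]
      apply classInner_irr_ne θ.2 hirr2
      intro heq
      exact hr (fun k => (congrFun heq k).symm)
  have hL : (Nat.card {θ : Cfsg.IrrCharacter K // ∀ k : K, conj ((θ : K → ℂ) (conjNormal K g k)) =
        (θ : K → ℂ) k} : ℂ) = ∑ θ : Cfsg.IrrCharacter K,
        Cfsg.classInner (θ : K → ℂ) (fun k => conj ((θ : K → ℂ) (conjNormal K g k))) := by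
    simp only [h1]
    rw [Finset.sum_ite, Finset.sum_const_zero, add_zero, Finset.sum_const, nsmul_eq_mul, mul_one,
      Nat.card_eq_fintype_card, Fintype.card_subtype]
  rw [hL]
  simp only [Cfsg.classInner]
  rw [← Finset.mul_sum, Finset.sum_comm]
  congr 1
  refine Finset.sum_congr rfl (fun k _ => ?_)
  have h2 : ∀ θ : Cfsg.IrrCharacter K,
      (θ : K → ℂ) k * conj (conj ((θ : K → ℂ) (conjNormal K g k))) =
      (θ : K → ℂ) k * conj ((θ : K → ℂ) (conjNormal K g k)⁻¹) := by
    intro θ
    rw [IsCharacter.inv (IsIrrCharacter.isCharacter θ.2)]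
  rw [Finset.sum_congr rfl (fun θ _ => h2 θ), col_orth k (conjNormal K g k)⁻¹]
  split_ifs with hc
  · rw [card_conj_fiber_left k _ hc]
  · have : IsEmpty {u : K // u * k * u⁻¹ = (conjNormal K g k)⁻¹} := by
      constructor
      rintro ⟨u, hu⟩
      exact hc (isConj_iff.mpr ⟨u, hu⟩)
    rw [Nat.card_of_isEmpty]
    simp

/-- conjugation by an even power of `g` -/
theorem inv_even_pow {θ : K → ℂ} (g : G)
    (h2 : ∀ k : K, θ (conjNormal K g (conjNormal K g k)) = θ k) (j : ℕ) (k : K) :
    θ (conjNormal K (g ^ (2 * j)) k) = θ k := by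
  induction j generalizing k with
  | zero =>
    have : conjNormal K (g ^ (2 * 0)) k = k := by
      apply Subtype.ext
      rw [conjNormal_coe]
      simp
    rw [this]
  | succ j ih =>
    have : conjNormal K (g ^ (2 * (j + 1))) k =
        conjNormal K (g ^ (2 * j)) (conjNormal K g (conjNormal K g k)) := by
      apply Subtype.ext
      simp only [conjNormal_coe]
      have e : g ^ (2 * (j + 1)) = g ^ (2 * j) * g * g := by
        rw [mul_add, pow_add, mul_one, pow_two, mul_assoc]
      rw [e]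
      group
    rw [this, ih, h2]

/-- The odd-index trick for characters: a character fixed by "conjugate by `g`, then complex
conjugate" is real and `g`-invariant when an odd power of `g` lies in `K`. -/
theorem twisted_iff {θ : K → ℂ} (hθ : Cfsg.IsClassFunction K θ) (g : G) {m : ℕ} (hm : Odd m)
    (hgm : g ^ m ∈ K) :
    (∀ k : K, conj (θ (conjNormal K g k)) = θ k) ↔
      ((∀ k : K, (θ k).im = 0) ∧ ∀ k : K, θ (conjNormal K g k) = θ k) := by
  constructor
  · intro h
    have h2 : ∀ k : K, θ (conjNormal K g (conjNormal K g k)) = θ k := by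
      intro k
      have e1 := h (conjNormal K g k)
      have e2 := h k
      rw [← e2, ← e1, Complex.conj_conj]
    obtain ⟨j, rfl⟩ := hm
    have h3 : ∀ k : K, θ (conjNormal K g k) = θ k := by
      intro k
      have e1 := inv_even_pow K g h2 j (conjNormal K g k)
      have e2 : conjNormal K (g ^ (2 * j)) (conjNormal K g k) =
          (⟨g ^ (2 * j + 1), hgm⟩ : K) * k * (⟨g ^ (2 * j + 1), hgm⟩ : K)⁻¹ := by
        apply Subtype.ext
        simp only [conjNormal_coe, Subgroup.coe_mul, Subgroup.coe_inv]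
        rw [pow_succ]
        group
      rw [e2, hθ k] at e1
      exact e1.symm
    refine ⟨fun k => ?_, h3⟩
    have e := h k
    rw [h3 k] at e
    exact Complex.conj_eq_iff_im.mp e
  · rintro ⟨hr, hinv⟩ k
    rw [hinv k]
    exact Complex.conj_eq_iff_im.mpr (hr k)

/-- The odd-index trick for elements: if `h k h⁻¹ = k⁻¹` for some `h ∈ G` and an odd power of
`h` lies in `K`, then `k` is real in `K`. -/
theorem real_of_inverted (k : K) (h : G) (hk : h * (k : G) * h⁻¹ = (k : G)⁻¹) {m : ℕ}
    (hm : Odd m) (hgm : h ^ m ∈ K) : IsConj k k⁻¹ := by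
  obtain ⟨j, rfl⟩ := hm
  have h2 : ∀ i : ℕ, h ^ (2 * i) * (k : G) * (h ^ (2 * i))⁻¹ = (k : G) := by
    intro i
    induction i with
    | zero => simp
    | succ i ih =>
      have e : h ^ (2 * (i + 1)) = h ^ (2 * i) * h * h := by
        rw [mul_add, pow_add, mul_one, pow_two, mul_assoc]
      rw [e]
      have e2 : h ^ (2 * i) * h * h * (k : G) * (h ^ (2 * i) * h * h)⁻¹ =
          h ^ (2 * i) * (h * (h * (k : G) * h⁻¹) * h⁻¹) * (h ^ (2 * i))⁻¹ := by group
      rw [e2, hk]
      have e3 : h * (k : G)⁻¹ * h⁻¹ = (h * (k : G) * h⁻¹)⁻¹ := by group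
      rw [e3, hk, inv_inv, ih]
  rw [isConj_iff]
  refine ⟨⟨h ^ (2 * j + 1), hgm⟩, ?_⟩
  apply Subtype.ext
  simp only [Subgroup.coe_mul, Subgroup.coe_inv]
  rw [pow_succ]
  have e2 : h ^ (2 * j) * h * (k : G) * (h ^ (2 * j) * h)⁻¹ =
      h ^ (2 * j) * (h * (k : G) * h⁻¹) * (h ^ (2 * j))⁻¹ := by group
  rw [e2, hk]
  have e3 : h ^ (2 * j) * (k : G)⁻¹ * (h ^ (2 * j))⁻¹ = (h ^ (2 * j) * (k : G) * (h ^ (2 * j))⁻¹)⁻¹ := by
    group
  rw [e3, h2 j]

end Cfsg.Agent.Lib.Helper25.RealOrbits
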