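import Mathlib
import Cfsg.Agent.Lib.Helper1.CharMisc
import Cfsg.Agent.Lib.Helper1.CharMore
import Cfsg.Agent.Lib.Helper1.CharInd
import Cfsg.Agent.Lib.Helper1.CharComplete
import Cfsg.Agent.Lib.Helper25.Brauer2
import Cfsg.Agent.Lib.Helper25.PrimeNormal
import Cfsg.Agent.Lib.Helper24.SelfCent2

/-!
# Characters of a group with a self-centralising subgroup of prime order

`G` is a finite group, `P` a subgroup of prime order `p` such that every element commuting with a
nontrivial element of `P` lies in `P`; `N = N_G(P)` and `Q = P` regarded as a subgroup of `N`.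

* `res_deg`, `res_vanish` : restriction of characters of `N` to `Q`;
* `transfer` : second orthogonality in `G` and in `N` agree on nontrivial elements of `P`;
* `norm_G` : `∑_{ψ ∈ Irr G} |[1 - η, ψ_Q]|² = |N : P| + 1`;
* `mult_bound` : `([χ_Q, 1] - [χ_Q, η])² ≤ |N : P|` for nonprincipal `χ ∈ Irr(G)`.
-/

set_option autoImplicit false
set_option linter.unusedSectionVars false
set_option linter.unusedVariables false

namespace Cfsg.Agent.Lib.Helper25.SelfCentChar

open Cfsg Cfsg.Agent.Lib.Helper1 Cfsg.Agent.Lib.Helper25.Brauer Cfsg.Agent.Lib.Helper25.PrimeNormal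
open scoped ComplexConjugate

universe u

section Xlevel

variable {X : Type u} [Group X] [Fintype X] (Q : Subgroup X) [hQn : Q.Normal] [Fintype Q] {p : ℕ}

/-- every irreducible character of `X` has degree `[ξ_Q, 1] + |X : Q| k`. -/
theorem irr_deg (hp : p.Prime) (hcard : Nat.card Q = p)
    (hsc : ∀ g : X, ∀ u ∈ Q, u ≠ 1 → g * u = u * g → g ∈ Q)
    {ξ : X → ℂ} (hξ : IsIrrCharacter X ξ) :
    ∃ k : ℕ, ξ 1 = classInner (fun u : Q => ξ u) (fun _ : Q => (1 : ℂ)) + ((Q.index * k : ℕ) : ℂ) := by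
  by_cases h0 : classInner (fun u : Q => ξ u) (fun _ : Q => (1 : ℂ)) = 0
  · obtain ⟨-, k, hk⟩ := typeE Q hp hcard hsc hξ h0
    exact ⟨k, by rw [h0, zero_add, hk]⟩
  · exact ⟨0, by rw [typeL Q hξ h0]; simp⟩

/-- every character of `X` has degree `[φ_Q, 1] + |X : Q| K`. -/
theorem res_deg (hp : p.Prime) (hcard : Nat.card Q = p)
    (hsc : ∀ g : X, ∀ u ∈ Q, u ≠ 1 → g * u = u * g → g ∈ Q)
    {φ : X → ℂ} (hφ : IsCharacter X φ) :
    ∃ K : ℕ, φ 1 = classInner (fun u : Q => φ u) (fun _ : Q => (1 : ℂ)) + ((Q.index * K : ℕ) : ℂ) := by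
  classical
  haveI : Fintype (IrrCharacter X) := irrFintype
  obtain ⟨m, hm1, hm2⟩ := IsCharacter.eq_sum_irr hφ
  have hk : ∀ ξ : IrrCharacter X, ∃ k : ℕ, (ξ : X → ℂ) 1 =
      classInner (fun u : Q => (ξ : X → ℂ) u) (fun _ : Q => (1 : ℂ)) + ((Q.index * k : ℕ) : ℂ) :=
    fun ξ => irr_deg Q hp hcard hsc ξ.2
  choose k hk using hk
  refine ⟨∑ ξ : IrrCharacter X, m ξ * k ξ, ?_⟩
  have hres : (fun u : Q => φ u) =
      ∑ ξ : IrrCharacter X, (m ξ : ℂ) • (fun u : Q => (ξ : X → ℂ) u) := by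
    funext u
    conv_lhs => rw [hm2]
    simp only [Finset.sum_apply, Pi.smul_apply]
  rw [hres, classInner_sum_left]
  conv_lhs => rw [hm2]
  simp only [Finset.sum_apply, Pi.smul_apply, smul_eq_mul, classInner_smul_left]
  rw [Finset.sum_congr rfl (fun ξ _ => by rw [hk ξ])]
  push_cast
  rw [Finset.mul_sum, ← Finset.sum_add_distrib]
  apply Finset.sum_congr rfl
  intro ξ _
  ring

/-- a character of `X` whose restriction to `Q` does not contain the principal character
vanishes off `Q`. -/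
theorem res_vanish (hp : p.Prime) (hcard : Nat.card Q = p)
    (hsc : ∀ g : X, ∀ u ∈ Q, u ≠ 1 → g * u = u * g → g ∈ Q)
    {φ : X → ℂ} (hφ : IsCharacter X φ)
    (h0 : classInner (fun u : Q => φ u) (fun _ : Q => (1 : ℂ)) = 0) (g : X) (hg : g ∉ Q) :
    φ g = 0 := by
  classical
  haveI : Fintype (IrrCharacter X) := irrFintype
  obtain ⟨m, hm1, hm2⟩ := IsCharacter.eq_sum_irr hφ
  have hres : (fun u : Q => φ u) =
      ∑ ξ : IrrCharacter X, (m ξ : ℂ) • (fun u : Q => (ξ : X → ℂ) u) := by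
    funext u
    conv_lhs => rw [hm2]
    simp only [Finset.sum_apply, Pi.smul_apply]
  have hn : ∀ ξ : IrrCharacter X, ∃ e : ℕ,
      classInner (fun u : Q => (ξ : X → ℂ) u) (fun _ : Q => (1 : ℂ)) = (e : ℂ) := fun ξ =>
    IsCharacter.classInner_irr_nat (IsCharacter.restrict (IsIrrCharacter.isCharacter ξ.2) Q)
      isIrrCharacter_one
  choose e he using hn
  rw [hres, classInner_sum_left] at h0
  simp only [classInner_smul_left, he] at h0
  have h0' : ∑ ξ : IrrCharacter X, m ξ * e ξ = 0 := by exact_mod_cast h0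
  have hz : ∀ ξ : IrrCharacter X, m ξ * e ξ = 0 := by
    intro ξ
    exact (Finset.sum_eq_zero_iff.mp h0') ξ (Finset.mem_univ ξ)
  rw [hm2]
  simp only [Finset.sum_apply, Pi.smul_apply, smul_eq_mul]
  apply Finset.sum_eq_zero
  intro ξ _
  rcases Nat.mul_eq_zero.mp (hz ξ) with h | h
  · rw [h]; simp
  · have h1 : classInner (fun u : Q => (ξ : X → ℂ) u) (fun _ : Q => (1 : ℂ)) = 0 := by
      rw [he, h]; simp
    rw [(typeE Q hp hcard hsc ξ.2 h1).1 g hg, mul_zero]

/-- the number of irreducible characters of a group of prime order -/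
theorem card_irr (hp : p.Prime) (hcard : Nat.card Q = p) [Fintype (IrrCharacter Q)] :
    Fintype.card (IrrCharacter Q) = p := by
  have h := sum_sq_degrees (G := Q)
  rw [Finset.sum_congr rfl (fun η _ => by rw [irr_linear Q hp hcard η.2, one_pow]), hcard] at h
  simp only [Finset.sum_const, Finset.card_univ, nsmul_eq_mul, mul_one] at h
  exact_mod_cast h

/-- the degree of a character of `Q` is the sum of its multiplicities -/
theorem deg_sum (hp : p.Prime) (hcard : Nat.card Q = p) [Fintype (IrrCharacter Q)]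
    {φ : Q → ℂ} (hφ : IsCharacter Q φ) :
    φ 1 = ∑ η : IrrCharacter Q, classInner φ (η : Q → ℂ) := by
  obtain ⟨m, hm1, hm2⟩ := IsCharacter.eq_sum_irr hφ
  conv_lhs => rw [hm2]
  simp only [Finset.sum_apply, Pi.smul_apply, smul_eq_mul]
  apply Finset.sum_congr rfl
  intro η _
  rw [irr_linear Q hp hcard η.2, mul_one, hm1]

end Xlevel

/-- expansion of `∑_i |[θ, f_i]|²` as a double sum -/
theorem sum_norm_eq {Q : Type u} [Group Q] [Fintype Q] {I : Type*} [Fintype I] (θ : Q → ℂ)
    (f : I → Q → ℂ) :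
    ∑ i, classInner θ (f i) * conj (classInner θ (f i)) =
      (Nat.card Q : ℂ)⁻¹ * (Nat.card Q : ℂ)⁻¹ *
        ∑ u, ∑ v, θ u * conj (θ v) * ∑ i, f i v * conj (f i u) := by
  unfold classInner
  simp only [map_mul, map_sum, map_inv₀, Complex.conj_natCast, Complex.conj_conj]
  have h1 : ∀ i, (Nat.card Q : ℂ)⁻¹ * (∑ u, θ u * conj (f i u)) *
      ((Nat.card Q : ℂ)⁻¹ * ∑ v, conj (θ v) * f i v) =
      (Nat.card Q : ℂ)⁻¹ * (Nat.card Q : ℂ)⁻¹ *
        ∑ u, ∑ v, θ u * conj (θ v) * (f i v * conj (f i u)) := by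
    intro i
    rw [mul_mul_mul_comm, Finset.sum_mul_sum]
    congr 1
    apply Finset.sum_congr rfl
    intro u _
    apply Finset.sum_congr rfl
    intro v _
    ring
  rw [Finset.sum_congr rfl (fun i _ => h1 i), ← Finset.mul_sum, Finset.sum_comm]
  congr 1
  apply Finset.sum_congr rfl
  intro u _
  rw [Finset.sum_comm]
  apply Finset.sum_congr rfl
  intro v _
  rw [Finset.mul_sum]

section Glevel

variable {G : Type u} [Group G] [Fintype G] (P : Subgroup G) {p : ℕ}

theorem comm_P (hp : p.Prime) (hcard : Nat.card P = p) {a b : G} (ha : a ∈ P) (hb : b ∈ P) :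
    a * b = b * a := by
  haveI : Fact p.Prime := ⟨hp⟩
  haveI : IsCyclic P := isCyclic_of_prime_card hcard
  have h := (IsCyclic.commGroup (α := P)).mul_comm ⟨a, ha⟩ ⟨b, hb⟩
  exact congrArg Subtype.val h

theorem card_Q (hcard : Nat.card P = p) :
    Nat.card (P.subgroupOf (Subgroup.normalizer (P : Set G))) = p := by
  rw [Nat.card_congr (Subgroup.subgroupOfEquivOfLe (Subgroup.le_normalizer)).toEquiv, hcard]

theorem sc_Q (hsc : ∀ g : G, ∀ u ∈ P, u ≠ 1 → g * u = u * g → g ∈ P) :
    ∀ g : Subgroup.normalizer (P : Set G), ∀ u ∈ P.subgroupOf (Subgroup.normalizer (P : Set G)),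
      u ≠ 1 → g * u = u * g → g ∈ P.subgroupOf (Subgroup.normalizer (P : Set G)) := by
  intro g u hu hu1 hcomm
  rw [Subgroup.mem_subgroupOf] at hu ⊢
  apply hsc (g : G) (u : G) hu
  · intro h
    apply hu1
    exact Subtype.ext h
  · exact congrArg Subtype.val hcomm

theorem centralizer_G (hp : p.Prime) (hcard : Nat.card P = p)
    (hsc : ∀ g : G, ∀ u ∈ P, u ≠ 1 → g * u = u * g → g ∈ P) {u : G} (hu : u ∈ P) (hu1 : u ≠ 1) :
    Subgroup.centralizer ({u} : Set G) = P := by
  apply le_antisymm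
  · intro w hw
    rw [Subgroup.mem_centralizer_singleton_iff] at hw
    exact hsc w u hu hu1 hw
  · intro w hw
    rw [Subgroup.mem_centralizer_singleton_iff]
    exact comm_P P hp hcard hw hu

theorem centralizer_N (hp : p.Prime) (hcard : Nat.card P = p)
    (hsc : ∀ g : G, ∀ u ∈ P, u ≠ 1 → g * u = u * g → g ∈ P)
    {u : Subgroup.normalizer (P : Set G)} (hu : (u : G) ∈ P) (hu1 : u ≠ 1) :
    Subgroup.centralizer ({u} : Set (Subgroup.normalizer (P : Set G))) =
      P.subgroupOf (Subgroup.normalizer (P : Set G)) := by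
  apply le_antisymm
  · intro w hw
    rw [Subgroup.mem_centralizer_singleton_iff] at hw
    exact sc_Q P hsc w u (Subgroup.mem_subgroupOf.mpr hu) hu1 hw
  · intro w hw
    rw [Subgroup.mem_centralizer_singleton_iff]
    rw [Subgroup.mem_subgroupOf] at hw
    exact Subtype.ext (comm_P P hp hcard hw hu)

theorem conj_iff (hp : p.Prime) (hcard : Nat.card P = p)
    {u v : Subgroup.normalizer (P : Set G)} (hu : (u : G) ∈ P) (hv : (v : G) ∈ P) (hu1 : u ≠ 1)
    (hv1 : v ≠ 1) : IsConj (u : G) (v : G) ↔ IsConj u v := by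
  constructor
  · intro h
    obtain ⟨g, hg⟩ := isConj_iff.mp h
    have hu1' : (u : G) ≠ 1 := fun h => hu1 (Subtype.ext h)
    have hv1' : (v : G) ≠ 1 := fun h => hv1 (Subtype.ext h)
    have hzu := (Cfsg.Agent.Lib.Helper24.SelfCent.gen_of_card hp hcard hu hu1').2
    have hzv := (Cfsg.Agent.Lib.Helper24.SelfCent.gen_of_card hp hcard hv hv1').2
    have hgN : g ∈ Subgroup.normalizer (P : Set G) := by
      rw [Subgroup.mem_normalizer_iff]
      intro w
      constructor
      · intro hw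
        rw [← hzu] at hw
        obtain ⟨k, rfl⟩ := Subgroup.mem_zpowers_iff.mp hw
        rw [← conj_zpow, hg]
        exact Subgroup.zpow_mem _ hv k
      · intro hw
        rw [← hzv] at hw
        obtain ⟨k, hk⟩ := Subgroup.mem_zpowers_iff.mp hw
        rw [← hg, conj_zpow] at hk
        have h2 : (u : G) ^ k = w := mul_left_cancel (mul_right_cancel hk)
        rw [← h2]
        exact Subgroup.zpow_mem _ hu k
    exact isConj_iff.mpr ⟨⟨g, hgN⟩, Subtype.ext hg⟩
  · intro h
    obtain ⟨g, hg⟩ := isConj_iff.mp h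
    exact isConj_iff.mpr ⟨(g : G), congrArg Subtype.val hg⟩

/-- second orthogonality in `G` and in `N_G(P)` agree on nontrivial elements of `P` -/
theorem transfer (hp : p.Prime) (hcard : Nat.card P = p)
    (hsc : ∀ g : G, ∀ u ∈ P, u ≠ 1 → g * u = u * g → g ∈ P)
    [Fintype (IrrCharacter G)] [Fintype (Subgroup.normalizer (P : Set G))]
    [Fintype (IrrCharacter (Subgroup.normalizer (P : Set G)))]
    {u v : Subgroup.normalizer (P : Set G)} (hu : (u : G) ∈ P) (hv : (v : G) ∈ P) (hu1 : u ≠ 1)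
    (hv1 : v ≠ 1) :
    ∑ ψ : IrrCharacter G, (ψ : G → ℂ) u * conj ((ψ : G → ℂ) v) =
      ∑ ξ : IrrCharacter (Subgroup.normalizer (P : Set G)),
        (ξ : Subgroup.normalizer (P : Set G) → ℂ) u *
          conj ((ξ : Subgroup.normalizer (P : Set G) → ℂ) v) := by
  classical
  rw [col_orth, col_orth]
  have hu1' : (u : G) ≠ 1 := fun h => hu1 (Subtype.ext h)
  rw [centralizer_G P hp hcard hsc hu hu1', centralizer_N P hp hcard hsc hu hu1, card_Q P hcard,
    hcard]
  by_cases h : IsConj u v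
  · rw [if_pos h, if_pos ((conj_iff P hp hcard hu hv hu1 hv1).mpr h)]
  · rw [if_neg h, if_neg (fun h' => h ((conj_iff P hp hcard hu hv hu1 hv1).mp h'))]

/-- `∑_{ψ ∈ Irr G} |[1 - η, ψ_Q]|² = |N : P| + 1` -/
theorem norm_G (hp : p.Prime) (hcard : Nat.card P = p)
    (hsc : ∀ g : G, ∀ u ∈ P, u ≠ 1 → g * u = u * g → g ∈ P)
    [Fintype (IrrCharacter G)] [Fintype (Subgroup.normalizer (P : Set G))]
    [Fintype (P.subgroupOf (Subgroup.normalizer (P : Set G)))]
    {η : P.subgroupOf (Subgroup.normalizer (P : Set G)) → ℂ}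
    (hη : IsIrrCharacter (P.subgroupOf (Subgroup.normalizer (P : Set G))) η)
    (hne : η ≠ fun _ => 1) :
    ∑ ψ : IrrCharacter G,
        classInner ((fun _ : P.subgroupOf (Subgroup.normalizer (P : Set G)) => (1 : ℂ)) - η)
            (fun u : P.subgroupOf (Subgroup.normalizer (P : Set G)) =>
              (ψ : G → ℂ) ((u : Subgroup.normalizer (P : Set G)) : G)) *
          conj (classInner
            ((fun _ : P.subgroupOf (Subgroup.normalizer (P : Set G)) => (1 : ℂ)) - η)
            (fun u : P.subgroupOf (Subgroup.normalizer (P : Set G)) =>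
              (ψ : G → ℂ) ((u : Subgroup.normalizer (P : Set G)) : G))) =
      ((P.subgroupOf (Subgroup.normalizer (P : Set G))).index : ℂ) + 1 := by
  classical
  haveI : Fintype (IrrCharacter (Subgroup.normalizer (P : Set G))) := irrFintype
  haveI := Subgroup.normal_in_normalizer (H := P)
  have hcQ := card_Q P hcard
  rw [← norm_id (P.subgroupOf (Subgroup.normalizer (P : Set G))) hp hcQ (sc_Q P hsc) hη hne]
  rw [sum_norm_eq, sum_norm_eq]
  congr 1
  apply Finset.sum_congr rfl
  intro u _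
  apply Finset.sum_congr rfl
  intro v _
  have h1 : ((fun _ : P.subgroupOf (Subgroup.normalizer (P : Set G)) => (1 : ℂ)) - η) 1 = 0 := by
    rw [Pi.sub_apply, irr_linear _ hp hcQ hη, sub_self]
  by_cases hu : u = 1
  · rw [hu, h1, zero_mul, zero_mul, zero_mul]
  by_cases hv : v = 1
  · rw [hv, h1, map_zero, mul_zero, zero_mul, zero_mul]
  congr 1
  exact transfer P hp hcard hsc (Subgroup.mem_subgroupOf.mp v.2) (Subgroup.mem_subgroupOf.mp u.2)
    (fun h => hv (Subtype.ext h)) (fun h => hu (Subtype.ext h))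

/-- for a nonprincipal irreducible character `χ` of `G` and a nonprincipal `η ∈ Irr(Q)`:
`([χ_Q, 1] - [χ_Q, η])² ≤ |N : P|` -/
theorem mult_bound (hp : p.Prime) (hcard : Nat.card P = p)
    (hsc : ∀ g : G, ∀ u ∈ P, u ≠ 1 → g * u = u * g → g ∈ P)
    [Fintype (Subgroup.normalizer (P : Set G))]
    [Fintype (P.subgroupOf (Subgroup.normalizer (P : Set G)))]
    {η : P.subgroupOf (Subgroup.normalizer (P : Set G)) → ℂ}
    (hη : IsIrrCharacter (P.subgroupOf (Subgroup.normalizer (P : Set G))) η)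
    (hne : η ≠ fun _ => 1) {χ : G → ℂ} (hχ : IsIrrCharacter G χ) (hχ1 : χ ≠ fun _ => 1)
    (a b : ℕ)
    (ha : classInner (fun u : P.subgroupOf (Subgroup.normalizer (P : Set G)) =>
        χ ((u : Subgroup.normalizer (P : Set G)) : G)) (fun _ => (1 : ℂ)) = a)
    (hb : classInner (fun u : P.subgroupOf (Subgroup.normalizer (P : Set G)) =>
        χ ((u : Subgroup.normalizer (P : Set G)) : G)) η = b) :
    ((a : ℤ) - b) ^ 2 ≤ (P.subgroupOf (Subgroup.normalizer (P : Set G))).index := by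
  classical
  haveI : Fintype (IrrCharacter G) := irrFintype
  have hsum := norm_G P hp hcard hsc hη hne
  obtain ⟨c, hc⟩ : ∃ c : IrrCharacter G → ℂ, c = fun ψ : IrrCharacter G =>
      classInner ((fun _ : P.subgroupOf (Subgroup.normalizer (P : Set G)) => (1 : ℂ)) - η)
        (fun u : P.subgroupOf (Subgroup.normalizer (P : Set G)) =>
          (ψ : G → ℂ) ((u : Subgroup.normalizer (P : Set G)) : G)) := ⟨_, rfl⟩
  have hsum' : ∑ ψ : IrrCharacter G, c ψ * conj (c ψ) =
      ((P.subgroupOf (Subgroup.normalizer (P : Set G))).index : ℂ) + 1 := by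
    rw [hc]; exact hsum
  have hre : ∑ ψ : IrrCharacter G, Complex.normSq (c ψ) =
      ((P.subgroupOf (Subgroup.normalizer (P : Set G))).index : ℝ) + 1 := by
    have h1 : ((∑ ψ : IrrCharacter G, Complex.normSq (c ψ) : ℝ) : ℂ) =
        ((((P.subgroupOf (Subgroup.normalizer (P : Set G))).index : ℝ) + 1 : ℝ) : ℂ) := by
      push_cast
      rw [← hsum']
      apply Finset.sum_congr rfl
      intro ψ _
      rw [Complex.mul_conj]
    exact_mod_cast h1
  have hone : IsIrrCharacter (P.subgroupOf (Subgroup.normalizer (P : Set G)))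
      (fun _ => (1 : ℂ)) := isIrrCharacter_one
  have hc1 : c ⟨fun _ => 1, isIrrCharacter_one⟩ = 1 := by
    rw [hc]
    show classInner ((fun _ : P.subgroupOf (Subgroup.normalizer (P : Set G)) => (1 : ℂ)) - η)
      (fun _ => (1 : ℂ)) = 1
    rw [classInner_sub_left, classInner_irr_self hone, classInner_irr_ne hη hone hne, sub_zero]
  have hcχ : c ⟨χ, hχ⟩ = (a : ℂ) - b := by
    rw [hc]
    show classInner ((fun _ : P.subgroupOf (Subgroup.normalizer (P : Set G)) => (1 : ℂ)) - η)
      (fun u : P.subgroupOf (Subgroup.normalizer (P : Set G)) =>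
        χ ((u : Subgroup.normalizer (P : Set G)) : G)) = _
    rw [classInner_sub_left, ← classInner_conj_symm _ (fun _ => (1 : ℂ)), ha,
      ← classInner_conj_symm _ η, hb, Complex.conj_natCast, Complex.conj_natCast]
  have hle : Complex.normSq (c ⟨fun _ => 1, isIrrCharacter_one⟩) + Complex.normSq (c ⟨χ, hχ⟩) ≤
      ∑ ψ : IrrCharacter G, Complex.normSq (c ψ) := by
    have hne2 : (⟨fun _ => 1, isIrrCharacter_one⟩ : IrrCharacter G) ≠ ⟨χ, hχ⟩ := by
      intro h
      exact hχ1 (congrArg Subtype.val h).symm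
    calc Complex.normSq (c ⟨fun _ => 1, isIrrCharacter_one⟩) + Complex.normSq (c ⟨χ, hχ⟩)
        = ∑ ψ ∈ ({⟨fun _ => 1, isIrrCharacter_one⟩, ⟨χ, hχ⟩} : Finset (IrrCharacter G)),
            Complex.normSq (c ψ) :=
          (Finset.sum_pair (f := fun ψ : IrrCharacter G => Complex.normSq (c ψ)) hne2).symm
      _ ≤ _ := Finset.sum_le_sum_of_subset_of_nonneg (Finset.subset_univ _)
          (fun i _ _ => Complex.normSq_nonneg _)
  rw [hre, hc1, hcχ] at hle
  have h2 : Complex.normSq ((a : ℂ) - b) = ((a : ℝ) - b) ^ 2 := by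
    have h3 : ((a : ℂ) - b) = (((a : ℝ) - b : ℝ) : ℂ) := by push_cast; ring
    rw [h3, Complex.normSq_ofReal]; ring
  rw [h2, map_one] at hle
  have h3 : ((a : ℝ) - b) ^ 2 ≤
      ((P.subgroupOf (Subgroup.normalizer (P : Set G))).index : ℝ) := by linarith
  exact_mod_cast h3

/-- If `2 ≤ |N : P|` divides `p - 1`, an irreducible character of `G` of degree `p - 1`
vanishes on `N ∖ P`. -/
theorem vanish_of_degree (hp : p.Prime) (hcard : Nat.card P = p)
    (hsc : ∀ g : G, ∀ u ∈ P, u ≠ 1 → g * u = u * g → g ∈ P)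
    (hq2 : 2 ≤ (P.subgroupOf (Subgroup.normalizer (P : Set G))).index)
    (hqd : (P.subgroupOf (Subgroup.normalizer (P : Set G))).index ∣ p - 1)
    {χ : G → ℂ} (hχ : IsIrrCharacter G χ) (hdeg : χ 1 = ((p - 1 : ℕ) : ℂ))
    (g : G) (hgN : g ∈ Subgroup.normalizer (P : Set G)) (hgP : g ∉ P) : χ g = 0 := by
  classical
  haveI : Fintype (Subgroup.normalizer (P : Set G)) := Fintype.ofFinite _
  haveI : Fintype (P.subgroupOf (Subgroup.normalizer (P : Set G))) := Fintype.ofFinite _
  haveI : Fintype (IrrCharacter (P.subgroupOf (Subgroup.normalizer (P : Set G)))) := irrFintype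
  haveI := Subgroup.normal_in_normalizer (H := P)
  have hcQ := card_Q P hcard
  have hscQ := sc_Q P hsc
  obtain ⟨q, hq⟩ : ∃ q, q = (P.subgroupOf (Subgroup.normalizer (P : Set G))).index := ⟨_, rfl⟩
  rw [← hq] at hq2 hqd
  obtain ⟨P1, hP1⟩ : ∃ P1 : ℕ, P1 = p - 1 := ⟨_, rfl⟩
  rw [← hP1] at hqd hdeg
  have hP1pos : 0 < P1 := by have := hp.two_le; omega
  have hP12 : 2 ≤ P1 := le_trans hq2 (Nat.le_of_dvd hP1pos hqd)
  have hχ1 : χ ≠ fun _ => 1 := by
    intro h
    rw [h] at hdeg
    have h0 : (1 : ℂ) = (P1 : ℂ) := hdeg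
    have h1 : (1 : ℕ) = P1 := by exact_mod_cast h0
    omega
  have hresN : IsCharacter (Subgroup.normalizer (P : Set G))
      (fun n : Subgroup.normalizer (P : Set G) => χ n) :=
    IsCharacter.restrict (IsIrrCharacter.isCharacter hχ) _
  have hresQ : IsCharacter (P.subgroupOf (Subgroup.normalizer (P : Set G)))
      (fun u : P.subgroupOf (Subgroup.normalizer (P : Set G)) =>
        χ ((u : Subgroup.normalizer (P : Set G)) : G)) :=
    IsCharacter.restrict hresN _
  have hb : ∀ η : IrrCharacter (P.subgroupOf (Subgroup.normalizer (P : Set G))), ∃ b : ℕ,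
      classInner (fun u : P.subgroupOf (Subgroup.normalizer (P : Set G)) =>
        χ ((u : Subgroup.normalizer (P : Set G)) : G))
        (η : P.subgroupOf (Subgroup.normalizer (P : Set G)) → ℂ) = b :=
    fun η => IsCharacter.classInner_irr_nat hresQ η.2
  choose b hb using hb
  obtain ⟨η₀, hη₀⟩ : ∃ η₀ : IrrCharacter (P.subgroupOf (Subgroup.normalizer (P : Set G))),
      η₀ = ⟨fun _ => 1, isIrrCharacter_one⟩ := ⟨_, rfl⟩
  have ha : classInner (fun u : P.subgroupOf (Subgroup.normalizer (P : Set G)) =>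
        χ ((u : Subgroup.normalizer (P : Set G)) : G)) (fun _ => (1 : ℂ)) = (b η₀ : ℂ) := by
    rw [← hb η₀, hη₀]
  have hdegsum : ∑ η : IrrCharacter (P.subgroupOf (Subgroup.normalizer (P : Set G))), b η = P1 := by
    have h1 := deg_sum (P.subgroupOf (Subgroup.normalizer (P : Set G))) hp hcQ hresQ
    have h2 : χ 1 = ∑ η : IrrCharacter (P.subgroupOf (Subgroup.normalizer (P : Set G))),
        classInner (fun u : P.subgroupOf (Subgroup.normalizer (P : Set G)) =>
          χ ((u : Subgroup.normalizer (P : Set G)) : G))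
          (η : P.subgroupOf (Subgroup.normalizer (P : Set G)) → ℂ) := h1
    rw [hdeg, Finset.sum_congr rfl (fun η _ => hb η)] at h2
    exact_mod_cast h2.symm
  obtain ⟨K, hK⟩ := res_deg (P.subgroupOf (Subgroup.normalizer (P : Set G))) hp hcQ hscQ hresN
  have hK' : P1 = b η₀ + q * K := by
    have h1 : χ 1 = classInner (fun u : P.subgroupOf (Subgroup.normalizer (P : Set G)) =>
        χ ((u : Subgroup.normalizer (P : Set G)) : G)) (fun _ => (1 : ℂ)) +
        (((P.subgroupOf (Subgroup.normalizer (P : Set G))).index * K : ℕ) : ℂ) := hK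
    rw [hdeg, ← hq, ha] at h1
    exact_mod_cast h1
  have hbound : ∀ η : IrrCharacter (P.subgroupOf (Subgroup.normalizer (P : Set G))), η ≠ η₀ →
      2 * b η₀ ≤ 2 * b η + q := by
    intro η hη
    have hne : (η : P.subgroupOf (Subgroup.normalizer (P : Set G)) → ℂ) ≠ fun _ => 1 := by
      intro h
      apply hη
      rw [hη₀]
      exact Subtype.ext h
    have h1 := mult_bound P hp hcard hsc η.2 hne hχ hχ1 (b η₀) (b η) ha (hb η)
    rw [← hq] at h1
    by_contra hcon
    have h2 : (q : ℤ) < 2 * ((b η₀ : ℤ) - b η) := by omega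
    have h3 : (2 : ℤ) ≤ q := by exact_mod_cast hq2
    nlinarith
  have hsumb : 2 * b η₀ * P1 + 2 * b η₀ ≤ 2 * P1 + q * P1 := by
    have h1 : ∑ η ∈ Finset.univ.erase η₀, 2 * b η₀ ≤
        ∑ η ∈ Finset.univ.erase η₀, (2 * b η + q) :=
      Finset.sum_le_sum (fun η hη => hbound η (Finset.ne_of_mem_erase hη))
    have hce : (Finset.univ.erase η₀).card = P1 := by
      rw [Finset.card_erase_of_mem (Finset.mem_univ _), Finset.card_univ,
        card_irr (P.subgroupOf (Subgroup.normalizer (P : Set G))) hp hcQ, hP1]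
    rw [Finset.sum_const, Finset.sum_add_distrib, ← Finset.mul_sum, Finset.sum_const, hce,
      smul_eq_mul, smul_eq_mul] at h1
    have h2 : b η₀ + ∑ η ∈ Finset.univ.erase η₀, b η = P1 := by
      rw [Finset.add_sum_erase _ _ (Finset.mem_univ _)]; exact hdegsum
    have h3 : 2 * (b η₀ + ∑ η ∈ Finset.univ.erase η₀, b η) = 2 * P1 := by rw [h2]
    nlinarith
  have hzero : b η₀ = 0 := by
    obtain ⟨t, ht⟩ := hqd
    by_contra hne
    have hqb : q ≤ b η₀ := by
      have h1 : q ∣ b η₀ := by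
        have h2 : q ∣ b η₀ + q * K := by rw [← hK', ht]; exact dvd_mul_right _ _
        exact (Nat.dvd_add_left (dvd_mul_right q K)).mp h2
      exact Nat.le_of_dvd (Nat.pos_of_ne_zero hne) h1
    nlinarith [Nat.mul_le_mul_right P1 hqb, Nat.mul_le_mul_right P1 hq2]
  have h0 : classInner (fun u : P.subgroupOf (Subgroup.normalizer (P : Set G)) =>
      (fun n : Subgroup.normalizer (P : Set G) => χ n) u) (fun _ => (1 : ℂ)) = 0 := by
    have h1 := ha
    rw [hzero] at h1
    rw [h1]; simp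
  exact res_vanish (P.subgroupOf (Subgroup.normalizer (P : Set G))) hp hcQ hscQ hresN h0 ⟨g, hgN⟩
    (by rw [Subgroup.mem_subgroupOf]; exact hgP)

end Glevel

/-- In `N_G(⟨x⟩)` (`x` of odd prime order with `C_G(x) = ⟨x⟩`) there is an element `y` whose
order is the full power of `2` dividing `|N : ⟨x⟩|` and whose nontrivial powers lie outside
`⟨x⟩`. -/
theorem exists_two_elt {G : Type u} [Group G] [Finite G] {p : ℕ} (hp : p.Prime) (hp2 : p ≠ 2)
    {x : G} (hx : orderOf x = p)
    (hC : Subgroup.centralizer ({x} : Set G) = Subgroup.zpowers x) :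
    ∃ y ∈ Subgroup.normalizer (Subgroup.zpowers x : Set G), ∃ m r : ℕ, orderOf y = m ∧
      (Subgroup.zpowers x).relIndex (Subgroup.normalizer (Subgroup.zpowers x : Set G)) = m * r ∧
      Odd r ∧ ∀ i : ℕ, y ^ i ≠ 1 → y ^ i ∉ Subgroup.zpowers x := by
  classical
  haveI : Fact p.Prime := ⟨hp⟩
  haveI : Fact (Nat.Prime 2) := ⟨Nat.prime_two⟩
  have hcardN := Cfsg.Agent.Lib.Helper24.SelfCent.card_normalizer (G := G) hx
  obtain ⟨N, hN⟩ : ∃ N : Subgroup G, N = Subgroup.normalizer (Subgroup.zpowers x : Set G) :=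
    ⟨_, rfl⟩
  rw [← hN] at hcardN ⊢
  have hex : ∀ n : N, ∃ k : ℤ, x ^ k = (n : G) * x * (n : G)⁻¹ := by
    intro n
    have hn : (n : G) ∈ Subgroup.normalizer (Subgroup.zpowers x : Set G) := by
      rw [← hN]; exact n.2
    exact Subgroup.mem_zpowers_iff.mp
      ((Subgroup.mem_normalizer_iff.mp hn x).mp (Subgroup.mem_zpowers x))
  choose k hk using hex
  have hkey : ∀ n : N, ∀ j : ℤ, (n : G) * x * (n : G)⁻¹ = x ^ j →
      ((k n : ℤ) : ZMod p) = (j : ZMod p) := by
    intro n j hj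
    rw [ZMod.intCast_eq_intCast_iff]
    have h1 := (hk n).trans hj
    rw [zpow_eq_zpow_iff_modEq, hx] at h1
    exact h1
  obtain ⟨κ, hκ⟩ : ∃ κ : N →* ZMod p, ∀ n, κ n = ((k n : ℤ) : ZMod p) := by
    refine ⟨{ toFun := fun n => ((k n : ℤ) : ZMod p), map_one' := ?_, map_mul' := ?_ },
      fun n => rfl⟩
    · have h1 := hkey 1 1 (by simp)
      rw [h1]; simp
    · intro a b
      have h1 := hkey (a * b) (k a * k b) (by
        rw [zpow_mul, hk a, conj_zpow, hk b]
        simp only [Subgroup.coe_mul, mul_inv_rev]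
        group)
      rw [h1]; push_cast; ring
  obtain ⟨S⟩ : Nonempty (Sylow 2 N) := inferInstance
  have hcop2 : Nat.Coprime (Nat.card S) p := by
    obtain ⟨e, he⟩ := (IsPGroup.iff_card).mp S.isPGroup'
    rw [he]
    apply Nat.Coprime.pow_left
    rw [Nat.coprime_primes Nat.prime_two hp]
    exact fun h => hp2 h.symm
  have hcop : ∀ w : G, w ∈ Subgroup.zpowers x → w ^ Nat.card S = 1 → w = 1 := by
    intro w hw hw2
    have h1 : w ^ p = 1 := by
      obtain ⟨j, rfl⟩ := Subgroup.mem_zpowers_iff.mp hw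
      rw [← zpow_natCast, ← zpow_mul, mul_comm, zpow_mul, zpow_natCast, ← hx, pow_orderOf_eq_one,
        one_zpow]
    have h2 : orderOf w ∣ Nat.gcd (Nat.card S) p :=
      Nat.dvd_gcd (orderOf_dvd_of_pow_eq_one hw2) (orderOf_dvd_of_pow_eq_one h1)
    rw [hcop2, Nat.dvd_one] at h2
    exact orderOf_eq_one_iff.mp h2
  have hinj : Function.Injective (κ.comp (S : Subgroup N).subtype) := by
    intro s s' h
    have h1 : κ (s : N) = κ (s' : N) := h
    rw [hκ, hκ, ZMod.intCast_eq_intCast_iff, ← hx, ← zpow_eq_zpow_iff_modEq, hk, hk] at h1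
    have hw1 : (((s' : N) : G)⁻¹ * ((s : N) : G)) * x * (((s' : N) : G)⁻¹ * ((s : N) : G))⁻¹ = x := by
      calc (((s' : N) : G)⁻¹ * ((s : N) : G)) * x * (((s' : N) : G)⁻¹ * ((s : N) : G))⁻¹
          = ((s' : N) : G)⁻¹ * (((s : N) : G) * x * ((s : N) : G)⁻¹) * ((s' : N) : G) := by group
        _ = ((s' : N) : G)⁻¹ * (((s' : N) : G) * x * ((s' : N) : G)⁻¹) * ((s' : N) : G) := by
            rw [h1]
        _ = x := by group
    have hw2 : ((s' : N) : G)⁻¹ * ((s : N) : G) ∈ Subgroup.zpowers x :=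
      Cfsg.Agent.Lib.Helper24.SelfCent.mem_zp_of_comm hC hw1
    have hw3 : (((s' : N) : G)⁻¹ * ((s : N) : G)) ^ Nat.card S = 1 := by
      have h3 : (s'⁻¹ * s) ^ Nat.card S = 1 := pow_card_eq_one'
      have h5 : (((s'⁻¹ * s : S) : N) : G) ^ Nat.card S = 1 := by
        rw [← Subgroup.coe_pow, ← Subgroup.coe_pow, h3]
        rfl
      exact h5
    have hw4 := hcop _ hw2 hw3
    apply Subtype.ext
    apply Subtype.ext
    exact (inv_mul_eq_one.mp hw4).symm
  haveI : IsCyclic S := isCyclic_of_injective_ringHom (κ.comp (S : Subgroup N).subtype) hinj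
  obtain ⟨g, hg⟩ := IsCyclic.exists_generator (α := S)
  have hord : orderOf g = Nat.card S := orderOf_eq_card_of_forall_mem_zpowers hg
  have hordy : orderOf (((g : N) : G)) = Nat.card S := by
    rw [Subgroup.orderOf_coe, Subgroup.orderOf_coe, hord]
  have hdvd : Nat.card S ∣ (Subgroup.zpowers x).relIndex N := by
    have h1 : Nat.card S ∣ Nat.card N := Subgroup.card_subgroup_dvd_card _
    rw [hcardN, mul_comm] at h1
    exact Nat.Coprime.dvd_of_dvd_mul_right hcop2 h1
  obtain ⟨r, hr⟩ := hdvd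
  refine ⟨((g : N) : G), (g : N).2, Nat.card S, r, hordy, hr, ?_, ?_⟩
  · have h1 := Subgroup.card_mul_index (S : Subgroup N)
    rw [hcardN, hr] at h1
    have h2 : (S : Subgroup N).index = p * r := by
      have h3 : Nat.card S * (S : Subgroup N).index = Nat.card S * (p * r) := by
        rw [h1]; ring
      exact Nat.eq_of_mul_eq_mul_left Nat.card_pos h3
    have h4 := Sylow.not_dvd_index S
    rw [h2] at h4
    rw [← Nat.not_even_iff_odd]
    intro hev
    exact h4 (Dvd.dvd.mul_left (even_iff_two_dvd.mp hev) p)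
  · intro i hi hmem
    apply hi
    apply hcop _ hmem
    rw [← pow_mul, mul_comm, pow_mul, ← hordy, pow_orderOf_eq_one, one_pow]

end Cfsg.Agent.Lib.Helper25.SelfCentChar
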